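import Cfsg.Agent.H42.PcDefs

/-! Project PC: the end of the local analysis. -/

set_option autoImplicit false

namespace Cfsg.Agent.H21.PcE2

open Subgroup Cfsg.Agent.H42.Pc

universe u

theorem e2 : E2Stmt.{u} := by
  intro G _ _ T U y c yU yT h
  have hy : y ∈ centralizer (T : Set G) := fun w hw => (h w hw).eq.symm
  have hT : T ≤ centralizer (T : Set G) := by
    intro w hw
    obtain ⟨g, hg⟩ := c.cc y yU (y * w) (mul_mem yU (c.le hw)) yT
      (fun k => yT ((mul_mem_cancel_right hw).1 k))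
    have h1 : g * y * g⁻¹ ∈ centralizer (T : Set G) := by
      intro v hv
      have := hy _ (c.nT.conj_mem v hv g⁻¹)
      calc v * (g * y * g⁻¹) = g * (g⁻¹ * v * g⁻¹⁻¹ * y) * g⁻¹ := by group
        _ = g * y * g⁻¹ * v := by rw [this]; group
    have h2 : y * w ∈ centralizer (T : Set G) := zpowers_le.2 h1 (hg ▸ mem_zpowers _)
    exact (mul_mem_cancel_left hy).1 h2
  have hD : Dr T y = ⊥ := by
    refine commutator_eq_bot_iff_le_centralizer.2 (sup_le ?_ ?_)
    · exact le_centralizer_iff.1 (sup_le hT (zpowers_le.2 hy))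
    · exact le_centralizer_iff.1 (sup_le (le_centralizer_iff.1 (zpowers_le.2 hy)) (le_centralizer _))
  refine eq_bot_iff.2 ((closure_le _).2 ?_)
  rintro _ ⟨w, hw, rfl⟩
  exact hD ▸ c.dr y yU yT w hw

theorem endd (cent : CentStmt.{u}) (e1 : E1Stmt.{u}) : EndStmt.{u} := by
  intro G _ _ T U c ev h
  obtain ⟨t, t1, t2, t3, k⟩ := cent G T U c ev
  have e := e1 G T U t c h t2 t3
  rcases k with ⟨a, ha, k⟩ | k
  · exact e2 G T U _ c (mul_mem (inv_mem ha) (c.nU.conj_mem a ha t)) k (e a ha).2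
  · refine e2 G T U (t * t) c t2 (fun k => t1 ((c.mem t).2 k)) fun w hw => ?_
    obtain ⟨a, ha, f⟩ := k w hw
    have : w = a⁻¹ * (t * a * t⁻¹) * (w⁻¹ * (a⁻¹ * (t * a * t⁻¹)))⁻¹ := by group
    rw [this]
    exact (e a ha).1.symm.mul_right ((h _ f).2 _ t2).symm.inv_right

end Cfsg.Agent.H21.PcE2
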