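import Cfsg.Agent.H49.BN2Defs

/-!
# Moufang sets with abelian root groups
-/

set_option autoImplicit false

namespace Cfsg.Agent.H21.BN2M

open Cfsg.Agent.H49.BN2 Subgroup MulAction

universe u

section Abs

variable {K Ω : Type*} [Group K] [MulAction K Ω]

/-- An abelian root group at `a`. -/
structure Rt (R : Subgroup K) (a : Ω) : Prop where
  fix : ∀ r ∈ R, r • a = a
  tr : ∀ b c, b ≠ a → c ≠ a → ∃ r ∈ R, r • b = c
  com : ∀ r ∈ R, ∀ r' ∈ R, r * r' = r' * r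
  nrm : ∀ g : K, g • a = a → ∀ r ∈ R, g * r * g⁻¹ ∈ R

variable {R R' D : Subgroup K} {a b : Ω}

theorem Rt.ne (h : Rt R a) {r : K} (hr : r ∈ R) (hb : b ≠ a) : r • b ≠ a := fun e =>
  hb (by rw [← inv_smul_smul r b, e, h.fix _ (inv_mem hr)])

theorem Rt.conj (h : Rt R a) (g : K) : Rt (R.map (MulAut.conj g).toMonoidHom) (g • a) where
  fix := by
    rintro _ ⟨r, hr, rfl⟩
    simp [mul_smul, h.fix r hr]
  tr b c hb hc := by
    obtain ⟨r, hr, e⟩ := h.tr (g⁻¹ • b) (g⁻¹ • c) (fun e => hb (by rw [← e, smul_inv_smul]))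
      (fun e => hc (by rw [← e, smul_inv_smul]))
    exact ⟨_, ⟨r, hr, rfl⟩, by simp [mul_smul, e]⟩
  com := by
    rintro _ ⟨r, hr, rfl⟩ _ ⟨r', hr', rfl⟩
    rw [← map_mul, ← map_mul, h.com r hr r' hr']
  nrm := by
    rintro k hk _ ⟨r, hr, rfl⟩
    refine ⟨_, h.nrm (g⁻¹ * k * g) (by rw [mul_smul, mul_smul, hk, inv_smul_smul]) r hr, ?_⟩
    simp [mul_assoc]

variable [FaithfulSMul K Ω]

theorem Rt.reg (h : Rt R a) {r : K} (hr : r ∈ R) (hb : b ≠ a) (e : r • b = b) : r = 1 := by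
  refine FaithfulSMul.eq_of_smul_eq_smul (α := Ω) fun c => ?_
  rw [one_smul]
  by_cases hc : c = a
  · rw [hc, h.fix r hr]
  obtain ⟨s, hs, rfl⟩ := h.tr b c hb hc
  rw [← mul_smul, h.com r hr s hs, mul_smul, e]

theorem Rt.ext (h : Rt R a) {r r' : K} (hr : r ∈ R) (hr' : r' ∈ R) (hb : b ≠ a)
    (e : r • b = r' • b) : r = r' :=
  (inv_mul_eq_one.1 (h.reg (mul_mem (inv_mem hr') hr) hb
    (by rw [mul_smul, e, inv_smul_smul]))).symm

/-- An element fixing both points and inverting one root group inverts the other. -/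
theorem inv_other (h : Rt R a) (h' : Rt R' b) (hab : b ≠ a) (h2 : ∀ r ∈ R, r * r = 1 → r = 1)
    {k : K} (ka : k • a = a) (kb : k • b = b) (hk : ∀ r ∈ R, k * r * k⁻¹ = r⁻¹) :
    ∀ r ∈ R', k * r * k⁻¹ = r⁻¹ := by
  have e1 : ∀ r ∈ R, k • r • b = r⁻¹ • b := fun r hr => by
    rw [← hk r hr, mul_smul, mul_smul, inv_smul_eq_iff.2 kb.symm]
  have e2 : k * k = 1 := by
    refine FaithfulSMul.eq_of_smul_eq_smul (α := Ω) fun c => ?_
    rw [one_smul, mul_smul]
    by_cases hc : c = a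
    · rw [hc, ka, ka]
    obtain ⟨s, hs, rfl⟩ := h.tr b c hab hc
    rw [e1 s hs, e1 _ (inv_mem hs), inv_inv]
  intro r hr
  have h1 := h'.nrm k kb r hr
  have e3 : k * (r * (k * r * k⁻¹)) = r * (k * r * k⁻¹) * k := by
    conv_rhs => rw [h'.com r hr _ h1]
    rw [inv_eq_of_mul_eq_one_left e2]
    simp only [mul_assoc]
  have e4 : (r * (k * r * k⁻¹)) • a = a := by
    by_contra n
    obtain ⟨s, hs, e⟩ := h.tr b _ hab n
    have e5 : k • s • b = s • b := by rw [e, ← mul_smul, e3, mul_smul, ka]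
    rw [e1 s hs] at e5
    have e6 := h2 s hs (by
      have := h.ext (inv_mem hs) hs hab e5
      nth_rewrite 1 [← this]
      exact inv_mul_cancel s)
    rw [e6, one_smul] at e
    exact h'.ne (mul_mem hr h1) hab.symm e.symm
  exact eq_inv_of_mul_eq_one_right (h'.reg (mul_mem hr h1) hab.symm e4)

/-- The case of odd characteristic; `a = ∞`, `b = 0`. -/
theorem odd_case (h : Rt R a) (h' : Rt R' b) (hab : b ≠ a)
    (h2 : ∀ r ∈ R', ∀ W : Subgroup K, r * r ∈ W → r ∈ W) {k : K} (ka : k • a = a) (kb : k • b = b)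
    (hk : ∀ r ∈ R, k * r * k⁻¹ = r⁻¹) (hk' : ∀ r ∈ R', k * r * k⁻¹ = r⁻¹)
    (Da : ∀ d ∈ D, d • a = a) (Db : ∀ d ∈ D, d • b = b)
    (hN : ∀ g : K, g • a = b → g • b = a → ∀ d ∈ D, g * d * g⁻¹ ∈ D)
    {x : Ω} (xa : x ≠ a) (xb : x ≠ b) (hx : ∀ d ∈ D, d • x = x) (c : Ω) : ∀ d ∈ D, d • c = c := by
  have e1 : ∀ r ∈ R, k • r • b = r⁻¹ • b := fun r hr => by
    rw [← hk r hr, mul_smul, mul_smul, inv_smul_eq_iff.2 kb.symm]
  have e2 : ∀ r ∈ R', k • r • a = r⁻¹ • a := fun r hr => by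
    rw [← hk' r hr, mul_smul, mul_smul, inv_smul_eq_iff.2 ka.symm]
  have w1 : ∀ s ∈ R', s ∈ centralizer (D : Set K) ↔ ∀ d ∈ D, d • s • a = s • a := by
    intro s hs
    refine ⟨fun H d hd => by rw [← mul_smul, H d hd, mul_smul, Da d hd], fun H d hd => ?_⟩
    refine mul_inv_eq_iff_eq_mul.1 (h'.ext (h'.nrm d (Db d hd) s hs) hs hab.symm ?_)
    rw [mul_smul, mul_smul, Da _ (inv_mem hd), H d hd]
  have star : ∀ s ∈ R', ∀ t ∈ R, s • a = t • b → ∀ y ∈ R', y ≠ 1 → y ∈ centralizer (D : Set K) →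
      ∀ t' ∈ R, (s * y⁻¹) • a = t' • b →
      ∃ w ∈ R', w ∈ centralizer (D : Set K) ∧ (t * t'⁻¹) • b = (s * w) • a := by
    intro s hs t ht e y hy y1 hyD t' ht' e'
    have m1 : (s⁻¹ * t * s⁻¹) • b = a := by
      rw [mul_smul, mul_smul, h'.fix _ (inv_mem hs), ← e, inv_smul_smul]
    have m2 : (s⁻¹ * t * s⁻¹) • a = b := by
      rw [mul_smul, mul_smul, ← e2 s hs, e, e1 t ht, smul_inv_smul, h'.fix _ (inv_mem hs)]
    have m3 : s⁻¹ • y • a = t'⁻¹ • b := by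
      rw [← e1 t' ht', ← e', e2 _ (mul_mem hs (inv_mem hy)), mul_inv_rev, inv_inv,
        h'.com y hy _ (inv_mem hs), mul_smul]
    have m4 : (s⁻¹ * t * s⁻¹) • y • a ≠ b := fun e4 => y1 (h'.reg hy hab.symm
      (MulAction.injective (s⁻¹ * t * s⁻¹) (e4.trans m2.symm)))
    obtain ⟨w, hw, m5⟩ := h'.tr a _ hab.symm m4
    refine ⟨w, hw, (w1 w hw).2 fun d hd => ?_, ?_⟩
    · have m6 := hN (s⁻¹ * t * s⁻¹)⁻¹ (inv_smul_eq_iff.2 m1.symm) (inv_smul_eq_iff.2 m2.symm) d hd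
      have m7 := (w1 y hy).1 hyD _ m6
      rw [mul_smul, mul_smul, inv_inv, inv_smul_eq_iff] at m7
      rw [m5, m7]
    · rw [mul_smul s, m5, mul_smul, mul_smul, mul_smul, smul_inv_smul, m3]
  by_contra hc
  have cb : c ≠ b := fun e => hc (e ▸ Db)
  obtain ⟨s, hs, rfl⟩ := h'.tr a c hab.symm cb
  have sD : s ∉ centralizer (D : Set K) := fun e => hc ((w1 s hs).1 e)
  obtain ⟨y, hy, rfl⟩ := h'.tr a x hab.symm xb
  have yD := (w1 y hy).2 hx
  have y1 : y ≠ 1 := fun e => xa (by rw [e, one_smul])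
  obtain ⟨t, ht, et⟩ := h.tr b (s • a) hab fun e => sD (by
    rw [h'.reg hs hab.symm e]; exact one_mem _)
  have hsy := mul_mem hs (inv_mem hy)
  obtain ⟨t', ht', et'⟩ := h.tr b ((s * y⁻¹) • a) hab fun e => sD (by
    rw [mul_inv_eq_one.1 (h'.reg hsy hab.symm e)]; exact yD)
  obtain ⟨w, hw, wD, f1⟩ := star s hs t ht et.symm y hy y1 yD t' ht' et'.symm
  obtain ⟨w', hw', wD', f2⟩ := star _ hsy t' ht' et'.symm y⁻¹ (inv_mem hy) (inv_ne_one.2 y1)
    (inv_mem yD) t ht (by rw [inv_inv, inv_mul_cancel_right, et])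
  have f3 := congrArg (k • ·) f2
  simp only [e1 _ (mul_mem ht' (inv_mem ht)), e2 _ (mul_mem hsy hw')] at f3
  rw [mul_inv_rev, inv_inv, f1] at f3
  have f4 := eq_inv_iff_mul_eq_one.1 (h'.ext (mul_mem hs hw) (inv_mem (mul_mem hsy hw')) hab.symm f3)
  refine sD (h2 s hs _ ?_)
  have f5 : s * s = (w * y⁻¹ * w')⁻¹ := by
    refine eq_inv_of_mul_eq_one_left ?_
    rw [← f4, mul_assoc s w, ← mul_assoc w, ← mul_assoc w, h'.com w hw s hs]
    simp only [mul_assoc]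
  rw [f5]
  exact inv_mem (mul_mem (mul_mem wD (inv_mem yD)) wD')

theorem mem_of_sq {p : ℕ} (hp : p.Prime) (h2 : p ≠ 2) (hR : IsPGroup p R) {r : K} (hr : r ∈ R)
    {W : Subgroup K} (h : r * r ∈ W) : r ∈ W := by
  obtain ⟨n, hn⟩ := hR ⟨r, hr⟩
  have hn' : r ^ p ^ n = 1 := congrArg Subtype.val hn
  obtain ⟨m, hm⟩ := (hp.odd_of_ne_two h2).pow (n := n)
  rw [hm, pow_succ, pow_mul, pow_two] at hn'
  rw [eq_inv_of_mul_eq_one_right hn']
  exact inv_mem (pow_mem h m)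

theorem abs [Finite Ω] [Finite K] {p n : ℕ} (hp : p.Prime) (hc : Nat.card Ω = p ^ (n + 1) + 1)
    (hab : b ≠ a) (h : Rt R a) (hR : IsPGroup p R) (htr : ∀ c, ∃ g : K, g • a = c)
    (hD : IsPGroup p D) (Da : ∀ d ∈ D, d • a = a) (Db : ∀ d ∈ D, d • b = b)
    (hN : ∀ g : K, g • a = b → g • b = a → ∀ d ∈ D, g * d * g⁻¹ ∈ D)
    (h2 : p = 2 → ∀ r ∈ R, r * r = 1)
    (hodd : p ≠ 2 → ∃ k : K, k • a = a ∧ ∀ r ∈ R, k * r * k⁻¹ * r = 1) (c : Ω) :
    ∀ d ∈ D, d • c = c := by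
  have := Fact.mk hp
  by_cases hp2 : p = 2
  · subst hp2
    by_cases ca : c = a
    · exact ca ▸ Da
    by_cases cb : c = b
    · exact cb ▸ Db
    obtain ⟨g, rfl⟩ := htr c
    have h' := h.conj g
    obtain ⟨r, hr, e⟩ := h'.tr a b (Ne.symm ca) (Ne.symm cb)
    have r2 : r * r = 1 := by
      obtain ⟨r, hr, rfl⟩ := hr
      rw [← map_mul, h2 rfl r hr, map_one]
    have e' : r • b = a := by rw [← e, ← mul_smul, r2, one_smul]
    have hP : IsPGroup 2 ↥(zpowers r ⊔ D) := by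
      refine IsPGroup.to_sup_of_normal_right' ?_ hD
        (zpowers_le.2 (mem_normalizer_fintype (hN r e e')))
      rintro ⟨_, m, rfl⟩
      exact ⟨1, Subtype.ext (by
        change (r ^ m) ^ 2 ^ 1 = 1
        rw [pow_one, ← zpow_natCast, ← zpow_mul, mul_comm, zpow_mul, zpow_natCast, pow_two, r2,
          one_zpow])⟩
    obtain ⟨w, hw⟩ := hP.nonempty_fixed_point_of_prime_not_dvd_card Ω (by rw [hc]; omega)
    have e2 : w = g • a := by
      by_contra n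
      have := h'.reg hr n (hw ⟨r, mem_sup_left (mem_zpowers r)⟩)
      rw [this, one_smul] at e
      exact hab e.symm
    intro d hd
    rw [← e2]
    exact hw ⟨d, mem_sup_right hd⟩
  obtain ⟨k0, k1, k2⟩ := hodd hp2
  obtain ⟨t, ht, et⟩ := h.tr (k0 • b) b (fun e => hab (MulAction.injective k0 (e.trans k1.symm))) hab
  have ka : (t * k0) • a = a := by rw [mul_smul, k1, h.fix t ht]
  have kb : (t * k0) • b = b := by rw [mul_smul, et]
  have hk : ∀ r ∈ R, t * k0 * r * (t * k0)⁻¹ = r⁻¹ := fun r hr => by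
    calc _ = t * (k0 * r * k0⁻¹) * t⁻¹ := by group
      _ = r⁻¹ := by
        rw [eq_inv_of_mul_eq_one_left (k2 r hr), h.com t ht _ (inv_mem hr), mul_inv_cancel_right]
  obtain ⟨g, hg⟩ := htr b
  have h' := h.conj g
  rw [hg] at h'
  obtain ⟨x, hx, xa, xb⟩ : ∃ x ∈ fixedPoints D Ω, x ≠ a ∧ x ≠ b := by
    by_contra! H
    have e : fixedPoints D Ω = {a, b} := by
      refine Set.Subset.antisymm (fun x hx => ?_) ?_
      · by_cases e : x = a
        · exact Or.inl e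
        · exact Or.inr (H x hx e)
      · rintro x (rfl | rfl)
        exacts [fun d => Da d d.2, fun d => Db d d.2]
    have e2 := hD.card_modEq_card_fixedPoints Ω
    rw [e, hc, Nat.card_coe_set_eq, Set.ncard_pair hab.symm] at e2
    have e3 : p ∣ 1 := by
      have := (Nat.ModEq.add_right_cancel' 1 (b := 1) e2).symm.dvd
      have h4 : (p : ℤ) ∣ ((p ^ (n + 1) : ℕ) : ℤ) := by exact_mod_cast dvd_pow_self p n.succ_ne_zero
      have := (dvd_sub h4 this)
      exact_mod_cast (by simpa using this : (p : ℤ) ∣ 1)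
    exact hp.one_lt.ne' (Nat.dvd_one.1 e3)
  exact odd_case h h' hab (fun r hr W => mem_of_sq hp hp2 (hR.map _) hr) ka kb hk
    (inv_other h h' hab (fun r hr e => mem_bot.1 (mem_of_sq hp hp2 hR hr (mem_bot.2 e))) ka kb hk)
    Da Db hN xa xb (fun d hd => hx ⟨d, hd⟩) c

end Abs

variable {n p : ℕ} {X G : Type u} [Group G] [MulAction G X] (S : Sys n p X G)

/-- The neighbours of `x` as a set acted on by the stabiliser. -/
def Om (x : X) : SubMulAction (stabilizer G x) X where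
  carrier := S.toPol.nb x
  smul_mem' g y hy := by
    have h := S.d_smul (g : G) x y
    rw [mem_stabilizer_iff.1 g.2] at h
    exact h.trans hy

/-- The permutation group induced on the neighbours. -/
abbrev Kx (x : X) : Subgroup (Equiv.Perm (Om S x)) := (toPermHom (stabilizer G x) (Om S x)).range

/-- The projection to the induced group. -/
def pr (x : X) : stabilizer G x →* Kx S x := (toPermHom (stabilizer G x) (Om S x)).rangeRestrict

theorem pr_smul {x : X} (g : stabilizer G x) (w : Om S x) : (pr S x g • w).1 = (g : G) • w.1 := rfl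

theorem pr_surj (x : X) : Function.Surjective (pr S x) := MonoidHom.rangeRestrict_surjective _

theorem pr_eq {x : X} {g g' : stabilizer G x}
    (h : ∀ w, S.d x w = 1 → (g : G) • w = (g' : G) • w) : pr S x g = pr S x g' :=
  FaithfulSMul.eq_of_smul_eq_smul (α := Om S x) fun w => Subtype.ext (h w.1 w.2)

theorem ms : MsStmt.{u} := by
  intro n p X G _ _ _ _ S _ b1 b2 x α R hα hRV htr hcom hnrm h2 hodd
  have hV : ∀ g ∈ S.V x α, g ∈ stabilizer G x := S.V_fix x α hα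
  have hV' : ∀ y, S.d x y = 1 → ∀ g ∈ S.V x y, g • y = y := fun y hy g hg =>
    S.V_fix y x (by rw [S.d_symm, hy]) g (S.V_symm x y ▸ hg)
  have fl : ∀ y z, S.d x y = 1 → S.d x z = 1 → ∃ g : G, g • x = x ∧ g • y = z := fun y z hy hz =>
    b2.flag x y x z hy hz (by rw [(S.d_zero x x).2 rfl]; exact Even.zero)
  suffices H : ∀ β, S.d x β = 1 → β ≠ α → ∀ g ∈ S.V x α, g • β = β → ∀ w, S.d x w = 1 → g • w = w by
    intro y z hy hz hyz g hg e v hv
    obtain ⟨k, k1, k2⟩ := fl y α hy hα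
    have hg' := S.V_conj x y hy k g hg
    rw [k1, k2] at hg'
    rcases Nat.le_one_iff_eq_zero_or_eq_one.1 hv with h0 | h1
    · rw [← (S.d_zero x v).1 h0]; exact S.V_fix x y hy g hg
    have := H (k • z) (by rw [← k1, S.d_smul, hz])
      (fun e' => hyz (MulAction.injective k (k2.trans e'.symm))) _ hg'
      (by rw [mul_smul, mul_smul, inv_smul_smul, e]) (k • v) (by rw [← k1, S.d_smul, h1])
    rw [mul_smul, mul_smul, inv_smul_smul] at this
    exact MulAction.injective k this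
  intro β hβ hβα g hg e w hw
  have hRt : Rt ((R.subgroupOf (stabilizer G x)).map (pr S x)) (⟨α, hα⟩ : Om S x) := by
    refine ⟨?_, fun b c hb hc => ?_, ?_, ?_⟩
    · rintro _ ⟨r, hr, rfl⟩
      exact Subtype.ext (hV' α hα _ (hRV hr))
    · obtain ⟨r, hr, e⟩ := htr b.1 c.1 b.2 c.2 (fun e => hb (Subtype.ext e))
        (fun e => hc (Subtype.ext e))
      exact ⟨_, ⟨⟨r, hV r (hRV hr)⟩, hr, rfl⟩, Subtype.ext e⟩
    · rintro _ ⟨r, hr, rfl⟩ _ ⟨r', hr', rfl⟩
      rw [← map_mul, ← map_mul]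
      exact pr_eq S (hcom _ hr _ hr')
    · rintro k hk _ ⟨r, hr, rfl⟩
      obtain ⟨k, rfl⟩ := pr_surj S x k
      obtain ⟨r', hr', e⟩ := hnrm k k.2 (congrArg Subtype.val hk) _ hr
      refine ⟨⟨r', hV r' (hRV hr')⟩, hr', ?_⟩
      rw [← map_inv, ← map_mul, ← map_mul]
      exact (pr_eq S e).symm
  obtain ⟨m, hm⟩ := b2.q_pow x
  have hc : Nat.card (Om S x) = p ^ (m + 1) + 1 := by
    have h1 : Nat.card (Om S x) = (S.toPol.nb x).ncard := Nat.card_coe_set_eq _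
    have h3 := b1.two_le_q x
    rw [← hm, h1]
    unfold Pol.q at h3 ⊢
    omega
  have pg : ∀ A : Subgroup G, A ≤ S.V x α →
      IsPGroup p ((A.subgroupOf (stabilizer G x)).map (pr S x)) := fun A hA =>
    (((S.V_p x α hα).to_le hA).comap_subtype).map _
  have key := abs (D := ((S.V x α ⊓ stabilizer G β).subgroupOf (stabilizer G x)).map (pr S x))
    (b := ⟨β, hβ⟩) S.hp hc (fun e => hβα (congrArg Subtype.val e)) hRt (pg R hRV) ?_
    (pg _ inf_le_left) ?_ ?_ ?_ ?_ ?_ ⟨w, hw⟩ _ ⟨⟨g, hV g hg⟩, ⟨hg, e⟩, rfl⟩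
  · exact congrArg Subtype.val key
  · intro c
    obtain ⟨k, k1, k2⟩ := fl α c.1 hα c.2
    exact ⟨pr S x ⟨k, k1⟩, Subtype.ext k2⟩
  · rintro _ ⟨d, hd, rfl⟩
    exact Subtype.ext (hV' α hα _ hd.1)
  · rintro _ ⟨d, hd, rfl⟩
    exact Subtype.ext hd.2
  · rintro k k1 k2 _ ⟨d, hd, rfl⟩
    obtain ⟨k, rfl⟩ := pr_surj S x k
    have k1' : (k : G) • α = β := congrArg Subtype.val k1
    have k2' : (k : G) • β = α := congrArg Subtype.val k2
    have h3 := S.V_conj x α hα k d hd.1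
    rw [mem_stabilizer_iff.1 k.2, k1'] at h3
    refine ⟨k * d * k⁻¹, ⟨S.V_uni x β α hβ hα _ h3 ?_, hV' β hβ _ h3⟩, by simp⟩
    change ((k : G) * d * (k : G)⁻¹) • α = α
    have h4 : (d : G) • β = β := hd.2
    rw [← k2', mul_smul, mul_smul, inv_smul_smul, h4]
  · rintro hp _ ⟨r, hr, rfl⟩
    rw [← map_mul, ← map_one (pr S x)]
    exact pr_eq S fun w hw => (h2 hp _ hr w hw).trans (one_smul G w).symm
  · intro hp
    obtain ⟨k, k1, k2, k3⟩ := hodd hp
    refine ⟨pr S x ⟨k, k1⟩, Subtype.ext k2, ?_⟩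
    rintro _ ⟨r, hr, rfl⟩
    rw [← map_inv, ← map_mul, ← map_mul, ← map_mul, ← map_one (pr S x)]
    exact pr_eq S fun w hw => (k3 _ hr w hw).trans (one_smul G w).symm

end Cfsg.Agent.H21.BN2M
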