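import Cfsg.Agent.H49.BN2Red
import Cfsg.Agent.H7.T3Cx
import Cfsg.Agent.H62.T3Ba1

/-!
# The generalized polygon of a residue of rank two
-/

set_option autoImplicit false

namespace Cfsg.Agent.H21.BN2P

open Cfsg.Agent.H35 Cfsg.Agent.Lead.T3 Cfsg.Agent.H49.BN2
open Cfsg.Agent.H7 Cfsg.Agent.H62

universe u

variable {I W : Type} [Group W] {X : Cox I W} {C : Type u}

/-- The two types. -/
def ty (i j : I) (b : Bool) : I := cond b i j

theorem ty_mem (i j : I) (b : Bool) : ty i j b ∈ ({i, j} : Set I) := by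
  cases b <;> simp [ty]

theorem ty_surj {i j k : I} (hk : k ∈ ({i, j} : Set I)) : ∃ b, ty i j b = k := by
  rcases hk with rfl | rfl
  exacts [⟨true, rfl⟩, ⟨false, rfl⟩]

theorem ty_inj {i j : I} (hij : i ≠ j) {b b' : Bool} (h : ty i j b = ty i j b') : b = b' := by
  cases b <;> cases b' <;> simp_all [ty]

theorem ty_cases {i j k : I} (hk : k ∈ ({i, j} : Set I)) (b : Bool) :
    k = ty i j b ∨ k = ty i j (!b) := by
  rcases hk with rfl | rfl <;> cases b <;> simp [ty]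

variable (B : Bld X C) (i j : I) (c : C)

/-- The panels of the residue. -/
abbrev Y : Type u := {p : Bool × Set C // ∃ x ∈ B.res {i, j} c, p.2 = B.res {ty i j p.1} x}

open Classical in
/-- The panel of a chamber. -/
noncomputable def V (b : Bool) (x : C) : Y B i j c :=
  if h : x ∈ B.res {i, j} c then ⟨(b, B.res {ty i j b} x), x, h, rfl⟩
  else ⟨(b, B.res {ty i j b} c), c, T3B.mem_res B _ c, rfl⟩

variable {B i j c}

theorem adj_mem {x y : C} {k : I} (h : B.δ x y = X.s k) : y ∈ B.res {k} x := by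
  change B.δ x y ∈ X.WJ {k}
  rw [h]
  exact T3Cx.s_mem X rfl

theorem V_val {x : C} (h : x ∈ B.res {i, j} c) (b : Bool) :
    (V B i j c b x).1 = (b, B.res {ty i j b} x) := by rw [V, dif_pos h]

theorem V_ty (b : Bool) (x : C) : (V B i j c b x).1.1 = b := by
  unfold V; split_ifs <;> rfl

theorem mem_V {x y : C} (h : x ∈ B.res {i, j} c) {b : Bool} :
    y ∈ (V B i j c b x).1.2 ↔ y ∈ B.res {ty i j b} x := by rw [V_val h]

theorem self_V {x : C} (h : x ∈ B.res {i, j} c) (b : Bool) : x ∈ (V B i j c b x).1.2 :=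
  (mem_V h).2 (T3B.mem_res B _ x)

theorem res_of {v : Y B i j c} {x : C} (hx : x ∈ v.1.2) : v.1.2 = B.res {ty i j v.1.1} x := by
  obtain ⟨y, -, hy⟩ := v.2
  rw [hy] at hx
  rw [hy, T3B.res_eq B hx]

theorem mem_R {v : Y B i j c} {x : C} (hx : x ∈ v.1.2) : x ∈ B.res {i, j} c := by
  obtain ⟨y, h, hy⟩ := v.2
  rw [hy] at hx
  exact T3B.res_trans B h (T3Cx.WJ_mono X (Set.singleton_subset_iff.2 (ty_mem i j _)) hx)

theorem eq_V {v : Y B i j c} {x : C} (hx : x ∈ v.1.2) : v = V B i j c v.1.1 x :=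
  Subtype.ext (by rw [V_val (mem_R hx), ← res_of hx])

theorem ne_Y (v : Y B i j c) : ∃ x, x ∈ v.1.2 := by
  obtain ⟨y, -, hy⟩ := v.2
  exact ⟨y, hy ▸ T3B.mem_res B _ y⟩

theorem V_eq {x y : C} (hx : x ∈ B.res {i, j} c) (hy : y ∈ B.res {i, j} c) (b : Bool) :
    V B i j c b x = V B i j c b y ↔ B.δ x y ∈ X.WJ {ty i j b} := by
  constructor
  · intro h
    exact (mem_V hx).1 (h ▸ self_V hy b)
  · intro h
    have := eq_V ((mem_V hx).2 h)
    rwa [V_ty] at this

theorem V_ne (b : Bool) (x y : C) : V B i j c b x ≠ V B i j c (!b) y := fun h => by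
  have := congrArg (fun v : Y B i j c => v.1.1) h
  simp [V_ty] at this

theorem δ_mem {x y : C} (hx : x ∈ B.res {i, j} c) (hy : y ∈ B.res {i, j} c) :
    B.δ x y ∈ X.WJ {i, j} := T3B.res_trans B (T3B.res_symm B hx) hy

/-- The least distance of chambers of two panels. -/
noncomputable def M (v w : Y B i j c) : ℕ :=
  sInf {n | ∃ x ∈ v.1.2, ∃ y ∈ w.1.2, n = X.len (B.δ x y)}

theorem M_le {v w : Y B i j c} {x y : C} (hx : x ∈ v.1.2) (hy : y ∈ w.1.2) :
    M v w ≤ X.len (B.δ x y) := Nat.sInf_le ⟨x, hx, y, hy, rfl⟩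

theorem M_ex (v w : Y B i j c) : ∃ x ∈ v.1.2, ∃ y ∈ w.1.2, M v w = X.len (B.δ x y) := by
  obtain ⟨x, hx⟩ := ne_Y v
  obtain ⟨y, hy⟩ := ne_Y w
  exact Nat.sInf_mem (s := {n | ∃ x ∈ v.1.2, ∃ y ∈ w.1.2, n = X.len (B.δ x y)})
    ⟨_, x, hx, y, hy, rfl⟩

theorem len_symm (x y : C) : X.len (B.δ x y) = X.len (B.δ y x) := by rw [B.symm x y, X.len_inv]

theorem M_symm (v w : Y B i j c) : M v w = M w v := by
  have key : ∀ v w : Y B i j c, M v w ≤ M w v := fun v w => by
    obtain ⟨x, hx, y, hy, h⟩ := M_ex w v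
    rw [h, len_symm]
    exact M_le hy hx
  exact le_antisymm (key v w) (key w v)

theorem M_eq {v w : Y B i j c} {x y : C} (hx : x ∈ v.1.2) (hy : y ∈ w.1.2)
    (h1 : X.len (B.δ x y) ≤ X.len (X.s (ty i j v.1.1) * B.δ x y))
    (h2 : X.len (B.δ x y) ≤ X.len (B.δ x y * X.s (ty i j w.1.1))) : M v w = X.len (B.δ x y) := by
  refine le_antisymm (M_le hx hy) ?_
  obtain ⟨x', hx', y', hy', h⟩ := M_ex v w
  rw [h]
  rw [res_of hx'] at hx
  rw [res_of hy'] at hy
  obtain ⟨a, ha, e1⟩ := T3B.coset B y' hx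
  obtain ⟨b, hb, e2⟩ := T3B.coset B x hy
  refine X.exch.min_of_isDRed (K := {ty i j v.1.1}) (I := {ty i j w.1.1})
    ⟨by rintro _ rfl; exact h1, by rintro _ rfl; exact h2⟩ _ ⟨a, ha, b⁻¹, inv_mem hb, ?_⟩
  rw [e1, B.symm y' x, e2, mul_inv_rev, ← B.symm, mul_assoc]

/-- A minimal pair is reduced on the left. -/
theorem red_left {v : Y B i j c} {x y : C} (hx : x ∈ v.1.2)
    (h : ∀ x' ∈ v.1.2, X.len (B.δ x y) ≤ X.len (B.δ x' y)) :
    X.len (B.δ x y) ≤ X.len (X.s (ty i j v.1.1) * B.δ x y) := by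
  obtain ⟨x', h1, h2⟩ := B.ex (ty i j v.1.1) x y
  rw [← h2]
  refine h x' ?_
  rw [res_of hx]
  exact T3B.res_symm B (adj_mem h1)

open Classical in
/-- The distance in the incidence graph. -/
noncomputable def d (v w : Y B i j c) : ℕ := if v = w then 0 else M v w + 1

theorem d_self (v : Y B i j c) : d v v = 0 := if_pos rfl

theorem d_ne {v w : Y B i j c} (h : v ≠ w) : d v w = M v w + 1 := if_neg h

theorem d_zero (v w : Y B i j c) : d v w = 0 ↔ v = w :=
  ⟨fun h => by_contra fun n => by rw [d_ne n] at h; omega, fun h => h ▸ d_self v⟩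

theorem d_symm (v w : Y B i j c) : d v w = d w v := by
  by_cases h : v = w
  · rw [h]
  · rw [d_ne h, d_ne (Ne.symm h), M_symm]

theorem d_one {v w : Y B i j c} :
    d v w = 1 ↔ ∃ x ∈ B.res {i, j} c, ∃ b, v = V B i j c b x ∧ w = V B i j c (!b) x := by
  constructor
  · intro h
    have n : v ≠ w := fun e => by rw [e, d_self] at h; omega
    rw [d_ne n] at h
    obtain ⟨x, hx, y, hy, e⟩ := M_ex v w
    obtain rfl : x = y := (B.eq_one x y).1 (X.len_eq_zero_iff.1 (by omega))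
    refine ⟨x, mem_R hx, v.1.1, eq_V hx, ?_⟩
    have h1 := eq_V hx
    have h2 := eq_V hy
    rw [h2]
    congr 1
    by_contra e'
    exact n (by rw [h1, h2, Bool.eq_not.not.1 e' |> not_not.1])
  · rintro ⟨x, hx, b, rfl, rfl⟩
    have := M_le (self_V hx b) (self_V hx (!b))
    rw [T3B.self B, X.len_one] at this
    rw [d_ne (V_ne b x x)]
    omega

variable [Finite W]

theorem len_le {g : W} (hg : g ∈ X.WJ {i, j}) : X.len g ≤ X.m i j := by
  rw [← T3Cx.len_wJ_pair]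
  exact (X.wJ_spec _).2 g hg

theorem len_longest {g : W} (hg : X.IsLongest {i, j} g) : X.len g = X.m i j := by
  rw [X.exch.isLongest_unique hg (X.wJ_spec _), T3Cx.len_wJ_pair]

theorem eq_wJ {g : W} (hg : g ∈ X.WJ {i, j}) (h : X.m i j ≤ X.len g) : g = X.wJ {i, j} :=
  X.exch.isLongest_unique ⟨hg, fun _ hv => (len_le hv).trans h⟩ (X.wJ_spec _)

theorem lt_of_red {g : W} (hg : g ∈ X.WJ {i, j}) {k : I} (hk : k ∈ ({i, j} : Set I))
    (h : X.len g ≤ X.len (X.s k * g)) : X.len g < X.m i j := by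
  have h1 := len_le (mul_mem (T3Cx.s_mem X hk) hg)
  rcases X.exch.len_s_mul k g with e | e <;> omega

theorem d_le (v w : Y B i j c) : d v w ≤ X.m i j := by
  by_cases h : v = w
  · rw [h, d_self]; exact Nat.zero_le _
  obtain ⟨x, hx, y, hy, e⟩ := M_ex v w
  rw [d_ne h, e]
  exact lt_of_red (δ_mem (mem_R hx) (mem_R hy)) (ty_mem i j _)
    (red_left hx fun x' hx' => e ▸ M_le hx' hy)

/-- The distances from a panel to the two panels of a chamber. -/
theorem key {z : Y B i j c} {p e : C} (hp : p ∈ z.1.2) (he : e ∈ B.res {i, j} c)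
    (h : X.len (B.δ p e) ≤ X.len (X.s (ty i j z.1.1) * B.δ p e)) :
    ∃ k, d z (V B i j c k e) = X.len (B.δ p e) ∧
      d z (V B i j c (!k) e) = X.len (B.δ p e) + 1 := by
  have hg := δ_mem (mem_R hp) he
  by_cases h1 : B.δ p e = 1
  · obtain rfl := (B.eq_one p e).1 h1
    refine ⟨z.1.1, ?_, ?_⟩
    · rw [← eq_V hp, d_self, h1, X.len_one]
    · rw [h1, X.len_one]
      exact d_one.2 ⟨p, he, z.1.1, eq_V hp, rfl⟩
  have n : ∀ b, z ≠ V B i j c b e := fun b hb => by
    have h2 : e ∈ z.1.2 := hb ▸ self_V he b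
    rw [res_of hp] at h2
    rcases (T3Cx.mem_WJ_single X _ _).1 h2 with h3 | h3
    · exact h1 h3
    · rw [h3, X.s_mul_s, X.len_one, T3Cx.len_s] at h
      omega
  obtain ⟨k0, hk0, h2⟩ := X.exch.exists_right_descent_mem hg h1
  obtain ⟨k, rfl⟩ := ty_surj hk0
  have h3 : X.len (B.δ p e) ≤ X.len (B.δ p e * X.s (ty i j (!k))) := by
    by_contra h4
    have h5 := len_longest (X.exch.isLongest_of_right hg fun l hl => by
      rcases ty_cases hl k with rfl | rfl <;> omega)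
    have := lt_of_red hg (ty_mem i j _) h
    omega
  refine ⟨k, ?_, ?_⟩
  · obtain ⟨e', h4, h5⟩ := B.ex (ty i j k) e p
    have h6 : B.δ p e' = B.δ p e * X.s (ty i j k) := by
      rw [B.symm e' p, h5, mul_inv_rev, ← B.symm, X.inv_s]
    have h7 : e' ∈ (V B i j c k e).1.2 :=
      (mem_V he).2 (T3B.res_symm B (adj_mem h4))
    rw [d_ne (n k), M_eq hp h7, h6, h2]
    · rw [h6, ← mul_assoc]
      have := X.len_le_len_mul_s (ty i j k) (X.s (ty i j z.1.1) * B.δ p e)
      omega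
    · rw [V_ty, h6, X.s_mul_s_cancel_right]
      omega
  · rw [d_ne (n _), M_eq hp (self_V he _) h (by rwa [V_ty])]

theorem key' (z : Y B i j c) {e : C} (he : e ∈ B.res {i, j} c) :
    ∃ p ∈ z.1.2, (∀ y ∈ z.1.2, X.len (B.δ p e) ≤ X.len (B.δ y e)) ∧
      ∃ k, d z (V B i j c k e) = X.len (B.δ p e) ∧
        d z (V B i j c (!k) e) = X.len (B.δ p e) + 1 := by
  obtain ⟨x, hx⟩ := ne_Y z
  obtain ⟨p, hp, h⟩ := T3B.exists_gate B {ty i j z.1.1} x e
  have hp' : p ∈ z.1.2 := res_of hx ▸ hp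
  refine ⟨p, hp', fun y hy => ?_, key hp' he (h _ rfl)⟩
  rw [res_of hx] at hy
  rw [(T3B.gate B hp h hy).2]
  omega

theorem step (x y z : Y B i j c) (h : d x y = 1) : d y z = d x z + 1 ∨ d x z = d y z + 1 := by
  obtain ⟨e, he, b, rfl, rfl⟩ := d_one.1 h
  obtain ⟨p, -, -, k, h1, h2⟩ := key' z he
  rw [d_symm _ z, d_symm _ z]
  by_cases hk : k = b
  · subst hk; omega
  · obtain rfl : b = !k := Bool.eq_not.2 (Ne.symm hk)
    rw [Bool.not_not]; omega

theorem ex (x z : Y B i j c) (h : x ≠ z) : ∃ y, d x y = 1 ∧ d y z + 1 = d x z := by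
  obtain ⟨p, hp, e, he, h1⟩ := M_ex z x
  obtain ⟨k, h2, h3⟩ := key hp (mem_R he) (red_left hp fun x' hx' => h1 ▸ M_le hx' he)
  have h4 : d z x = X.len (B.δ p e) + 1 := by rw [d_ne (Ne.symm h), h1]
  have h5 := eq_V he
  refine ⟨V B i j c (!x.1.1) e, d_one.2 ⟨e, mem_R he, _, h5, rfl⟩, ?_⟩
  rw [d_symm _ z, d_symm _ z]
  by_cases hk : k = x.1.1
  · rw [hk, ← h5] at h2; omega
  · rw [← Bool.eq_not.2 hk, h2, h4]

omit [Finite W] in
theorem nb {x y : Y B i j c} (h : d x y = 1) :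
    ∃ e ∈ x.1.2, y = V B i j c (!x.1.1) e := by
  obtain ⟨e, he, b, rfl, rfl⟩ := d_one.1 h
  exact ⟨e, self_V he b, by rw [V_ty]⟩

theorem closer {x z : Y B i j c} {e : C} (he : e ∈ x.1.2)
    (h : d (V B i j c (!x.1.1) e) z < d x z) :
    ∃ p ∈ z.1.2, X.len (B.δ p e) + 1 = d x z := by
  obtain ⟨p, hp, -, k, h1, h2⟩ := key' z (mem_R he)
  refine ⟨p, hp, ?_⟩
  rw [d_symm _ z, d_symm _ z] at h
  rw [d_symm _ z]
  by_cases hk : k = x.1.1
  · rw [hk] at h1 h2
    rw [← eq_V he] at h1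
    omega
  · obtain rfl := Bool.eq_not.2 hk
    rw [Bool.not_not, ← eq_V he] at h2
    omega

theorem uniq (x y y' z : Y B i j c) (h : d x z < X.m i j) (h1 : d x y = 1) (h2 : d x y' = 1)
    (h3 : d y z < d x z) (h4 : d y' z < d x z) : y = y' := by
  obtain ⟨e, he, rfl⟩ := nb h1
  obtain ⟨e', he', rfl⟩ := nb h2
  obtain ⟨p, hp, h5⟩ := closer he h3
  obtain ⟨p', hp', h6⟩ := closer he' h4
  have n : x ≠ z := fun e => by rw [e, d_self] at h3; omega
  have h7 : d x z = M z x + 1 := by rw [d_ne n, M_symm]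
  by_contra n'
  have h8 : B.δ e' e = X.s (ty i j x.1.1) := by
    have := he
    rw [res_of he'] at this
    refine ((T3Cx.mem_WJ_single X _ _).1 this).resolve_left fun h9 => n' ?_
    rw [(B.eq_one _ _).1 h9]
  have m1 : ∀ a ∈ x.1.2, ∀ b ∈ z.1.2, X.len (B.δ e p) ≤ X.len (B.δ a b) := fun a ha b hb => by
    have := M_le hb ha
    rw [len_symm a b, len_symm e p]
    omega
  have r1 := red_left he fun a ha => m1 a ha p hp
  have r2 : X.len (B.δ p e) ≤ X.len (X.s (ty i j z.1.1) * B.δ p e) :=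
    red_left hp fun b hb => by rw [len_symm p e, len_symm b e]; exact m1 e he b hb
  have e1 := B.step_up _ e' e p h8 r1
  have l1 : X.len (B.δ e' p) = X.len (B.δ e p) + 1 := by
    rw [e1]
    rcases X.exch.len_s_mul (ty i j x.1.1) (B.δ e p) with h9 | h9 <;> omega
  rw [len_symm p e] at h5
  rw [len_symm p' e'] at h6
  have h9 : B.δ p' p = X.s (ty i j z.1.1) := by
    have := hp
    rw [res_of hp'] at this
    refine ((T3Cx.mem_WJ_single X _ _).1 this).resolve_left fun h9 => ?_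
    rw [(B.eq_one _ _).1 h9] at h6
    omega
  have e2 : X.len (X.s (ty i j z.1.1) * B.δ p e') ≤ X.len (B.δ p e') := by
    rcases B.step _ p' p e' h9 with h10 | h10
    · rw [← h10, len_symm p' e', len_symm p e']; omega
    · rw [len_symm e' p', h10, len_symm p e'] at h6; omega
  have e3 : B.δ p e' = B.δ p e * X.s (ty i j x.1.1) := by
    rw [B.symm e' p, e1, mul_inv_rev, ← B.symm, X.inv_s]
  have hg := δ_mem (mem_R hp) (mem_R he)
  by_cases h1 : B.δ p e = 1
  · obtain rfl := (B.eq_one _ _).1 h1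
    rw [e3, h1, one_mul] at e2
    have := T3Cx.mem_of_descent X (T3Cx.s_mem X (J := {ty i j x.1.1}) rfl) e2
    have h11 : z.1.1 = x.1.1 := by
      by_contra h12
      have h13 : X.m i j = 1 := by
        have : i = j := by
          revert this h12
          cases z.1.1 <;> cases x.1.1 <;> simp [ty, eq_comm]
        rw [this, Cox.m, X.s_mul_s, orderOf_one]
      omega
    exact n (by rw [eq_V he, eq_V hp, h11])
  obtain ⟨k, hk, h10⟩ := X.exch.exists_left_descent_mem hg h1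
  have h11 := len_longest (X.exch.isLongest_of_left (δ_mem (mem_R hp) (mem_R he')) fun l hl => by
    rcases ty_cases hl z.1.1 with rfl | rfl
    · exact e2
    · rcases ty_cases hk z.1.1 with rfl | rfl
      · omega
      · have := X.len_mul_s_le (ty i j x.1.1) (X.s (ty i j !z.1.1) * B.δ p e)
        rw [len_symm p e', l1, e3, ← mul_assoc, len_symm e p]
        omega)
  rw [len_symm p e'] at h11
  omega

omit [Finite W] in
theorem thick (hij : i ≠ j) (x y y' : Y B i j c) : ∃ w, d x w = 1 ∧ w ≠ y ∧ w ≠ y' := by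
  obtain ⟨e, he⟩ := ne_Y x
  obtain ⟨e1, e2, n, h1, h2⟩ := B.thick (ty i j x.1.1) e
  have he1 : e1 ∈ x.1.2 := res_of he ▸ adj_mem h1
  have he2 : e2 ∈ x.1.2 := res_of he ▸ adj_mem h2
  have a1 : ∀ a ∈ x.1.2, d x (V B i j c (!x.1.1) a) = 1 := fun a ha =>
    d_one.2 ⟨a, mem_R ha, _, eq_V ha, rfl⟩
  have a2 : ∀ a ∈ x.1.2, ∀ b ∈ x.1.2, B.δ a b = X.s (ty i j x.1.1) →
      V B i j c (!x.1.1) a ≠ V B i j c (!x.1.1) b := fun a ha b hb h e => by
    have := (V_eq (mem_R ha) (mem_R hb) _).1 e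
    rw [h, T3Cx.s_mem_iff] at this
    simpa using ty_inj hij this
  have n1 := a2 e he e1 he1 h1
  have n2 := a2 e he e2 he2 h2
  have n3 := a2 e1 he1 e2 he2 (T3B.adj_of_ne B h1 h2 n)
  by_contra! H
  have b0 := H _ (a1 e he)
  have b1 := H _ (a1 e1 he1)
  have b2 := H _ (a1 e2 he2)
  by_cases h0 : V B i j c (!x.1.1) e = y
  · exact n3 ((b1 (h0 ▸ n1.symm)).trans (b2 (h0 ▸ n2.symm)).symm)
  by_cases h3 : V B i j c (!x.1.1) e1 = y
  · exact n2 ((b0 h0).trans (b2 (h3 ▸ n3.symm)).symm)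
  · exact n1 ((b0 h0).trans (b1 h3).symm)

/-- The polygon. -/
noncomputable def pol (hij : i ≠ j) : Pol (X.m i j) (Y B i j c) where
  d := d
  d_zero := d_zero
  d_symm := d_symm
  d_le := d_le
  step := step
  ex := ex
  uniq := uniq
  thick := thick hij

theorem par (n : ℕ) : ∀ v w : Y B i j c, d v w = n → (Even n ↔ v.1.1 = w.1.1) := by
  induction n with
  | zero => intro v w h; rw [(d_zero v w).1 h]; simp
  | succ n ih =>
    intro v w h
    obtain ⟨y, h1, h2⟩ := ex v w fun e => by rw [e, d_self] at h; omega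
    obtain ⟨e, -, rfl⟩ := nb h1
    rw [Nat.even_add_one, ih (V B i j c (!v.1.1) e) w (by omega), V_ty]
    cases v.1.1 <;> cases w.1.1 <;> simp

theorem opp_of {x y : C} (hx : x ∈ B.res {i, j} c) (hy : y ∈ B.res {i, j} c)
    (h : B.δ x y = X.wJ {i, j}) (k : Bool) :
    ∃ l, d (V B i j c k x) (V B i j c l y) = X.m i j := by
  obtain ⟨p, hp, -, l, -, h2⟩ := key' (V B i j c k x) hy
  refine ⟨!l, le_antisymm (d_le _ _) ?_⟩
  have h3 := T3B.triangle B x p y
  rw [h, T3Cx.len_wJ_pair] at h3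
  rcases (T3Cx.mem_WJ_single X _ _).1 ((mem_V hx).1 hp) with e | e
  · rw [e, X.len_one] at h3; omega
  · rw [e, T3Cx.len_s] at h3; omega

theorem of_opp (hm : 3 ≤ X.m i j) {x y : C} (hx : x ∈ B.res {i, j} c) (hy : y ∈ B.res {i, j} c)
    (h : ∀ k, ∃ l, d (V B i j c k x) (V B i j c l y) = X.m i j) : B.δ x y = X.wJ {i, j} := by
  have hg := δ_mem hx hy
  have h1 : ∀ k, ∀ x' ∈ (V B i j c k x).1.2, X.m i j ≤ X.len (B.δ x' y) + 1 := fun k x' hx' => by
    obtain ⟨l, hl⟩ := h k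
    rw [d_ne fun e => by rw [e, d_self] at hl; omega] at hl
    have := M_le hx' (self_V hy l)
    omega
  refine eq_wJ hg ?_
  by_contra h2
  have h3 := h1 true x (self_V hx _)
  obtain ⟨k0, hk0, h4⟩ := X.exch.exists_left_descent_mem hg fun e => by
    rw [e, X.len_one] at h3; omega
  obtain ⟨k, rfl⟩ := ty_surj hk0
  have := red_left (y := y) (self_V hx k) fun x' hx' => by have := h1 k x' hx'; omega
  rw [V_ty] at this
  omega

theorem poly1 : Poly1Stmt.{u} := by
  intro I W _ _ X C _ B i j c hij hm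
  refine ⟨Y B i j c, inferInstance, pol hij, V B i j c true, V B i j c false,
    fun x hx y hy => V_eq hx hy true, fun x hx y hy => V_eq hx hy false,
    fun x _ y _ => V_ne true x y, fun v w => d_one.trans ?_,
    fun x _ y _ => (par _ _ _ rfl).2 (by rw [V_ty, V_ty]), fun x hx y hy => ?_⟩
  · simp only [Bool.exists_bool, Bool.not_false, Bool.not_true, or_comm]
  have a1 : ∀ z ∈ B.res {i, j} c, ∀ b, d (V B i j c b z) (V B i j c (!b) z) = 1 :=
    fun z hz b => d_one.2 ⟨z, hz, b, rfl, rfl⟩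
  constructor
  · intro h
    obtain ⟨l, hl⟩ := opp_of hx hy h true
    obtain ⟨l', hl'⟩ := opp_of hx hy h false
    have n : l ≠ l' := by
      rintro rfl
      have := step _ _ (V B i j c l y) (a1 x hx true)
      rw [Bool.not_true] at this
      omega
    cases l <;> cases l'
    · exact absurd rfl n
    · exact Or.inr ⟨a1 x hx true, a1 y hy false, hl, hl'⟩
    · exact Or.inl ⟨a1 x hx true, a1 y hy true, hl, hl'⟩
    · exact absurd rfl n
  · rintro (⟨-, -, h1, h2⟩ | ⟨-, -, h1, h2⟩) <;> refine of_opp hm hx hy fun k => ?_ <;> cases k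
    exacts [⟨_, h2⟩, ⟨_, h1⟩, ⟨_, h2⟩, ⟨_, h1⟩]

end Cfsg.Agent.H21.BN2P
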