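import Cfsg.Agent.H72.CSDefs
import Cfsg.Agent.H58.Avg
import Cfsg.Agent.H24.PrimeDeg
import Cfsg.Agent.H19.GaloisNum
import Cfsg.Agent.S4709
import Cfsg.Agent.S0105

/-! The principal block when the automizer of an abelian Sylow subgroup has order two. -/

set_option autoImplicit false
set_option linter.unusedSectionVars false

namespace Cfsg.Agent.H21.CS

open Cfsg Cfsg.Agent.H72.CS Subgroup

universe u

theorem arith1 {d δ r a : ℤ} (hδ : δ = 1 ∨ δ = -1) (hr : 2 ≤ r) (ha : a ≠ 0)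
    (h : (d - δ) ^ 2 + (r - 1) * d ^ 2 + (1 + a ^ 2) = 3) :
    (a = 1 ∨ a = -1) ∧ (r * d - δ = 1 ∨ r * d - δ = -1) := by
  have h1 : d ^ 2 ≤ (r - 1) * d ^ 2 := by nlinarith [sq_nonneg d]
  have h2 := sq_nonneg (d - δ)
  have h3 := sq_nonneg d
  have h4 : a ≤ 1 := by nlinarith
  have h5 : -1 ≤ a := by nlinarith
  have h6 : a = 1 ∨ a = -1 := by omega
  have h7 : a ^ 2 = 1 := by rcases h6 with rfl | rfl <;> norm_num
  refine ⟨h6, ?_⟩
  have h8 : d ≤ 1 := by nlinarith
  have h9 : -1 ≤ d := by nlinarith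
  rw [h7] at h
  rcases hδ with rfl | rfl <;> interval_cases d <;> omega

variable {G : Type u} [Group G] [Finite G] [IsSimpleGroup G]

theorem not_solv (hG : ¬ IsMulCommutative G) : ¬ Group.IsSolvable G := fun h =>
  hG ⟨⟨IsSimpleGroup.comm_iff_isSolvable.2 h⟩⟩

/-- a degree which is a power of `q` is the order of an abelian Sylow `q`-subgroup -/
theorem deg_eq (hG : ¬ IsMulCommutative G) {q : ℕ} [hq : Fact q.Prime] (Q : Sylow q G)
    (hQ : IsMulCommutative Q) {θ : IrrCharacter G} (h1 : θ.1 ≠ fun _ => 1)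
    (h : ∀ r : ℕ, r.Prime → r ∣ charDegree θ.1 → r = q) : charDegree θ.1 = Nat.card Q := by
  have hd := H24.deg_dvd_card θ.2
  have e := Nat.eq_prime_pow_of_unique_prime_dvd (ne_zero_of_dvd_ne_zero Nat.card_pos.ne' hd)
    (fun {r} => h r)
  refine Nat.dvd_antisymm (e ▸ Q.pow_dvd_card_of_pow_dvd_card (e ▸ hd))
    (H24.card_dvd_deg_of_vanish (H11.irr_isCharacter θ) _ fun x hx hx1 => ?_)
  have h2 : (Q : Subgroup G) ≤ centralizer {x} := fun y hy =>
    H92.mem_C.2 (congrArg Subtype.val (hQ.is_comm.comm ⟨y, hy⟩ ⟨x, hx⟩))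
  refine (H12.irr_eq_zero_or_norm_eq θ.2 (cast_deg θ).symm x ?_).resolve_right fun h3 => hx1 ?_
  · rw [e]
    exact (hq.out.coprime_iff_not_dvd.2 (H92.not_dvd_index_of_sylow_le Q h2)).pow_left _
  · have h4 : center G = ⊥ := (IsSimpleGroup.eq_bot_or_eq_top_of_normal _ inferInstance).resolve_right
      fun h => hG ⟨⟨fun a b => (mem_center_iff.1 (h ▸ mem_top b) a)⟩⟩
    rw [← mem_bot, ← h4, ← H11.charCenter_eq_center θ.2 (H11.charKer_eq_bot_of_isSimpleGroup θ.2 h1),
      H11.mem_charCenter_iff (H11.irr_isCharacter θ), h3, ← cast_deg, Complex.norm_natCast]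

theorem frob (hG : ¬ IsMulCommutative G) {p : ℕ} [Fact p.Prime] (P : Sylow p G)
    (hP : IsMulCommutative P) {y : G} (hy : y ∈ (P : Subgroup G))
    (h : normalizer ((P : Subgroup G) : Set G) ≤ centralizer {y}) : y = 1 := by
  obtain ⟨K, hK, ⟨e⟩⟩ := S0105.result P hP
  have hm : y ∈ (P : Subgroup G) ⊓ centralizer (normalizer (P : Set G) : Set G) :=
    ⟨hy, fun g hg => H92.mem_C.1 (h hg)⟩
  rcases hK.eq_bot_or_eq_top with rfl | rfl
  · refine absurd ⟨⟨fun a b => (QuotientGroup.quotientBot.symm.trans e).injective ?_⟩⟩ hG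
    rw [map_mul, map_mul]
    generalize QuotientGroup.quotientBot.symm.trans e a = x
    generalize QuotientGroup.quotientBot.symm.trans e b = y
    exact Subtype.ext (congrArg (Subtype.val : P → G) (hP.is_comm.comm ⟨x, x.2.1⟩ ⟨y, y.2.1⟩))
  · have := QuotientGroup.subsingleton_quotient_top (G := G)
    exact congrArg Subtype.val (e.symm.injective (Subsingleton.elim (e.symm ⟨y, hm⟩) (e.symm 1)))

theorem two_cases {C N K : Subgroup G} (h : C.relIndex N = 2) (h1 : C ≤ K) (h2 : K ≤ N) :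
    K = C ∨ K = N := by
  have e := relIndex_mul_relIndex C K N h1 h2
  rw [h] at e
  rcases (Nat.dvd_prime Nat.prime_two).1 (Dvd.intro _ e) with h3 | h3
  · exact Or.inl (le_antisymm (relIndex_eq_one.1 h3) h1)
  · rw [h3] at e
    exact Or.inr (le_antisymm h2 (relIndex_eq_one.1 (by omega)))

theorem odd_card {p : ℕ} [hp : Fact p.Prime] (h2 : p ≠ 2) (P : Sylow p G) : Odd (Nat.card P) := by
  obtain ⟨k, hk⟩ := P.isPGroup'.exists_card_eq
  exact hk ▸ (hp.out.odd_of_ne_two h2).pow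

theorem ch : ChStmt.{u} := by
  intro G _ _ _ hG p q hp hq p2 q2 pq hpr P Q hP hQ hi hQ1 hQP
  classical
  have := Fintype.ofFinite G
  obtain ⟨M, hM⟩ := H19.exists_isPModular hp.out
  obtain ⟨n, hn⟩ := odd_card p2 P
  obtain ⟨n', hn'⟩ := odd_card q2 Q
  have hCN : centralizer ((P : Subgroup G) : Set G) ≤ normalizer ((P : Subgroup G) : Set G) :=
    centralizer_le_normalizer _
  obtain ⟨s, X, Y, hs, -, hXY, hX, hY, ⟨χ₁, m₁, e₁⟩, a, d, δ, -, hδ, ha, -, -, -, -, h1, -, h2⟩ :=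
    S4709.result p M hM P hP (by omega) 2 one_lt_two (by omega) hi (by
      obtain ⟨g, hg, hg'⟩ := SetLike.not_le_iff_exists.1 fun h => by
        rw [relIndex_eq_one.2 h] at hi; omega
      exact ⟨g, hg, (two_cases hi le_sup_left (sup_le hCN (zpowers_le.2 hg))).resolve_left
        fun e => hg' (e ▸ mem_sup_right (mem_zpowers g))⟩)
    fun y hy hy1 => (two_cases hi (le_inf (centralizer_le (Set.singleton_subset_iff.2 hy)) hCN)
      inf_le_right).resolve_right fun e => hy1 (frob hG P hP hy (e.ge.trans inf_le_left))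
  have pp : ∀ y ∈ (P : Subgroup G), ∀ w ∈ centralizer ((P : Subgroup G) : Set G), ¬ p ∣ orderOf w →
      IsPPart p (y * w) y := fun y hy w hw hw' => ⟨w, rfl, hw y hy, by
    obtain ⟨k, hk⟩ := IsPGroup.iff_orderOf.1 P.isPGroup' ⟨y, hy⟩
    exact ⟨k, by rw [← hk, orderOf_mk]⟩, hw'⟩
  have p1 : ¬ p ∣ orderOf (1 : G) := by rw [orderOf_one, Nat.dvd_one]; exact hp.out.ne_one
  have val : ∀ χ ∈ X, ∀ y ∈ (P : Subgroup G), y ≠ 1 → χ.1 y = a χ := fun χ hχ y hy hy1 => by
    have := (ha χ hχ).2 _ y (pp y hy 1 (one_mem _) p1) hy hy1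
    rwa [mul_one] at this
  have a1 : a χ₁ = 1 := by
    obtain ⟨y, hy, hy1⟩ := (ne_bot_iff_exists_ne_one.1 fun e : (P : Subgroup G) = ⊥ => by
      have := card_eq_one.2 e; omega).imp fun y h => And.intro y.2 h
    have := val χ₁ m₁ y hy fun e => hy1 (Subtype.ext e)
    exact_mod_cast this.symm.trans (congrFun e₁ y)
  have hr : (Nat.card P - 1) / 2 = n := by omega
  obtain ⟨η, hη⟩ : Y.Nonempty := by
    rw [Set.nonempty_iff_ne_empty]
    rintro rfl
    rw [Nat.card_of_isEmpty] at hY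
    omega
  have ne1 : ∀ χ : IrrCharacter G, χ ≠ χ₁ → χ.1 ≠ fun _ => 1 := fun χ h e =>
    h (Subtype.ext (e.trans e₁.symm))
  have gt1 : ∀ χ : IrrCharacter G, χ ≠ χ₁ → 1 < charDegree χ.1 := fun χ h => by
    have := H24.deg_ne_one_of_simple (not_solv hG) χ.2 (ne1 χ h)
    have := ne_zero_of_dvd_ne_zero Nat.card_pos.ne' (H24.deg_dvd_card χ.2)
    omega
  have η1 : η ≠ χ₁ := fun e => Set.disjoint_left.1 hXY m₁ (e ▸ hη)
  have v1 := gt1 η η1
  have h3 := h2 η hη 1 p1
  rw [hr] at h3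
  have fin : X.Finite := Set.toFinite X
  obtain ⟨χ, hne, rfl⟩ : ∃ χ, χ ≠ χ₁ ∧ X = {χ₁, χ} := by
    by_contra hc
    obtain rfl : X = {χ₁} := by
      refine Set.eq_singleton_iff_unique_mem.2 ⟨m₁, fun χ hχ => by_contra fun e => hc ⟨χ, e, ?_⟩⟩
      refine (Set.eq_of_subset_of_ncard_le (Set.pair_subset m₁ hχ) ?_ fin).symm
      rw [Set.ncard_pair (Ne.symm e), ← Nat.card_coe_set_eq, hX]
      exact hs
    rw [finsum_mem_singleton, a1, e₁, ← cast_deg] at h3
    have h4 : ((n : ℤ) * d - δ) * charDegree η.1 + 1 = 0 := by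
      beta_reduce at h3
      exact_mod_cast h3
    have := Int.natAbs_dvd_natAbs.2 (Dvd.intro_left (-((n : ℤ) * d - δ))
      (show _ * (charDegree η.1 : ℤ) = 1 by linear_combination -h4))
    simp at this
    omega
  rw [finsum_mem_pair hne.symm, a1] at h1 h3
  rw [e₁, ← cast_deg, ← cast_deg] at h3
  have u1 := gt1 χ hne
  have mχ : χ ∈ ({χ₁, χ} : Set _) := Or.inr rfl
  have h4 : ((n : ℤ) * d - δ) * charDegree η.1 + (1 + a χ * charDegree χ.1) = 0 := by
    beta_reduce at h3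
    exact_mod_cast h3
  obtain ⟨h5, h6⟩ := arith1 (r := n) (d := d) hδ (by omega) (ha χ mχ).1 (by
    rw [show ((Nat.card P : ℤ) - 1) / (2 : ℕ) = n by omega] at h1
    push_cast at h1
    linear_combination h1)
  have h7 : (charDegree η.1 : ℤ) = charDegree χ.1 + a χ := by
    rcases h5 with h5 | h5 <;> rcases h6 with h6 | h6 <;> rw [h5, h6] at h4 <;> omega
  have h8 := H58.card_mul_fixDim P (H11.irr_isCharacter χ)
  rw [H58.sumOn_of_const (val χ mχ), ← cast_deg] at h8
  have h9 : (Nat.card P : ℤ) * H58.fixDim P χ.1 = charDegree χ.1 + (Nat.card P - 1) * a χ := by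
    exact_mod_cast h8
  have pP : (p : ℤ) ∣ Nat.card P := by
    obtain ⟨k, hk⟩ := P.isPGroup'.exists_card_eq
    refine Int.natCast_dvd_natCast.2 (hk ▸ dvd_pow_self p ?_)
    rintro rfl
    rw [pow_zero] at hk
    omega
  have pu : ¬ p ∣ charDegree χ.1 := fun h => by
    have h10 : (p : ℤ) ∣ a χ := by
      have := ((pP.mul_right (a χ - H58.fixDim P χ.1)).add (Int.natCast_dvd_natCast.2 h))
      rwa [show (Nat.card P : ℤ) * (a χ - H58.fixDim P χ.1) + charDegree χ.1 = a χ by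
        linear_combination -h9] at this
    have := Int.natAbs_dvd_natAbs.2 h10
    rcases h5 with h5 | h5 <;> rw [h5] at this <;> exact hp.out.ne_one (by simpa using this)
  have pv : ¬ p ∣ charDegree η.1 := fun h => by
    have h10 : (p : ℤ) ∣ 2 * a χ := by
      have := ((pP.mul_right (a χ - H58.fixDim P χ.1)).add (Int.natCast_dvd_natCast.2 h))
      rwa [show (Nat.card P : ℤ) * (a χ - H58.fixDim P χ.1) + charDegree η.1 = 2 * a χ by
        linear_combination h7 - h9] at this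
    have := Int.natAbs_dvd_natAbs.2 h10
    refine p2 ((Nat.prime_dvd_prime_iff_eq hp.out Nat.prime_two).1 ?_)
    rcases h5 with h5 | h5 <;> rw [h5] at this <;> simpa using this
  have odd : ∀ θ : IrrCharacter G, θ ≠ χ₁ → ¬ p ∣ charDegree θ.1 → ¬ 2 ∣ charDegree θ.1 →
      charDegree θ.1 = Nat.card Q := fun θ h k1 k2 => deg_eq hG Q hQ (ne1 θ h) fun r hr hd => by
    rcases hpr r hr (hd.trans (H24.deg_dvd_card θ.2)) with rfl | rfl | rfl
    exacts [absurd hd k2, absurd hd k1, rfl]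
  have h10 : charDegree χ.1 = Nat.card Q ∨ charDegree η.1 = Nat.card Q := by
    by_cases h : 2 ∣ charDegree χ.1
    · exact Or.inr (odd η η1 pv (by omega))
    · exact Or.inl (odd χ hne pu h)
  obtain ⟨b1, b2, b3, b4⟩ : a χ = -1 ∧ H58.fixDim P χ.1 = 0 ∧ charDegree χ.1 + 1 = Nat.card P ∧
      charDegree χ.1 = Nat.card Q + 1 := by
    generalize H58.fixDim P χ.1 = k at h9
    rcases h5 with h5 | h5 <;> rw [h5] at h7 h9
    · obtain _ | _ | k := k
      · omega
      · omega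
      · have : (0 : ℤ) ≤ Nat.card P * k := by positivity
        push_cast at h9
        rw [mul_add, mul_add] at h9
        omega
    · obtain _ | k := k
      · omega
      · have : (0 : ℤ) ≤ Nat.card P * k := by positivity
        push_cast at h9
        rw [mul_add] at h9
        omega
  constructor
  · refine P.is_maximal' (IsPGroup.iff_orderOf.2 fun g => ?_) fun x hx y hy =>
      congrArg Subtype.val (hP.is_comm.comm ⟨y, hy⟩ ⟨x, hx⟩)
    obtain ⟨x, w, -, hw, e, hx, hw'⟩ := H92.exists_p_parts hp.out (g : G)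
    have hwC := zpowers_le.2 g.2 hw
    have k1 := H58.sumOn_mul_eq_zero (H11.irr_isCharacter χ) b2 w
    rw [H58.sumOn_of_const (c := a χ) fun y hy hy1 => (ha χ mχ).2 _ y (pp y hy w hwC hw') hy hy1,
      one_mul, b1, ← b3] at k1
    have k2 : w ∈ H11.charKer χ.1 := (H11.mem_charKer_irr_iff χ.2).2 (by
      rw [← cast_deg]; push_cast at k1; linear_combination k1)
    rw [H11.charKer_eq_bot_of_isSimpleGroup χ.2 (ne1 χ hne), mem_bot] at k2
    rw [k2, mul_one] at e
    rwa [← orderOf_coe, e]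
  · have e := Nat.eq_prime_pow_of_unique_prime_dvd (p := 2) (n := charDegree χ.1) (by omega)
      fun {r} hr hd => by
        rcases hpr r hr (hd.trans (H24.deg_dvd_card χ.2)) with rfl | rfl | rfl
        · rfl
        · exact absurd hd pu
        · obtain ⟨k, hk⟩ := Q.isPGroup'.exists_card_eq
          have : r ∣ Nat.card Q := hk ▸ dvd_pow_self r (by rintro rfl; rw [pow_zero] at hk; omega)
          rw [b4] at hd
          exact absurd (Nat.dvd_one.1 ((Nat.dvd_add_right this).1 hd)) hr.ne_one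
    exact ⟨_, by rw [← e, b3], by rw [← e, b4]⟩

end Cfsg.Agent.H21.CS
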