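import Mathlib
import Cfsg.Agent.H50.E83Defs2

/-! The orthogonal lifts of a projective representation of `Q₈³`. -/

set_option autoImplicit false

namespace Cfsg.Agent.H21.E83Lift

open Cfsg.Agent.H50.E83 Module
open scoped Matrix

theorem J_sq : J16 * J16 = 1 := by
  ext a b
  simp only [J16, Matrix.mul_apply, Matrix.of_apply, ite_mul, one_mul, zero_mul,
    Finset.sum_ite_eq', Finset.mem_univ, if_true, Fin.rev_rev, Matrix.one_apply, eq_comm]

theorem isUnit_of_orth {A : M16} (h : Aᵀ * J16 * A = J16) : IsUnit A :=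
  IsUnit.of_mul_eq_one_right (J16 * (Aᵀ * J16)) (by rw [Matrix.mul_assoc, h, J_sq])

theorem z_central : ∀ g : Q3, (QuaternionGroup.a 2, 1, 1) * g = g * (QuaternionGroup.a 2, 1, 1) := by
  decide +kernel

theorem act_mem {z g : GK} (h : Commute z g) {v : V} (hv : v ∈ eig z 1) : act g v ∈ eig z 1 := by
  rw [mem_eig, one_smul] at hv ⊢
  rw [← Module.End.mul_apply, ← map_mul, h.eq, map_mul, Module.End.mul_apply, hv]

theorem lift (mu : MuStmt) (inv0 : Inv0Stmt) (r1a : Rep1aStmt) (r1b : Rep1bStmt) (r2 : Rep2Stmt)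
    (uniq : UniqStmt) (tsk : TskStmt) : LiftStmt := by
  intro φ hφ
  let z1 : Q3 := (QuaternionGroup.a 2, 1, 1)
  have zz : z1 * z1 = 1 := by decide
  obtain ⟨c, hc⟩ := inv0 (φ z1) (by rw [← map_mul, zz, map_one]) (by
    rw [hφ.2 z1, show cls z1 = 1 by decide]; rfl)
  let φ' : Q3 →* GK := (MulAut.conj c).toMonoidHom.comp φ
  have ht : ∀ g, tau (φ' g) = tau (φ g) := fun g => by
    have e : IsConj (φ g) (φ' g) := isConj_iff.2 ⟨c, rfl⟩
    rw [tau, tau, mu.1 _ _ _ e, mu.1 _ _ _ e]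
  obtain ⟨ψ, hψ⟩ := r2 _ _ (rep1_of r1a r1b (φ' z1) hc)
  have com : ∀ g, Commute (φ' z1) (φ' g) := fun g => Commute.map (z_central g) φ'
  choose L h1 h2 using fun g => hψ.2.2.2 (φ' g) (com g)
  refine ⟨L, h1, fun g g' => uniq _ _ ((isUnit_of_orth (h1 g)).mul (isUnit_of_orth (h1 g')))
    fun Y hY => ?_, fun g hg => uniq 1 _ isUnit_one fun Y hY => ?_, fun g => ?_⟩
  · obtain ⟨v, hv, rfl⟩ := hψ.2.1 Y hY
    rw [← h2 _ v hv, map_mul, map_mul, Module.End.mul_apply, h2 g _ (act_mem (com g') hv),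
      h2 g' v hv, Matrix.transpose_mul]
    simp only [Matrix.mul_assoc]
  · obtain ⟨v, hv, rfl⟩ := hψ.2.1 Y hY
    rw [← h2 _ v hv, Matrix.transpose_one, Matrix.one_mul, Matrix.mul_one]
    rcases hg with rfl | hg
    · rw [mem_eig.1 hv, one_smul]
    · rw [show φ' g = 1 by simp [φ', hφ.1 g hg], map_one, Module.End.one_apply]
  · rw [tsk _ _ ψ _ (by rw [← map_mul, zz, map_one]) hψ (com g) (h2 g), ← map_mul, ht, ht, hφ.2,
      hφ.2]

end Cfsg.Agent.H21.E83Lift
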