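import Cfsg.Agent.H40.F23Defs
import Cfsg.Prelude.Def_Spor_Fi23

/-! The structure of `C(z) / Q` in the `3`-local recognition of `Fi₂₃`: interfaces. -/

set_option autoImplicit false

universe u

namespace Cfsg.Agent.H21.F23

open Subgroup H23

/-- the module `Q / ⟨z⟩` -/
abbrev V8 : Type := Fin 8 → ZMod 3

/-- The frame: `X = C(z) / Q` acts faithfully on `Q / ⟨z⟩`. -/
structure Fr23 {G X : Type u} [Group G] [Group X] (z : G) (Q : Subgroup G) (D : V3 Q z V8)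
    (φ : centralizer ({z} : Set G) →* X) (ρ : X →* Module.End (ZMod 3) V8) : Prop where
  x3 : X3 Q z
  card : Nat.card Q = 3 ^ 9
  exp : ∀ q ∈ Q, q ^ 3 = 1
  norm : centralizer {z} ≤ normalizer (Q : Set G)
  self : centralizer (Q : Set G) ≤ Q
  surj : Function.Surjective φ
  ker : ∀ m : centralizer ({z} : Set G), φ m = 1 ↔ (m : G) ∈ Q
  act : ∀ m : centralizer ({z} : Set G), ∀ q ∈ Q, D.p (m * q * (m : G)⁻¹) = ρ (φ m) (D.p q)
  inj : Function.Injective ρ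

/-- The involution `δ` of `X` with `dim [V, δ] = 2` and its centralizer `P . 3²`; `e i` are the three
conjugates of `δ` under `O₂(X)`, each inverting one of the three planes that span `C_V(δ)`. -/
structure Lin23 {X : Type u} [Group X] (ρ : X →* Module.End (ZMod 3) V8) (δ : X) (e : Fin 3 → X)
    (P : Subgroup X) : Prop where
  dd : δ * δ = 1
  ne1 : δ ≠ 1
  conj : ∀ i, IsConj δ (e i)
  ne : ∀ i, e i ≠ δ
  card : ∀ i, Nat.card (LinearMap.ker (ρ (e i) + 1)) = 9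
  fix : ∀ i v, ρ (e i) v = -v → ρ δ v = v
  fix' : ∀ i j, i ≠ j → ∀ v, ρ (e i) v = -v → ρ (e j) v = v
  span : ∀ v, ρ δ v = v → ∃ w : Fin 3 → V8, (∀ i, ρ (e i) (w i) = -w i) ∧ v = w 0 + w 1 + w 2
  ker : ∀ x, Commute x δ → (∀ v, ρ δ v = v → ρ x v = v) → x = 1 ∨ x = δ
  o3 : ∀ T : Subgroup X, T ≤ centralizer {δ} → centralizer {δ} ≤ normalizer (T : Set X) →
    (∀ x ∈ T, ∃ n : ℕ, x ^ 3 ^ n ∈ zpowers δ) → T ≤ zpowers δ
  dP : δ ∈ P
  eP : ∀ i, e i ∈ P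
  cardP : Nat.card P = 256
  cen : P ≤ centralizer {δ}
  nP : centralizer {δ} ≤ normalizer (P : Set X)
  two : ∀ x, Commute x δ → ∀ n : ℕ, x ^ 2 ^ n = 1 → x ∈ P
  pe : ∀ x ∈ P, ∀ i, Commute x (e i)
  gen : ∀ N : Subgroup X, (∀ x, Commute x δ → x ^ 3 = 1 → x ∈ N) → centralizer {δ} ≤ N
  cardC : Nat.card (centralizer ({δ} : Set X)) = 2304

/-- Piece F23c. -/
def End23Stmt : Prop := ∀ (G X : Type u) [Group G] [Finite G] [Group X] (z : G) (Q : Subgroup G)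
  (D : V3 Q z V8) (φ : centralizer ({z} : Set G) →* X) (ρ : X →* Module.End (ZMod 3) V8)
  (d : centralizer ({z} : Set G)) (e : Fin 3 → X) (P : Subgroup X),
  Fr23 z Q D φ ρ → Lin23 ρ (φ d) e P → d * d = 1 →
  (∃ k, Commute k (d : G) ∧ Commute (k * z * k⁻¹) z ∧ k * z * k⁻¹ ∉ zpowers z) → Spor.IsoFi23 G

end Cfsg.Agent.H21.F23
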