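import Cfsg.Agent.H73.GagDefs
import Cfsg.Agent.H9.BaerSuzuki

/-!
# Involutions on a module in characteristic two whose vector stabilisers are 2-groups
-/

set_option autoImplicit false
set_option linter.unusedSectionVars false

namespace Cfsg.Agent.H21.GagA

open Subgroup Cfsg Cfsg.Agent.H73.Gag

universe u

variable {G V : Type u} [Group G] [Finite G] [AddCommGroup V] [DistribMulAction G V]

variable (V) in
/-- The map `1 + g`. -/
def nu (g : G) : V →+ V := DistribSMul.toAddMonoidHom V g + AddMonoidHom.id V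

theorem nu_apply (g : G) (v : V) : nu V g v = g • v + v := rfl

variable (h : SRM 2 G V)
include h

theorem mem_ker {g : G} {v : V} : v ∈ (nu V g).ker ↔ g • v = v := by
  rw [AddMonoidHom.mem_ker, nu_apply, add_eq_zero_iff_eq_neg,
    neg_eq_of_add_eq_zero_left (h.add_self v)]

theorem range_le {g : G} (hg : g * g = 1) : (nu V g).range ≤ (nu V g).ker := by
  rintro _ ⟨v, rfl⟩
  rw [mem_ker h, nu_apply, smul_add, ← mul_smul, hg, one_smul, add_comm]

omit h in
theorem card_mul (g : G) : Nat.card (nu V g).ker * Nat.card (nu V g).range = Nat.card V := by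
  rw [← AddSubgroup.index_ker, AddSubgroup.card_mul_index]

theorem le_sq {g : G} (hg : g * g = 1) : Nat.card V ≤ Nat.card (nu V g).ker ^ 2 := by
  have := h.fin
  rw [← card_mul g, sq]
  exact Nat.mul_le_mul_left _ (AddSubgroup.card_le_of_le (range_le h hg))

theorem two_of_fix {K : Subgroup G} {v : V} (hv : v ≠ 0) (hK : ∀ g ∈ K, g • v = v) :
    IsPGroup 2 K := (h.st v hv).to_le hK

variable (hc : pCore 2 G = ⊥)
include hc

theorem faithful (g : G) (hg : ∀ v : V, g • v = v) : g = 1 := by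
  have := h.nt
  obtain ⟨v, hv⟩ := exists_ne (0 : V)
  exact mem_bot.1 (hc ▸ H3.le_pCore (N := (MulAction.toPermHom G V).ker)
    (two_of_fix h hv fun g hg => Equiv.congr_fun hg v) (Equiv.ext hg))

theorem half {t : G} (ht : orderOf t = 2) : Nat.card (nu V t).ker ^ 2 = Nat.card V := by
  have := h.fin
  have h2 : t * t = 1 := by rw [← sq, ← ht, pow_orderOf_eq_one]
  obtain ⟨a, h1, ho, e⟩ := H9.exists_odd_inverted_of_not_mem_pCore h2 (by
    rw [hc, mem_bot]; rintro rfl; simp at ht)
  have h3 : t * a * (t * a) = 1 := by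
    rw [show t * a * (t * a) = t * a * t⁻¹ * (t * t) * a by group, e, h2]; simp
  have h4 : Nat.card (nu V t).ker * Nat.card (nu V (t * a)).ker ≤ Nat.card V := by
    rw [← Nat.card_prod]
    refine Nat.card_le_card_of_injective
      (((nu V t).ker.subtype).coprod ((nu V (t * a)).ker.subtype))
      ((injective_iff_map_eq_zero _).2 ?_)
    rintro ⟨⟨v, hv⟩, w, hw⟩ e
    obtain rfl : v = w := by
      rw [← neg_eq_of_add_eq_zero_left (h.add_self w)]
      exact eq_neg_of_add_eq_zero_left e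
    obtain rfl : v = 0 := h.fpf h1 ho.not_two_dvd_nat (by
      rw [mem_ker h] at hv hw
      rwa [mul_smul, ← hv, smul_left_cancel_iff, hv] at hw)
    rfl
  have h5 := le_sq h h2
  have h6 := le_sq h h3
  have h7 : 0 < Nat.card V := Nat.card_pos
  generalize Nat.card (nu V t).ker = x at *
  generalize Nat.card (nu V (t * a)).ker = y at *
  generalize Nat.card V = N at *
  refine le_antisymm (Nat.le_of_mul_le_mul_right (c := N) ?_ h7) h5
  calc x ^ 2 * N ≤ x ^ 2 * y ^ 2 := Nat.mul_le_mul_left _ h6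
    _ = (x * y) * (x * y) := by ring
    _ ≤ N * N := Nat.mul_le_mul h4 h4

theorem ker_eq {t a : G} (ht : orderOf t = 2) (ha : orderOf a = 2) (m : a ∈ AA V t) :
    (nu V t).ker = (nu V a).ker := by
  have := h.fin
  exact AddSubgroup.eq_of_le_of_card_ge (fun v hv => (mem_ker h).2 (m v ((mem_ker h).1 hv)))
    (Nat.pow_left_injective two_ne_zero ((half h hc ha).trans (half h hc ht).symm)).le

theorem range_eq {t : G} (ht : orderOf t = 2) : (nu V t).range = (nu V t).ker := by
  have := h.fin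
  refine AddSubgroup.eq_of_le_of_card_ge (range_le h (by rw [← sq, ← ht, pow_orderOf_eq_one])) ?_
  have h1 := (card_mul (V := V) t).trans (half h hc ht).symm
  rw [sq] at h1
  exact (Nat.eq_of_mul_eq_mul_left Nat.card_pos h1).ge

theorem quad {t : G} (ht : orderOf t = 2) {a b : G} (ha : a ∈ AA V t) (hb : b ∈ AA V t) (w : V) :
    (b * a) • w = a • w + b • w + w := by
  have := h.fin
  have := h.nt
  have : Nontrivial (nu V t).ker := Finite.one_lt_card_iff_nontrivial.1 (by
    have h1 := half h hc ht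
    have h2 : 1 < Nat.card V := Finite.one_lt_card
    by_contra c
    have : Nat.card (nu V t).ker ^ 2 ≤ 1 ^ 2 := Nat.pow_le_pow_left (by omega) 2
    omega)
  obtain ⟨⟨v, hv⟩, h0⟩ := exists_ne (0 : (nu V t).ker)
  have h1 : IsPGroup 2 (AA V t) := two_of_fix h (fun e => h0 (Subtype.ext e))
    fun g hg => hg v ((mem_ker h).1 hv)
  have : Nontrivial (AA V t) := ⟨⟨t, self_mem_AA t⟩, 1, fun e => by
    rw [Subtype.ext_iff] at e
    simp only at e
    rw [e] at ht
    simp at ht⟩
  have := h1.center_nontrivial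
  obtain ⟨k, hk0, hk⟩ := (h1.to_subgroup (center _)).nontrivial_iff_card.1 this
  obtain ⟨z, hz⟩ := exists_prime_orderOf_dvd_card' (G := center (AA V t)) 2
    (hk ▸ dvd_pow_self 2 hk0.ne')
  rw [← orderOf_coe, ← orderOf_coe] at hz
  have e := ker_eq h hc ht hz z.1.2
  have c : a * z.1.1 = z.1.1 * a := congrArg Subtype.val (mem_center_iff.1 z.2 ⟨a, ha⟩)
  have h2 : a • nu V z.1.1 w = nu V z.1.1 w :=
    ha _ ((mem_ker h).1 (e.ge ((range_eq h hc hz).le ⟨w, rfl⟩)))
  have h3 : b • (a • w + w) = a • w + w := hb _ ((mem_ker h).1 (e.ge (by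
    rw [AddMonoidHom.mem_ker, map_add, nu_apply _ (a • w), ← mul_smul, ← c, mul_smul, ← smul_add,
      ← nu_apply, h2, h.add_self])))
  rw [smul_add, ← mul_smul] at h3
  rw [eq_sub_of_add_eq h3, sub_eq_add_neg, neg_eq_of_add_eq_zero_left (h.add_self _), add_right_comm]

theorem sq_eq {t : G} (ht : orderOf t = 2) {a : G} (ha : a ∈ AA V t) : a ^ 2 = 1 :=
  faithful h hc _ fun v => by rw [sq, quad h hc ht ha ha, h.add_self, zero_add]

theorem fix_iff {t : G} (ht : orderOf t = 2) {a : G} (ha : a ∈ AA V t) (h1 : a ≠ 1) (v : V) :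
    a • v = v ↔ t • v = v := by
  rw [← mem_ker h, ← mem_ker h, ker_eq h hc ht (orderOf_eq_prime (sq_eq h hc ht ha) h1) ha]

omit hc in
theorem star (Q : Subgroup G) (hQ : IsPGroup 2 Q) : ∃ Q' : Subgroup G, IsPGroup 2 Q' ∧ Q ≤ Q' ∧
    normalizer (Q : Set G) ≤ normalizer (Q' : Set G) ∧ ∀ t ∈ Q, AA V t ≤ Q' := by
  have := h.fin
  have := h.nt
  obtain ⟨v, hv⟩ := exists_ne (0 : V)
  obtain ⟨w, hw, h0⟩ := hQ.exists_fixed_point_of_prime_dvd_card_of_fixed_point V
    (addOrderOf_eq_prime (h.pV v) hv ▸ addOrderOf_dvd_natCard v) (a := 0) fun g => smul_zero g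
  refine ⟨fixingSubgroup G (MulAction.fixedPoints Q V), two_of_fix h h0.symm
    fun g hg => hg ⟨w, hw⟩, fun q hq v => v.2 ⟨q, hq⟩, fun n hn =>
      mem_normalizer_fintype fun g hg v => ?_, fun t ht g hg v => hg v (v.2 ⟨t, ht⟩)⟩
  have h1 : g • n⁻¹ • v.1 = n⁻¹ • v.1 := hg ⟨_, fun q => by
    have := v.2 ⟨_, (mem_normalizer_iff.1 hn q.1).1 q.2⟩
    change (n * q.1 * n⁻¹) • v.1 = v.1 at this
    rw [mul_smul, mul_smul, smul_eq_iff_eq_inv_smul] at this
    exact this⟩
  change (n * g * n⁻¹) • v.1 = v.1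
  rw [mul_smul, mul_smul, h1, smul_inv_smul]

omit h hc in
/-- **KITA** -/
theorem kitA : KitAStmt.{u} := fun G V _ _ _ _ h hc =>
  { faithful := faithful h hc
    free := fun t ht v hv => by
      obtain ⟨w, e⟩ := (range_eq h hc ht).ge ((mem_ker h).2 hv)
      exact ⟨w, e.symm⟩
    half := fun t ht => by
      rw [← half h hc ht]
      exact congrArg (· ^ 2) (Nat.card_congr (Equiv.subtypeEquivRight fun v => (mem_ker h).symm))
    sq := fun t ht a ha => sq_eq h hc ht ha
    comm := fun t ht a ha b hb => inv_mul_eq_one.1 (faithful h hc _ fun v => by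
      rw [mul_smul, inv_smul_eq_iff, quad h hc ht ha hb, quad h hc ht hb ha, add_comm (a • v)])
    fix := fun t ht a ha h1 v => fix_iff h hc ht ha h1 v
    eq := fun t ht a ha h1 => Subgroup.ext fun g => forall_congr' fun v => by
      rw [fix_iff h hc ht ha h1]
    star := star h }

end Cfsg.Agent.H21.GagA
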