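import Cfsg.Agent.H58.BrRed
import Cfsg.Agent.H73.LPDefs

/-! Piece `PBR` of project L2P2: Brauer-Reynolds with few Sylow subgroups of order `p`. -/

set_option autoImplicit false

namespace Cfsg.Agent.H21.LP

open Cfsg

universe u

/-- the derived series of a finite group becomes stationary. -/
theorem exists_derived_eq (H : Type u) [Group H] [Finite H] :
    ∃ n : ℕ, ⁅derivedSeries H n, derivedSeries H n⁆ = derivedSeries H n := by
  have : Finite (Subgroup H) := Finite.of_injective _ SetLike.coe_injective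
  obtain ⟨a, b, hab, e⟩ := Finite.exists_ne_map_eq_of_infinite (derivedSeries H)
  wlog h : a < b generalizing a b
  · exact this b a hab.symm e.symm (by omega)
  refine ⟨a, le_antisymm (Subgroup.commutator_le_left _ _) ?_⟩
  rw [← derivedSeries_succ]
  calc derivedSeries H a = derivedSeries H b := e
    _ ≤ derivedSeries H (a + 1) := derivedSeries_antitone H (by omega)

theorem commutator_eq_top_of {H : Type u} [Group H] {K : Subgroup H} (h : ⁅K, K⁆ = K) :
    commutator K = ⊤ := by
  apply Subgroup.map_injective K.subtype_injective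
  rw [commutator_def, Subgroup.map_commutator, ← MonoidHom.range_eq_map, Subgroup.range_subtype, h]

theorem card_sylow_sub_le {H : Type u} [Group H] [Finite H] (p : ℕ) (K : Subgroup H) :
    Nat.card (Sylow p K) ≤ Nat.card (Sylow p H) := by
  have : Finite (Subgroup H) := Finite.of_injective _ SetLike.coe_injective
  have : Finite (Sylow p H) := Finite.of_injective _ (fun _ _ h => Sylow.ext h)
  choose f hf using fun P : Sylow p K => P.exists_comap_subtype_eq
  refine Nat.card_le_card_of_injective f fun P Q h => Sylow.ext ?_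
  rw [← hf P, ← hf Q, h]

theorem card_sylow_mul {H : Type u} [Group H] [Finite H] {p : ℕ} [Fact p.Prime] (R : Sylow p H) :
    Nat.card (Sylow p H) * Nat.card (Subgroup.normalizer ((R : Subgroup H) : Set H)) =
      Nat.card H := by
  rw [R.card_eq_index_normalizer]
  exact (Subgroup.normalizer ((R : Subgroup H) : Set H)).index_mul_card

/-- the normaliser of a Sylow subgroup of order `p` of a subgroup. -/
theorem card_norm_dvd {H : Type u} [Group H] [Finite H] {p : ℕ} [Fact p.Prime] (R : Sylow p H)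
    (K : Subgroup H) (Q : Sylow p K) (hQ : Nat.card (Q : Subgroup K) = Nat.card (R : Subgroup H)) :
    Nat.card (Subgroup.normalizer ((Q : Subgroup K) : Set K)) ∣
      Nat.card (Subgroup.normalizer ((R : Subgroup H) : Set H)) := by
  obtain ⟨S, hS⟩ := Q.exists_comap_subtype_eq
  have hle : (Q : Subgroup K).map K.subtype ≤ (S : Subgroup H) := by
    rw [Subgroup.map_le_iff_le_comap, hS]
  have hcard : Nat.card ((Q : Subgroup K).map K.subtype) = Nat.card (S : Subgroup H) := by
    rw [Subgroup.card_map_of_injective K.subtype_injective, hQ, R.card_eq_multiplicity,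
      S.card_eq_multiplicity]
  have heq : (Q : Subgroup K).map K.subtype = (S : Subgroup H) :=
    Subgroup.eq_of_le_of_card_ge hle hcard.ge
  have h1 : (Subgroup.normalizer ((Q : Subgroup K) : Set K)).map K.subtype ≤
      Subgroup.normalizer ((S : Subgroup H) : Set H) := by
    rw [← heq]; exact Subgroup.le_normalizer_map _
  have h2 := Subgroup.card_dvd_of_le h1
  rw [Subgroup.card_map_of_injective K.subtype_injective] at h2
  have h3 : Nat.card (Subgroup.normalizer ((S : Subgroup H) : Set H)) =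
      Nat.card (Subgroup.normalizer ((R : Subgroup H) : Set H)) := by
    exact Nat.eq_of_mul_eq_mul_left Nat.card_pos
      ((card_sylow_mul S).trans (card_sylow_mul R).symm)
  exact h3 ▸ h2

theorem arith_two {a n c : ℕ} (ha : 3 ≤ a) (hn : 0 < n)
    (h : (1 + n * (a + 2)) * c = (a + 1) * a) : c = 2 := by
  have h1 : c < a + 2 := by
    by_contra hc
    have : (1 + 1 * (a + 2)) * (a + 2) ≤ (1 + n * (a + 2)) * c :=
      Nat.mul_le_mul (by nlinarith) (by omega)
    nlinarith
  have h2 : (c : ℤ) - 2 = (a + 2) * ((a - 1) - n * c) := by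
    have : ((1 + n * (a + 2)) * c : ℤ) = (a + 1) * a := by exact_mod_cast h
    linarith
  have h3 : ((a : ℤ) + 2) ∣ (c : ℤ) - 2 := ⟨_, h2⟩
  have h4 := Int.eq_zero_of_abs_lt_dvd h3 (by rw [abs_lt]; constructor <;> omega)
  omega

theorem perfect_case {K : Type u} [Group K] [Finite K] {p : ℕ} [hp : Fact p.Prime]
    (hK : commutator K = ⊤) (Q : Sylow p K) (h5 : 5 ≤ p) (hQ : Nat.card (Q : Subgroup K) = p)
    (hb : Nat.card (Sylow p K) ^ 2 ≤ 2 * ((p + 1) * (p ^ 2 + 1))) :
    p - 1 ∣ 2 * Nat.card (Subgroup.normalizer ((Q : Subgroup K) : Set K)) := by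
  obtain ⟨n, hn⟩ := H58.exists_card_sylow_eq p K
  have hF : ¬ H58.FormF p n := by
    intro hF
    have h1 := H58.le_of_formF hp.out.one_le hF
    rw [hn] at hb
    have h2 : (p + 1) * (p + 2) ≤ 2 * (1 + n * p) := by nlinarith
    have h3 : ((p + 1) * (p + 2)) ^ 2 ≤ (2 * (1 + n * p)) ^ 2 := Nat.pow_le_pow_left h2 2
    have h4 : (p + 1) * ((p + 1) * (p + 2) ^ 2) ≤ (p + 1) * (8 * (p ^ 2 + 1)) := by nlinarith
    have h6 := Nat.le_of_mul_le_mul_left h4 (by omega)
    nlinarith [Nat.mul_le_mul_right (p * p) h5]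
  have hN := card_sylow_mul Q
  rw [hn] at hN
  have hO := (pPrimeCore p K).index_mul_card
  have hX : (pPrimeCore p K).index = Nat.card (K ⧸ pPrimeCore p K) := rfl
  obtain ⟨hs, -, ⟨hc, rfl, -⟩ | ⟨m, hm, hc, -⟩⟩ := H58.brauer_reynolds hK Q hQ hn hF
  · refine ⟨p * Nat.card (pPrimeCore p K), Nat.eq_of_mul_eq_mul_left (n := p + 1) (by omega) ?_⟩
    calc (p + 1) * (2 * Nat.card (Subgroup.normalizer ((Q : Subgroup K) : Set K)))
        = 2 * ((1 + 1 * p) * Nat.card (Subgroup.normalizer ((Q : Subgroup K) : Set K))) := by ring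
      _ = (2 * Nat.card (K ⧸ pPrimeCore p K)) * Nat.card (pPrimeCore p K) := by
        rw [hN, ← hO, hX]; ring
      _ = _ := by rw [hc]; ring
  · have := Fintype.ofFinite K
    have hn0 : 0 < n := Nat.pos_of_ne_zero (by
      rintro rfl; exact H58.card_sylow_ne_one_of_perfect hK Q hQ (by simpa using hn))
    obtain ⟨a, ha⟩ : ∃ a, 2 ^ m = a + 1 := ⟨2 ^ m - 1, by omega⟩
    rw [ha, Nat.add_sub_cancel] at hc
    have hpa : p = a + 2 := by omega
    obtain ⟨S⟩ : Nonempty (Sylow p (K ⧸ pPrimeCore p K)) := inferInstance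
    have hS := (H58.card_sylow_quotient Q _ (H3.pPrimeCore_coprime p K) S).trans hQ
    have h1 := (S : Subgroup (K ⧸ pPrimeCore p K)).index_mul_card
    have h2 := S.card_dvd_index
    rw [hs, hn] at h2
    obtain ⟨c, h2⟩ := h2
    rw [h2, hS, hc, hpa] at h1
    have h3 : (1 + n * (a + 2)) * c = (a + 1) * a :=
      Nat.eq_of_mul_eq_mul_right (m := a + 2) (by omega) (by rw [h1]; ring)
    obtain rfl : c = 2 := arith_two (by omega) hn0 h3
    have hm2 : m = 2 := by
      by_contra hm2
      have hm4 : 4 ≤ m := by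
        by_contra hm4
        have hp' := hp.out
        interval_cases m
        all_goals first | omega | (rw [hm] at hp'; norm_num at hp')
      have h16 : 2 ^ 4 ≤ 2 ^ m := Nat.pow_le_pow_right (by norm_num) hm4
      have ha15 : 15 ≤ a := by omega
      rw [hn, hpa] at hb
      have h6 : ((a + 1) * a) ^ 2 ≤ 8 * ((a + 3) * ((a + 2) ^ 2 + 1)) := by
        rw [← h3]; nlinarith
      obtain ⟨b, rfl⟩ : ∃ b, a = b + 15 := ⟨a - 15, by omega⟩
      nlinarith [Nat.zero_le (b ^ 4), Nat.zero_le (b ^ 3), Nat.zero_le (b ^ 2)]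
    subst hm2
    obtain rfl : a = 3 := by omega
    obtain rfl : n = 1 := by omega
    rw [hX, hc] at hO
    subst hpa
    refine ⟨5 * Nat.card (pPrimeCore (3 + 2) K), ?_⟩
    omega

theorem pBR : H73.LP.PBR.{u} := by
  intro H _ _ p hp R h5 hR hb
  obtain ⟨n, hn⟩ := exists_derived_eq H
  by_cases hd : p ∣ Nat.card (derivedSeries H n)
  swap
  · exact Or.inr ⟨n, hd⟩
  left
  obtain ⟨Q⟩ : Nonempty (Sylow p (derivedSeries H n)) := inferInstance
  have hQ : Nat.card (Q : Subgroup (derivedSeries H n)) = p := by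
    obtain ⟨S, hS⟩ := Q.exists_comap_subtype_eq
    have hle : (Q : Subgroup _).map (derivedSeries H n).subtype ≤ (S : Subgroup H) := by
      rw [Subgroup.map_le_iff_le_comap, hS]
    have h1 := Subgroup.card_dvd_of_le hle
    rw [Subgroup.card_map_of_injective (derivedSeries H n).subtype_injective,
      S.card_eq_multiplicity, ← R.card_eq_multiplicity, hR] at h1
    refine ((Nat.dvd_prime hp.out).1 h1).resolve_left fun h => ?_
    exact Q.ne_bot_of_dvd_card hd (Subgroup.eq_bot_of_card_eq _ h)
  have h1 := perfect_case (commutator_eq_top_of hn) Q h5 hQ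
    ((Nat.pow_le_pow_left (card_sylow_sub_le p _) 2).trans hb)
  exact h1.trans (Nat.mul_dvd_mul_left 2 (card_norm_dvd R _ Q (hQ.trans hR.symm)))

end Cfsg.Agent.H21.LP
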