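import Cfsg.Agent.H21.LinXA
import Cfsg.Agent.H91.LinDefs

/-! Project LIN6, piece X: `SL₂(p)` in characteristic different from `p` and `3`. -/

set_option autoImplicit false

namespace Cfsg.Agent.H21.LX

open Module LinearMap Matrix Cfsg.Agent.H91.LIN

universe u w

variable {p : ℕ} [hp : Fact p.Prime]

/-- `GL₂(p)`. -/
abbrev GG (p : ℕ) : Type := GL (Fin 2) (ZMod p)

/-- the element of order three. -/
def xG : GG p := ⟨!![0, -1; 1, -1], !![-1, 1; -1, 0], by simp [one_fin_two], by simp [one_fin_two]⟩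
/-- a transvection. -/
def uG : GG p := ⟨!![1, 1; 0, 1], !![1, -1; 0, 1], by simp [one_fin_two], by simp [one_fin_two]⟩
/-- the opposite transvection. -/
def vG : GG p := ⟨!![1, 0; -1, 1], !![1, 0; 1, 1], by simp [one_fin_two], by simp [one_fin_two]⟩
/-- the Weyl element. -/
def wG : GG p := ⟨!![0, 1; -1, 0], !![0, -1; 1, 0], by simp [one_fin_two], by simp [one_fin_two]⟩
/-- `diag(a, 1)`. -/
def del (a : (ZMod p)ˣ) : GG p :=
  ⟨!![a, 0; 0, 1], !![(a⁻¹ : (ZMod p)ˣ), 0; 0, 1], by simp [one_fin_two, -ZMod.inv_coe_unit],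
    by simp [one_fin_two, -ZMod.inv_coe_unit]⟩

theorem val_del (a : (ZMod p)ˣ) :
    (del a : Matrix (Fin 2) (Fin 2) (ZMod p)) = !![(a : ZMod p), 0; 0, 1] := rfl

theorem wu : (wG : GG p) * uG = vG * wG := Units.ext (by simp [wG, uG, vG])

theorem uv4 : ((uG : GG p) * vG) ^ 4 = xG := Units.ext (by
  simp [xG, uG, vG, pow_succ])

theorem u_pow (k : ℕ) : (((uG : GG p) ^ k : GG p) : Matrix _ _ _) = !![1, (k : ZMod p); 0, 1] := by
  induction k with
  | zero => simp [one_fin_two]
  | succ k ih => rw [pow_succ, Units.val_mul, ih]; simp [uG, add_comm]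

theorem u_p : (uG : GG p) ^ p = 1 := Units.ext (by rw [u_pow]; simp [one_fin_two])

theorem del_u (a : (ZMod p)ˣ) : del a * uG = uG ^ (a : ZMod p).val * del a := Units.ext (by
  rw [Units.val_mul, Units.val_mul, u_pow, val_del]; simp [uG])

theorem det_del (a : (ZMod p)ˣ) : GeneralLinearGroup.det (del a) = a := Units.ext (by
  simp [val_del])

theorem det_x : GeneralLinearGroup.det (xG : GG p) = 1 := Units.ext (by simp [xG])

theorem x3 : (xG : GG p) * (xG * xG) = 1 := Units.ext (by simp [xG, one_fin_two])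

theorem x_ne : (xG : GG p) ≠ 1 := fun e => by
  have := congrArg (fun g : GG p => g.1 1 0) e
  simp [xG] at this

/-- the twisted transpose. -/
def tM (A : Matrix (Fin 2) (Fin 2) (ZMod p)) : Matrix (Fin 2) (Fin 2) (ZMod p) :=
  !![A 0 0, -A 1 0; -A 0 1, A 1 1]

theorem tM_mul (A B : Matrix (Fin 2) (Fin 2) (ZMod p)) : tM (A * B) = tM B * tM A := by
  ext i j
  fin_cases i <;> fin_cases j <;> simp [tM, Matrix.mul_apply, Fin.sum_univ_two] <;> ring

theorem tM_one : tM (1 : Matrix (Fin 2) (Fin 2) (ZMod p)) = 1 := by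
  simp [tM, one_fin_two]

theorem tM_tM (A : Matrix (Fin 2) (Fin 2) (ZMod p)) : tM (tM A) = A := by
  ext i j
  fin_cases i <;> fin_cases j <;> simp [tM]

/-- the twisted transpose on `GL₂`. -/
def tG (g : GG p) : GG p :=
  ⟨tM g, tM (g⁻¹ : GG p), by rw [← tM_mul, Units.inv_mul, tM_one],
    by rw [← tM_mul, Units.mul_inv, tM_one]⟩

/-- the field with `p²` elements. -/
abbrev EE (p : ℕ) : Type := QuadraticAlgebra (ZMod p) (-1) (-1)

/-- the regular representation. -/
def ps : EE p →* Matrix (Fin 2) (Fin 2) (ZMod p) where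
  toFun z := !![z.re, -z.im; z.im, z.re - z.im]
  map_one' := by simp [one_fin_two, QuadraticAlgebra.re_one, QuadraticAlgebra.im_one]
  map_mul' a b := by
    ext i j
    fin_cases i <;> fin_cases j <;> simp [Matrix.mul_apply, Fin.sum_univ_two] <;> ring

/-- the nonsplit torus. -/
def psU : (EE p)ˣ →* GG p := Units.map ps

theorem val_psU (z : (EE p)ˣ) : (psU z : Matrix _ _ _) =
    !![(z : EE p).re, -(z : EE p).im; (z : EE p).im, (z : EE p).re - (z : EE p).im] := rfl

/-- the cube root of unity. -/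
def om : (EE p)ˣ := ⟨⟨0, 1⟩, ⟨-1, -1⟩,
  by ext <;> simp [QuadraticAlgebra.re_one, QuadraticAlgebra.im_one],
  by ext <;> simp [QuadraticAlgebra.re_one, QuadraticAlgebra.im_one]⟩

theorem psU_om : psU (om : (EE p)ˣ) = xG := Units.ext (by rw [val_psU]; simp [om, xG])

theorem om2 : ((om * om : (EE p)ˣ) : EE p) = ⟨-1, -1⟩ := by ext <;> simp [om]

theorem om3 : (om : (EE p)ˣ) ^ 3 = 1 := Units.ext (by
  ext <;> simp [om, pow_succ, QuadraticAlgebra.re_one, QuadraticAlgebra.im_one])

theorem psU_central {z : (EE p)ˣ} (hz : (z : EE p).im = 0) (g : GG p) : psU z * g = g * psU z :=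
  Units.ext (by
    rw [Units.val_mul, Units.val_mul, val_psU, hz]
    ext i j
    fin_cases i <;> fin_cases j <;> simp [Matrix.mul_apply, Fin.sum_univ_two, mul_comm])

theorem no_root (h3 : p % 3 = 2) (r : ZMod p) : r ^ 2 ≠ -1 + -1 * r := by
  intro e
  have r3 : r ^ 3 = 1 := by linear_combination (r - 1) * e
  have r1 : r ≠ 1 := by
    rintro rfl
    have : ((3 : ℕ) : ZMod p) = 0 := by push_cast; linear_combination e
    rw [ZMod.natCast_eq_zero_iff, Nat.prime_dvd_prime_iff_eq hp.out Nat.prime_three] at this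
    omega
  have r0 : r ≠ 0 := by rintro rfl; simp at r3
  have : Fact (Nat.Prime 3) := ⟨Nat.prime_three⟩
  have h1 := orderOf_dvd_of_pow_eq_one (ZMod.pow_card_sub_one_eq_one r0)
  rw [orderOf_eq_prime r3 r1] at h1
  omega

theorem im_zero (h3 : p % 3 = 2) {z : EE p} (hz : z ^ p = z) : z.im = 0 := by
  have : CharP (EE p) p := charP_of_injective_algebraMap QuadraticAlgebra.algebraMap_injective p
  have e1 : z = algebraMap _ _ z.re + algebraMap _ _ z.im * ((om : (EE p)ˣ) : EE p) := by
    ext <;> simp [om]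
  have e2 : ((om : (EE p)ˣ) : EE p) ^ p = ⟨-1, -1⟩ := by
    rw [← Units.val_pow_eq_pow_val, ← om2]
    congr 1
    calc (om : (EE p)ˣ) ^ p = om ^ (3 * (p / 3) + 2) := congrArg _ (by omega)
      _ = _ := by rw [pow_add, pow_mul, om3, one_pow, one_mul, pow_two]
  have e3 := congrArg (· ^ p) e1
  simp only [add_pow_char, mul_pow, ← map_pow, ZMod.pow_card, e2, hz] at e3
  simpa using congrArg QuadraticAlgebra.re e3

omit hp in
theorem card_EE : Nat.card (EE p) = p * p := by
  rw [Nat.card_congr (QuadraticAlgebra.equivProd _ _), Nat.card_prod, Nat.card_zmod]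

variable {K : Type u} [Field K] [IsAlgClosed K]

theorem dim_ge (hpK : (p : K) ≠ 0) {S : Type w} [AddCommGroup S] [Module K S]
    [FiniteDimensional K S] (ρ : Representation K (GG p) S) (hu : ρ uG ≠ 1) :
    p - 1 ≤ finrank K S := by
  obtain ⟨z, z1, zp, r, r0, e⟩ := exists_eig hpK hu (by rw [← map_pow, u_p, map_one])
  have ho : orderOf z = p := orderOf_eq_prime zp z1
  have li := Module.End.eigenvectors_linearIndependent' (ρ uG)
    (fun a : (ZMod p)ˣ => z ^ (a : ZMod p).val) (fun a b e => by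
      have := pow_injOn_Iio_orderOf (x := z) (by rw [ho]; exact ZMod.val_lt _)
        (by rw [ho]; exact ZMod.val_lt _) e
      exact Units.ext (ZMod.val_injective p this))
    (fun a => ρ (del a)⁻¹ r) fun a => by
      refine ⟨End.mem_eigenspace_iff.2 ?_, fun e => r0 (by simpa using congrArg (ρ (del a)) e)⟩
      have h1 : uG * (del a)⁻¹ = (del a)⁻¹ * uG ^ (a : ZMod p).val := by
        rw [eq_inv_mul_iff_mul_eq, ← mul_assoc, del_u, mul_inv_cancel_right]
      rw [← End.mul_apply, ← map_mul, h1, map_mul, End.mul_apply, map_pow, pow_eig e, map_smul]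
  have := li.fintype_card_le_finrank
  rwa [ZMod.card_units] at this

theorem simple_case (h11 : 11 ≤ p) (h3 : p % 3 = 2) (hpK : (p : K) ≠ 0) (h3K : (3 : K) ≠ 0)
    (S : Type w) [AddCommGroup S] [Module K S] [FiniteDimensional K S]
    (ρ : Representation K (GG p) S) (h : Simp ρ) :
    6 * finrank K (ker (nn ρ xG)) ≤ 5 * finrank K S := by
  by_cases hu : ρ uG = 1
  · have hv : ρ vG = 1 := by
      rw [← mul_inv_cancel_right vG wG, ← wu, map_mul, map_mul, hu, mul_one, ← map_mul,
        mul_inv_cancel, map_one]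
    have hx : ρ xG = 1 := by rw [← uv4, map_pow, map_mul, hu, hv, one_mul, one_pow]
    have : ker (nn ρ xG) = ⊥ := ker_eq_bot'.2 fun v hv => by
      have h1 : (3 : K) • v = 0 := by
        rw [← hv, nn, map_mul, hx, show (3 : K) = 1 + 1 + 1 by norm_num, add_smul, add_smul]
        simp
      exact (smul_eq_zero.1 h1).resolve_left h3K
    rw [this, finrank_bot]; omega
  have hd := dim_ge hpK ρ hu
  have : Fact (∀ r : ZMod p, r ^ 2 ≠ -1 + -1 * r) := ⟨no_root h3⟩
  have : Finite (EE p) := Finite.of_equiv _ (QuadraticAlgebra.equivProd _ _).symm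
  obtain ⟨γ, hγ⟩ := IsCyclic.exists_monoid_generator (α := (EE p)ˣ)
  have ho : orderOf γ = p * p - 1 := by
    rw [orderOf_eq_card_of_forall_mem_powers hγ, Nat.card_units, card_EE]
  obtain ⟨m, hm⟩ : ∃ m, p + 1 = 3 * m := ⟨(p + 1) / 3, by omega⟩
  obtain ⟨n, hn⟩ : ∃ n, p = n + 1 := ⟨p - 1, by omega⟩
  have ho' : orderOf γ = 3 * (m * n) := by
    rw [ho, ← mul_assoc, ← hm, hn]
    exact (Nat.sub_eq_of_eq_add (by ring))
  have g1 := h.gelfand tG (fun g h => Units.ext (tM_mul _ _))
    (fun g => ⟨tG g, Units.ext (tM_tM _)⟩) (psU γ) fun g => by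
      obtain ⟨e, he⟩ : ∃ e : (EE p)ˣ, tG g * psU e = psU e * g := by
        by_cases h0 : (⟨g 1 1 - g 0 0 + g 1 0, g 0 1 + g 1 0⟩ : EE p) = 0
        · refine ⟨1, Units.ext ?_⟩
          have a1 : g 1 1 - g 0 0 + g 1 0 = 0 := congrArg QuadraticAlgebra.re h0
          have a2 : g 0 1 + g 1 0 = 0 := congrArg QuadraticAlgebra.im h0
          rw [map_one, mul_one, one_mul]
          ext i j
          fin_cases i <;> fin_cases j <;> simp [tG, tM] <;> linear_combination -a2
        · refine ⟨Units.mk0 _ h0, Units.ext ?_⟩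
          rw [Units.val_mul, Units.val_mul, val_psU]
          ext i j
          fin_cases i <;> fin_cases j <;> simp [tG, tM, Matrix.mul_apply, Fin.sum_univ_two] <;>
            ring
      obtain ⟨k, rfl⟩ := hγ e
      exact ⟨k, by simpa only [map_pow] using he⟩
  have key : ∀ z : (EE p)ˣ, z ^ 3 = 1 → (z : EE p).im ≠ 0 →
      ∃ (a : K) (r : ℕ), 0 < r ∧ r ≤ 2 * m ∧ ρ (psU z) = a • ρ (psU γ) ^ r := by
    intro z z3 zi
    obtain ⟨k, rfl⟩ := hγ z
    simp only at z3 zi ⊢
    rw [← pow_mul, ← orderOf_dvd_iff_pow_eq_one, ho', mul_comm k] at z3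
    obtain ⟨j, rfl⟩ := Nat.dvd_of_mul_dvd_mul_left three_pos z3
    have e1 : γ ^ (m * n * j) = (γ ^ (3 * m)) ^ (n * j / 3) * γ ^ (n * j % 3 * m) := by
      rw [← pow_mul, ← pow_add]
      congr 1
      conv_lhs => rw [mul_assoc, ← Nat.div_add_mod (n * j) 3]
      ring
    have e2 : (((γ ^ (3 * m)) ^ (n * j / 3) : (EE p)ˣ) : EE p).im = 0 := by
      refine im_zero h3 ?_
      rw [← Units.val_pow_eq_pow_val]
      congr 1
      calc _ = ((γ ^ (3 * m)) ^ (n * j / 3)) ^ (n + 1) := congrArg _ hn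
        _ = _ := by rw [pow_succ, ← pow_mul, mul_comm _ n, pow_mul, ← pow_mul γ, mul_assoc,
          ← ho', pow_orderOf_eq_one, one_pow, one_mul]
    obtain ⟨a, ha⟩ := h.schur (ρ (psU ((γ ^ (3 * m)) ^ (n * j / 3)))) fun g => by
      rw [← map_mul, psU_central e2, map_mul]
    have r0 : n * j % 3 ≠ 0 := fun e => zi (by rw [e1, e, zero_mul, pow_zero, mul_one, e2])
    refine ⟨a, n * j % 3 * m, Nat.mul_pos (by omega) (by omega),
      Nat.mul_le_mul_right _ (by omega), ?_⟩
    rw [e1, map_mul, map_mul]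
    ext v
    rw [End.mul_apply, ha, map_pow, map_pow, LinearMap.smul_apply]
  obtain ⟨a, r, r0, r1, e⟩ := key om om3 (by simp [om])
  obtain ⟨a', r', r0', r1', e'⟩ := key (om * om) (by rw [mul_pow, om3, one_mul])
    (by rw [om2]; simp)
  rw [map_mul, psU_om] at e'
  rw [psU_om] at e
  let q : Polynomial K := 1 + Polynomial.C a * Polynomial.X ^ r + Polynomial.C a' * Polynomial.X ^ r'
  have q0 : q ≠ 0 := fun e0 => by
    have := congrArg (Polynomial.eval 0) e0
    simp [q, r0.ne', r0'.ne'] at this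
  have qd : q.natDegree ≤ 2 * m := by
    refine (Polynomial.natDegree_add_le _ _).trans (max_le ((Polynomial.natDegree_add_le _ _).trans
      (max_le (by simp) ?_)) ?_)
    · exact (Polynomial.natDegree_C_mul_X_pow_le _ _).trans r1
    · exact (Polynomial.natDegree_C_mul_X_pow_le _ _).trans r1'
  have qe : Polynomial.aeval (ρ (psU γ)) q = nn ρ xG := by
    simp [q, nn, -map_mul, e, e', Polynomial.aeval_mul, Algebra.smul_def]
  have := ker_aeval_le _ g1 _ q q0 rfl
  rw [qe] at this
  omega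

/-- the cocycle of the induced module. -/
def co (a : (ZMod p)ˣ) (g : GG p) : S2 p :=
  ⟨(del a * g * (del (a * GeneralLinearGroup.det g))⁻¹ : GG p), by
    rw [← GeneralLinearGroup.val_det_apply, map_mul, map_mul, map_inv, det_del, det_del,
      mul_inv_cancel, Units.val_one]⟩

theorem co_one (a : (ZMod p)ˣ) : co a 1 = 1 := Subtype.ext (by simp [co])

theorem co_mul (a : (ZMod p)ˣ) (g h : GG p) :
    co a (g * h) = co a g * co (a * GeneralLinearGroup.det g) h := by
  have e : del a * (g * h) * (del (a * GeneralLinearGroup.det (g * h)))⁻¹ =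
      (del a * g * (del (a * GeneralLinearGroup.det g))⁻¹) * (del (a * GeneralLinearGroup.det g) *
        h * (del (a * GeneralLinearGroup.det g * GeneralLinearGroup.det h))⁻¹) := by
    rw [map_mul, ← mul_assoc a]; group
  exact Subtype.ext (congrArg Units.val e)

theorem co_x (a : (ZMod p)ˣ) : co a xG ≠ 1 := fun e => by
  have h1 : (del a * xG * (del (a * GeneralLinearGroup.det xG))⁻¹ : GG p) = 1 :=
    Units.ext (congrArg Subtype.val e)
  rw [det_x, mul_one, conj_eq_one_iff] at h1
  exact x_ne h1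

omit [IsAlgClosed K] in
/-- the induced module. -/
def indW {V : Type w} [AddCommGroup V] [Module K V] (ρ : Representation K (S2 p) V) :
    Representation K (GG p) ((ZMod p)ˣ → V) where
  toFun g := LinearMap.pi fun a => ρ (co a g) ∘ₗ LinearMap.proj (a * GeneralLinearGroup.det g)
  map_one' := by ext f a; simp [co_one]
  map_mul' g h := by
    refine LinearMap.ext fun f => funext fun a => ?_
    simp [co_mul, mul_assoc]

/-- **X** -/
theorem xStmt : XStmt.{u, w} := by
  intro p _ h11 h3 K V _ _ _ _ _ ρ hpK h3K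
  by_contra! hne
  have h1 := reduce xG (simple_case h11 h3 hpK h3K) _ _ (indW ρ) rfl
  have h2 := (nn (indW ρ) xG).finrank_range_add_finrank_ker
  have h4 : finrank K (range (nn (indW ρ) xG)) ≤ finrank K (ker (indW ρ xG - 1)) := by
    refine Submodule.finrank_mono ?_
    rintro _ ⟨f, rfl⟩
    rw [mem_ker, ← End.mul_apply, nn, sub_mul, mul_add, mul_add, ← map_mul, ← map_mul, x3, map_one]
    simp only [mul_one, one_mul]
    rw [add_comm (_ + _) 1, ← add_assoc, sub_self, LinearMap.zero_apply]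
  have h5 : finrank K (ker (indW ρ xG - 1)) ≤ ∑ a : (ZMod p)ˣ, fx ρ (co a xG) := by
    let Φ : ker (indW ρ xG - 1) →ₗ[K] (∀ a : (ZMod p)ˣ, ker (ρ (co a xG) - 1)) :=
      LinearMap.pi fun a => LinearMap.codRestrict _ (LinearMap.proj a ∘ₗ Submodule.subtype _)
        fun f => by
          have : ρ (co a xG) (f.1 a) - f.1 a = 0 := by
            simpa [indW, det_x] using congrFun (mem_ker.1 f.2) a
          exact this
    have := LinearMap.finrank_le_finrank_of_injective (f := Φ) fun f g e =>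
      Subtype.ext (funext fun a => congrArg Subtype.val (congrFun e a))
    rwa [Module.finrank_pi_fintype] at this
  have h6 : ∑ a : (ZMod p)ˣ, 6 * fx ρ (co a xG) < ∑ _a : (ZMod p)ˣ, finrank K V :=
    Finset.sum_lt_sum_of_nonempty Finset.univ_nonempty fun a _ => hne _ (co_x a)
  rw [← Finset.mul_sum, ← Module.finrank_pi_fintype] at h6
  omega

end Cfsg.Agent.H21.LX
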