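import Mathlib

/-! Project LIN6, piece X: linear algebra (subadditivity of kernels, Schur, the Gelfand trick). -/

set_option autoImplicit false

namespace Cfsg.Agent.H21.LX

open Module LinearMap

universe u v w

variable {K : Type u} [Field K]

theorem ker_sub {A B D : Type*} [AddCommGroup A] [Module K A] [AddCommGroup B] [Module K B]
    [AddCommGroup D] [Module K D] [FiniteDimensional K A] [FiniteDimensional K B]
    [FiniteDimensional K D] (i : A →ₗ[K] B) (π : B →ₗ[K] D) (MA : Submodule K A)
    (MB : Submodule K B) (MD : Submodule K D) (h1 : ∀ b ∈ MB, π b ∈ MD)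
    (h2 : ∀ b ∈ MB, π b = 0 → ∃ a ∈ MA, i a = b) :
    finrank K MB ≤ finrank K MA + finrank K MD := by
  have e := (π.domRestrict MB).finrank_range_add_finrank_ker
  have a1 : finrank K (range (π.domRestrict MB)) ≤ finrank K MD :=
    Submodule.finrank_mono (by rintro _ ⟨b, rfl⟩; exact h1 b b.2)
  have a2 : finrank K (ker (π.domRestrict MB)) ≤ finrank K MA := by
    rw [← Submodule.finrank_map_subtype_eq]
    refine (Submodule.finrank_mono ?_).trans (Submodule.finrank_map_le i MA)
    rintro _ ⟨b, hb, rfl⟩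
    exact h2 b b.2 hb
  omega

theorem ker_mul_le {V : Type*} [AddCommGroup V] [Module K V] [FiniteDimensional K V]
    (f g : End K V) : finrank K (ker (f * g)) ≤ finrank K (ker g) + finrank K (ker f) :=
  ker_sub LinearMap.id g _ _ _ (fun _ hb => hb) fun b _ hb => ⟨b, hb, rfl⟩

theorem ker_aeval_le [IsAlgClosed K] {V : Type*} [AddCommGroup V] [Module K V]
    [FiniteDimensional K V] (c : End K V)
    (hc : ∀ m : K, finrank K (ker (c - algebraMap K _ m)) ≤ 1) (n : ℕ) :
    ∀ q : Polynomial K, q ≠ 0 → q.natDegree = n → finrank K (ker (Polynomial.aeval c q)) ≤ n := by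
  induction n with
  | zero =>
    intro q hq hn
    rw [Polynomial.eq_C_of_natDegree_eq_zero hn] at hq ⊢
    have h0 : q.coeff 0 ≠ 0 := fun e => hq (by rw [e, map_zero])
    have : ker (Polynomial.aeval c (Polynomial.C (q.coeff 0))) = ⊥ :=
      ker_eq_bot'.2 fun v hv => by simpa [h0] using hv
    rw [this, finrank_bot]
  | succ n ih =>
    intro q hq hn
    obtain ⟨r, hr⟩ := IsAlgClosed.exists_root q (by
      rw [Polynomial.degree_eq_natDegree hq, hn]; exact_mod_cast n.succ_ne_zero)
    obtain ⟨q', rfl⟩ := Polynomial.dvd_iff_isRoot.2 hr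
    have hq' : q' ≠ 0 := right_ne_zero_of_mul hq
    rw [Polynomial.natDegree_mul (Polynomial.X_sub_C_ne_zero r) hq',
      Polynomial.natDegree_X_sub_C] at hn
    have h1 := ih q' hq' (by omega)
    have h2 := hc r
    have h3 := ker_mul_le (Polynomial.aeval c (Polynomial.X - Polynomial.C r))
      (Polynomial.aeval c q')
    rw [← map_mul] at h3
    rw [map_sub, Polynomial.aeval_X, Polynomial.aeval_C] at h3
    omega

variable {G : Type v} [Group G] {S : Type w} [AddCommGroup S] [Module K S]

/-- no proper nonzero invariant subspace. -/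
def Simp (ρ : Representation K G S) : Prop :=
  ∀ M : Submodule K S, (∀ g, M ≤ M.comap (ρ g)) → M = ⊥ ∨ M = ⊤

theorem Simp.span {ρ : Representation K G S} (h : Simp ρ) {v : S} (hv : v ≠ 0) :
    Submodule.span K (Set.range fun g => ρ g v) = ⊤ := by
  refine (h _ fun g => Submodule.span_le.2 ?_).resolve_left fun e => hv ?_
  · rintro _ ⟨x, rfl⟩
    exact Submodule.subset_span ⟨g * x, by simp⟩
  · have : v ∈ Submodule.span K (Set.range fun g => ρ g v) :=
      Submodule.subset_span ⟨1, by simp⟩
    rwa [e] at this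

theorem Simp.schur [IsAlgClosed K] [FiniteDimensional K S] {ρ : Representation K G S}
    (h : Simp ρ) (T : End K S) (hT : ∀ g, T * ρ g = ρ g * T) : ∃ μ : K, ∀ v, T v = μ • v := by
  rcases subsingleton_or_nontrivial S with hs | hs
  · exact ⟨0, fun _ => Subsingleton.elim _ _⟩
  obtain ⟨μ, hμ⟩ := Module.End.exists_eigenvalue T
  have := (h (T.eigenspace μ) fun g v hv => by
    rw [Submodule.mem_comap, End.mem_eigenspace_iff] at *
    rw [← End.mul_apply, hT, End.mul_apply, hv, map_smul]).resolve_left hμ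
  exact ⟨μ, fun v => End.mem_eigenspace_iff.1 (this ▸ Submodule.mem_top)⟩

theorem pow_eig {c : End K S} {m : K} {w : S} (h : c w = m • w) (k : ℕ) :
    (c ^ k) w = m ^ k • w := by
  induction k with
  | zero => simp
  | succ k ih => rw [pow_succ', End.mul_apply, ih, map_smul, h, smul_smul, pow_succ]

/-- the Gelfand trick. -/
theorem Simp.gelfand [IsAlgClosed K] [FiniteDimensional K S] {ρ : Representation K G S}
    (h : Simp ρ) (τ : G → G) (hm : ∀ g h, τ (g * h) = τ h * τ g) (hs : Function.Surjective τ)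
    (c : G) (hc : ∀ g, ∃ k : ℕ, τ g * c ^ k = c ^ k * g) (m : K) :
    finrank K (ker (ρ c - algebraMap K _ m)) ≤ 1 := by
  have mem : ∀ w, w ∈ ker (ρ c - algebraMap K _ m) ↔ ρ c w = m • w := fun w => by
    simp [sub_eq_zero]
  by_cases h0 : ker (ρ c - algebraMap K _ m) = ⊥
  · rw [h0, finrank_bot]; exact zero_le_one
  obtain ⟨v, hv, v0⟩ := Submodule.exists_mem_ne_zero_of_ne_bot h0
  have m0 : m ≠ 0 := by
    rintro rfl
    have := (mem v).1 hv
    rw [zero_smul] at this
    exact v0 (by simpa using congrArg (ρ c⁻¹) this)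
  obtain ⟨l, l0, hl⟩ := (range (ρ c - algebraMap K _ m)).exists_le_ker_of_lt_top
    (lt_top_iff_ne_top.2 fun e => h0 (ker_eq_bot_iff_range_eq_top.2 e))
  have l1 : ∀ w, l (ρ c w) = m * l w := fun w => by
    have := hl ⟨w, rfl⟩
    simpa [sub_eq_zero] using this
  have lk : ∀ (k : ℕ) w, l (ρ (c ^ k) w) = m ^ k * l w := fun k => by
    induction k with
    | zero => simp
    | succ k ih => intro w; rw [pow_succ', map_mul, End.mul_apply, l1, ih, pow_succ', mul_assoc]
  have key : ∀ w, ρ c w = m • w → ∀ g, l (ρ (τ g) w) = l (ρ g w) := fun w hw g => by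
    obtain ⟨k, e⟩ := hc g
    have h1 := congrArg (fun x => l (ρ x w)) e
    simp only [map_mul, End.mul_apply] at h1
    rw [lk, map_pow, pow_eig hw, map_smul, map_smul, smul_eq_mul] at h1
    exact mul_left_cancel₀ (pow_ne_zero k m0) h1
  let ev : S → (G →₀ K) →ₗ[K] S := fun w => Finsupp.linearCombination K fun g => ρ g w
  let Lf : (G →₀ K) →ₗ[K] (S →ₗ[K] K) := Finsupp.linearCombination K fun g => l ∘ₗ ρ (τ g)
  have k2 : ∀ w, ρ c w = m • w → ∀ a x, Lf a (ρ (τ x) w) = l (ρ x (ev w a)) := fun w hw a x => by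
    induction a using Finsupp.induction_linear with
    | zero => simp
    | add a b ha hb => simp only [map_add, LinearMap.add_apply, ha, hb]
    | single g r =>
      simp only [Lf, ev, Finsupp.linearCombination_single, LinearMap.smul_apply, map_smul,
        LinearMap.comp_apply]
      rw [← End.mul_apply, ← map_mul, ← hm, key w hw, map_mul, End.mul_apply]
  have onto : range (ev v) = ⊤ := by rw [Finsupp.range_linearCombination, h.span v0]
  refine finrank_le_one ⟨v, hv⟩ fun ⟨w, hw⟩ => ?_
  have kk : ∀ a, ev v a = 0 → ev w a = 0 := fun a ha => by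
    have h1 : Lf a = 0 := ext_on_range (h.span v0) fun g => by
      obtain ⟨x, rfl⟩ := hs g
      rw [k2 v ((mem v).1 hv), ha]; simp
    by_contra hne
    exact l0 (ext_on_range (h.span hne) fun g => by rw [← k2 w ((mem w).1 hw), h1]; simp)
  obtain ⟨σ, hσ⟩ := (ev v).exists_rightInverse_of_surjective onto
  have hT : ∀ a, (ev w ∘ₗ σ) (ev v a) = ev w a := fun a => by
    have := kk (σ (ev v a) - a) (by
      rw [map_sub, ← LinearMap.comp_apply, hσ, LinearMap.id_apply, sub_self])
    rwa [map_sub, sub_eq_zero] at this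
  have hT' : ∀ g, (ev w ∘ₗ σ) (ρ g v) = ρ g w := fun g => by
    simpa [ev] using hT (Finsupp.single g 1)
  obtain ⟨μ, hμ⟩ := h.schur (ev w ∘ₗ σ) fun g => ext_on_range (h.span v0) fun x => by
    rw [End.mul_apply, End.mul_apply, hT', ← End.mul_apply (ρ g), ← End.mul_apply (ρ g),
      ← map_mul, hT']
  refine ⟨μ, Subtype.ext ?_⟩
  have := hT' 1
  rw [hμ] at this
  simpa using this

/-- the operator `1 + g + g²`. -/
def nn (ρ : Representation K G S) (g : G) : End K S := 1 + ρ g + ρ (g * g)

/-- reduction to simple modules. -/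
theorem reduce (x : G) (hS : ∀ (S : Type w) [AddCommGroup S] [Module K S] [FiniteDimensional K S]
      (ρ : Representation K G S), Simp ρ → 6 * finrank K (ker (nn ρ x)) ≤ 5 * finrank K S)
    (n : ℕ) : ∀ (S : Type w) [AddCommGroup S] [Module K S] [FiniteDimensional K S]
      (ρ : Representation K G S), finrank K S = n →
      6 * finrank K (ker (nn ρ x)) ≤ 5 * finrank K S := by
  induction n using Nat.strong_induction_on with
  | _ n ih =>
    intro S _ _ _ ρ hn
    by_cases h : Simp ρ
    · exact hS S ρ h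
    simp only [Simp, not_forall, not_or] at h
    obtain ⟨M, hM, h1, h2⟩ := h
    have e := M.finrank_quotient_add_finrank
    have a1 : finrank K M < finrank K S := Submodule.finrank_lt h2
    have a2 : 0 < finrank K M := Nat.pos_of_ne_zero fun e => h1 (Submodule.finrank_eq_zero.1 e)
    have b1 := ih _ (by omega) M (ρ.subrepresentation M hM) rfl
    have b2 := ih _ (by omega) (S ⧸ M) (ρ.quotient M hM) rfl
    have b3 := ker_sub M.subtype M.mkQ (ker (nn (ρ.subrepresentation M hM) x)) (ker (nn ρ x))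
      (ker (nn (ρ.quotient M hM) x)) (fun b hb => by
        have := congrArg M.mkQ (mem_ker.1 hb)
        simpa [nn] using this) fun b hb h0 =>
      ⟨⟨b, (Submodule.Quotient.mk_eq_zero M).1 h0⟩, Subtype.ext (by
        simpa [nn] using mem_ker.1 hb), rfl⟩
    omega

/-- an operator of prime order has a nontrivial eigenvalue. -/
theorem exists_eig [IsAlgClosed K] [FiniteDimensional K S] {p : ℕ} (hp : (p : K) ≠ 0)
    {U : End K S} (h1 : U ≠ 1) (h2 : U ^ p = 1) :
    ∃ z : K, z ≠ 1 ∧ z ^ p = 1 ∧ ∃ r, r ≠ 0 ∧ U r = z • r := by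
  have hinv : ∀ y ∈ range (U - 1), U y ∈ range (U - 1) := by
    rintro _ ⟨y, rfl⟩
    exact ⟨U y, by simp⟩
  have : Nontrivial (range (U - 1)) :=
    Submodule.nontrivial_iff_ne_bot.2 fun e => h1 (sub_eq_zero.1 (range_eq_bot.1 e))
  obtain ⟨z, hz⟩ := Module.End.exists_eigenvalue (U.restrict hinv)
  obtain ⟨⟨r, y, hy⟩, hr⟩ := hz.exists_hasEigenvector
  have r0 : r ≠ 0 := fun e => hr.2 (Subtype.ext e)
  have e : U r = z • r := congrArg Subtype.val hr.apply_eq_smul
  refine ⟨z, ?_, ?_, r, r0, e⟩
  · rintro rfl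
    have h3 : (∑ i ∈ Finset.range p, U ^ i) r = 0 := by
      rw [← hy, ← End.mul_apply, geom_sum_mul, h2, sub_self, LinearMap.zero_apply]
    simp only [LinearMap.sum_apply, pow_eig e, one_pow, one_smul, Finset.sum_const,
      Finset.card_range] at h3
    rw [← Nat.cast_smul_eq_nsmul K, smul_eq_zero] at h3
    exact h3.elim hp r0
  · have := pow_eig e p
    rw [h2, End.one_apply] at this
    have h4 : (z ^ p - 1) • r = 0 := by rw [sub_smul, ← this, one_smul, sub_self]
    exact sub_eq_zero.1 ((smul_eq_zero.1 h4).resolve_right r0)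

end Cfsg.Agent.H21.LX
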