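import Mathlib
import Cfsg.Agent.H79.R3Defs

/-! Point sets with few intersection numbers. -/

set_option autoImplicit false

namespace Cfsg.Agent.H21.R3Zd

open Cfsg.Agent.H79.R3 Module

universe u

variable {F V : Type u} [Field F] [AddCommGroup V] [Module F V] [Finite V]

theorem fin_sub : Finite (Submodule F V) := Finite.of_injective _ SetLike.coe_injective

theorem br_two (q : ℕ) : br q 2 = q + 1 := by simp [br, Finset.sum_range_succ, add_comm]

theorem br_pos (q : ℕ) {k : ℕ} (h : 1 ≤ k) : 0 < br q k := by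
  obtain ⟨k, rfl⟩ := Nat.exists_eq_add_of_le' h
  rw [br, Finset.sum_range_succ', pow_zero]
  omega

/-- adjoining a point -/
theorem dm_sup {A B Q : Submodule F V} (hA : A ≤ B) (hQ : A ≤ Q) (hd : dm Q = dm A + 1)
    (h : ¬ Q ≤ B) : dm (B ⊔ Q) = dm B + 1 := by
  have e := Submodule.finrank_sup_add_finrank_inf_eq B Q
  have l1 : dm A ≤ dm (B ⊓ Q) := Submodule.finrank_mono (le_inf hA hQ)
  have l2 : dm (B ⊓ Q) < dm Q := Submodule.finrank_lt_finrank_of_lt
    (lt_of_le_of_ne inf_le_right fun k => h (inf_eq_right.1 k))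
  unfold dm at *
  omega

theorem not_le {A D D' P Q : Submodule F V} (hP : P ∈ Cov A D) (hQ : Q ∈ Cov A D') (h : Q ≠ P) :
    ¬ Q ≤ P := fun k => h (Submodule.eq_of_le_of_finrank_eq k (hQ.2.2.trans hP.2.2.symm))

/-- the lines through a point partition the other points -/
theorem pencil (s : Submodule F V → Prop) {A E P : Submodule F V} (hP : P ∈ Cov A E) :
    cnt (fun Q => s Q ∧ Q ≠ P) A E =
      ∑ L ∈ (have := fin_sub (F := F) (V := V); Set.toFinite (Cov P E)).toFinset,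
        cnt (fun Q => s Q ∧ Q ≠ P) A L := by
  classical
  have := fin_sub (F := F) (V := V)
  have m : ∀ Q ∈ Cov A E, Q ≠ P → P ⊔ Q ∈ Cov P E := fun Q hQ h =>
    ⟨le_sup_left, sup_le hP.2.1 hQ.2.1, dm_sup hP.1 hQ.1 hQ.2.2 (not_le hP hQ h)⟩
  rw [cnt, Set.ncard_eq_toFinset_card _ (Set.toFinite _),
    Finset.card_eq_sum_card_fiberwise (f := fun Q => P ⊔ Q) (t := (Set.toFinite (Cov P E)).toFinset)
      fun Q hQ => by
        simp only [Set.Finite.coe_toFinset, Set.mem_ofPred_eq] at hQ ⊢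
        exact m Q hQ.1 hQ.2.2]
  refine Finset.sum_congr rfl fun L hL => ?_
  rw [Set.Finite.mem_toFinset] at hL
  rw [cnt, Set.ncard_eq_toFinset_card _ (Set.toFinite _)]
  congr 1
  ext Q
  simp only [Finset.mem_filter, Set.Finite.mem_toFinset, Set.mem_ofPred_eq]
  constructor
  · rintro ⟨⟨h1, h2⟩, rfl⟩
    exact ⟨⟨h1.1, le_sup_right, h1.2.2⟩, h2⟩
  · rintro ⟨h1, h2⟩
    have h3 : Q ∈ Cov A E := ⟨h1.1, h1.2.1.trans hL.2.1, h1.2.2⟩
    exact ⟨⟨h3, h2⟩, Submodule.eq_of_le_of_finrank_eq (sup_le hL.1 h1.2.1)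
      ((m Q h3 h2.2).2.2.trans hL.2.2.symm)⟩

omit [Finite V] in
theorem cnt_of_not {s : Submodule F V → Prop} {P : Submodule F V} (h : ¬ s P) (A D : Submodule F V) :
    cnt (fun Q => s Q ∧ Q ≠ P) A D = cnt s A D := by
  unfold cnt
  congr 1
  ext Q
  exact and_congr_right fun _ => and_iff_left_of_imp fun k e => h (e ▸ k)

theorem cnt_of_mem {s : Submodule F V → Prop} {P A D : Submodule F V} (h : s P)
    (hP : P ∈ Cov A D) : cnt (fun Q => s Q ∧ Q ≠ P) A D + 1 = cnt s A D := by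
  have := fin_sub (F := F) (V := V)
  rw [cnt, cnt, ← Set.ncard_sdiff_singleton_add_one (s := {Q | Q ∈ Cov A D ∧ s Q}) (a := P) ⟨hP, h⟩]
  congr 2
  ext Q
  simp only [Set.mem_ofPred_eq, Set.mem_sdiff, Set.mem_singleton_iff, and_assoc]

theorem not_of_zero {s : Submodule F V → Prop} {P A D : Submodule F V} (h : cnt s A D = 0)
    (hP : P ∈ Cov A D) : ¬ s P := fun k => by
  have := cnt_of_mem k hP
  omega

theorem cnt_add (s : Submodule F V → Prop) (A D : Submodule F V) :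
    cnt s A D + cnt (fun Q => ¬ s Q) A D = (Cov A D).ncard := by
  have := fin_sub (F := F) (V := V)
  rw [cnt, cnt, ← Set.ncard_union_eq (Set.disjoint_left.2 fun Q h k => k.2 h.2)]
  congr 1
  ext Q
  simp only [Set.mem_union, Set.mem_ofPred_eq]
  tauto

theorem exists_pt [Finite F] (cov : CovStmt.{u}) {A D : Submodule F V} (h : A ≤ D)
    (hd : dm A + 1 ≤ dm D) : ∃ P, P ∈ Cov A D :=
  Set.nonempty_of_ncard_ne_zero (by
    rw [cov F V A D h]
    exact (br_pos _ (by omega)).ne')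

theorem card_line [Finite F] (cov : CovStmt.{u}) {A D : Submodule F V} (h : A ≤ D)
    (hd : dm D = dm A + 2) : (Cov A D).ncard = Nat.card F + 1 := by
  rw [cov F V A D h, hd, Nat.add_sub_cancel_left, br_two]

omit [Finite V] in
theorem zd (cov : CovStmt.{u}) : ZdStmt.{u} := by
  intro F V _ _ _ _ _ A E s b hA hE h ⟨L0, a0, e0, d0, c0⟩ ⟨P, hP, sP⟩
  have line : ∀ {Q L : Submodule F V}, Q ∈ Cov A E → L ∈ Cov Q E →
      cnt s A L = 0 ∨ cnt s A L = b := fun hQ hL =>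
    h _ (hQ.1.trans hL.1) hL.2.1 (by rw [hL.2.2, hQ.2.2])
  obtain ⟨z, hz⟩ := exists_pt cov a0 (by omega)
  have hz' : z ∈ Cov A E := ⟨hz.1, hz.2.1.trans e0, hz.2.2⟩
  have d1 : b ∣ cnt s A E := by
    rw [← cnt_of_not (not_of_zero c0 hz), pencil s hz']
    refine Finset.dvd_sum fun L hL => ?_
    rw [cnt_of_not (not_of_zero c0 hz)]
    rcases line hz' ((Set.Finite.mem_toFinset _).1 hL) with e | e <;> simp [e]
  have k : ∀ L ∈ Cov P E, cnt (fun Q => s Q ∧ Q ≠ P) A L + 1 = b := fun L hL => by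
    have e := cnt_of_mem sP (D := L) ⟨hP.1, hL.1, hP.2.2⟩
    have := line hP hL
    omega
  have dP : dm E = dm P + 2 := by rw [hE, hP.2.2]
  obtain ⟨L, hL⟩ := exists_pt cov hP.2.1 (by omega)
  obtain ⟨c, rfl⟩ : ∃ c, b = c + 1 := ⟨_, (k L hL).symm⟩
  rw [← cnt_of_mem sP hP, pencil s hP, Finset.sum_const_nat (m := c) fun L hL => by
    have := k L ((Set.Finite.mem_toFinset _).1 hL)
    omega, ← Set.ncard_eq_toFinset_card, card_line cov hP.2.1 dP] at d1
  exact (Nat.dvd_add_right d1).1 ⟨Nat.card F + 1, by ring⟩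

theorem half [Finite F] (cov : CovStmt.{u}) {A L0 y : Submodule F V} {s : Submodule F V → Prop}
    {c : ℕ} (h : ∀ L, A ≤ L → dm L = dm A + 2 →
      cnt s A L = 0 ∨ cnt s A L = c ∨ cnt s A L = Nat.card F + 1)
    (a0 : A ≤ L0) (d0 : dm L0 = dm A + 2) (c0 : cnt s A L0 = 0) (ay : A ≤ y)
    (dy : dm y = dm A + 1) (sy : s y) : c ∣ Nat.card F := by
  have dE : dm (L0 ⊔ y) = dm A + 3 := by
    rw [dm_sup a0 ay dy fun k => not_of_zero c0 ⟨ay, k, dy⟩ sy, d0]
  refine zd cov F V A (L0 ⊔ y) s c (a0.trans le_sup_left) dE (fun L a l d => ?_)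
    ⟨L0, a0, le_sup_left, d0, c0⟩ ⟨y, ⟨ay, le_sup_right, dy⟩, sy⟩
  rcases h L a d with e | e | e
  · exact .inl e
  · exact .inr e
  · have e1 := Submodule.finrank_sup_add_finrank_inf_eq L L0
    have e2 : dm (L ⊔ L0) ≤ dm (L0 ⊔ y) := Submodule.finrank_mono (sup_le l le_sup_left)
    obtain ⟨Q, hQ⟩ := exists_pt cov (le_inf a a0) (by unfold dm at *; omega)
    have e3 := cnt_add s A L
    rw [card_line cov a d, e] at e3
    exact absurd (not_of_zero c0 ⟨hQ.1, hQ.2.1.trans inf_le_right, hQ.2.2⟩)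
      (not_of_zero (s := fun Q => ¬ s Q) (by omega) ⟨hQ.1, hQ.2.1.trans inf_le_left, hQ.2.2⟩)

omit [Finite V] in
theorem zt (cov : CovStmt.{u}) : ZtStmt.{u} := by
  intro F V _ _ _ _ _ A s b b1 bq h ⟨L0, a0, d0, c0⟩ ⟨L1, a1, d1, c1⟩
  have c1' : cnt (fun Q => ¬ s Q) A L1 = 0 := by
    have := cnt_add s A L1
    rw [card_line cov a1 d1] at this
    omega
  obtain ⟨y, hy⟩ := exists_pt cov a1 (by omega)
  obtain ⟨z, hz⟩ := exists_pt cov a0 (by omega)
  obtain ⟨m, hm⟩ := half cov h a0 d0 c0 hy.1 hy.2.2 (not_not.1 (not_of_zero c1' hy))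
  obtain ⟨k, hk⟩ := half cov (s := fun Q => ¬ s Q) (c := Nat.card F + 1 - b) (fun L a d => by
    have e := cnt_add s A L
    rw [card_line cov a d] at e
    have := h L a d
    omega) a1 d1 c1' hz.1 hz.2.2 (not_of_zero c0 hz)
  rcases m with _ | _ | m
  · omega
  · omega
  rcases k with _ | _ | k
  · omega
  · omega
  have e1 : b * 2 ≤ b * (m + 1 + 1) := Nat.mul_le_mul_left _ (by omega)
  have e2 : (Nat.card F + 1 - b) * 2 ≤ (Nat.card F + 1 - b) * (k + 1 + 1) :=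
    Nat.mul_le_mul_left _ (by omega)
  omega

end Cfsg.Agent.H21.R3Zd
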