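import Mathlib
import Cfsg.Agent.H7.JRAbs3

/-!
Groups of Ree type: the characters which do not vanish at the involutions, abstract part.
-/

set_option autoImplicit false
set_option linter.unusedSectionVars false

namespace Cfsg.Agent.H21.Ree

open Cfsg Cfsg.Agent.H11 Cfsg.Agent.H6 Cfsg.Agent.H7 Cfsg.Agent.H7.JR Subgroup
open scoped ComplexConjugate

variable {G : Type*} [Group G] [Fintype G]

local notation "ci" => classInner
local notation "Gen" => IsGeneralizedCharacter G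

theorem ne_of_irr_eq {X Y : G → ℂ} (hX : Sgn X) (hY : Sgn Y) (h : hX.irr = hY.irr) :
    ci X Y ≠ 0 := by
  obtain ⟨ε, hε, h1⟩ := hY.irr_spec
  rw [h1, classInner_smul_right, ← h]
  refine mul_ne_zero ?_ hX.inner_irr_ne_zero
  rcases hε with rfl | rfl <;> simp

theorem norm_irr {X : G → ℂ} (hX : Sgn X) (g : G) : ‖hX.irr.1 g‖ = ‖X g‖ := by
  obtain ⟨ε, hε, h1⟩ := hX.irr_spec
  conv_rhs => rw [h1]
  rcases hε with rfl | rfl <;> simp

open Classical in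
theorem fiber {ι : Type*} [Fintype ι] {X : ι → G → ℂ} (hX : ∀ i, Sgn (X i)) (g : G) {N : ℕ}
    (hN : ∀ i, (Finset.univ.filter fun k => ci (X i) (X k) ≠ 0).card ≤ N) :
    ∑ i, ‖X i g‖ ^ 2 ≤ N * ∑ χ ∈ Finset.univ.image (fun i => (hX i).irr), ‖χ.1 g‖ ^ 2 := by
  have h1 := Finset.sum_comp (s := Finset.univ) (fun χ : IrrCharacter G => ‖χ.1 g‖ ^ 2)
    (fun i => (hX i).irr)
  simp only [norm_irr] at h1
  rw [h1, Finset.mul_sum]
  refine Finset.sum_le_sum fun χ hχ => ?_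
  obtain ⟨i, -, rfl⟩ := Finset.mem_image.1 hχ
  rw [nsmul_eq_mul]
  refine mul_le_mul_of_nonneg_right ?_ (sq_nonneg _)
  have : (Finset.univ.filter fun k => (hX k).irr = (hX i).irr).card ≤ N :=
    (Finset.card_le_card fun k hk => Finset.mem_filter.2 ⟨Finset.mem_univ _,
      ne_of_irr_eq (hX i) (hX k) (Finset.mem_filter.1 hk).2.symm⟩).trans (hN i)
  exact_mod_cast this

open Classical in
/-- If three families exhaust the column of `t` and two of them vanish at a non-real element `x`,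
the first family satisfies the relation coming from the products of two involutions. -/
theorem rel_of_cover {t x : G} {j : ℤ} (hB : Base t j) {ι κ ν : Type*} [Fintype ι] [Fintype κ]
    [Fintype ν] {E : ι → G → ℂ} {X : κ → G → ℂ} {Y : ν → G → ℂ} (hE : ∀ i, Sgn (E i))
    (hX : ∀ i, Sgn (X i)) (hY : ∀ i, Sgn (Y i)) (hEE : ∀ i k, i ≠ k → ci (E i) (E k) = 0)
    (hEX : ∀ i k, ci (E i) (X k) = 0) (hEY : ∀ i k, ci (E i) (Y k) = 0)
    (hXY : ∀ i k, ci (X i) (Y k) = 0)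
    (hXX : ∀ i, (Finset.univ.filter fun k => ci (X i) (X k) ≠ 0).card ≤ 2)
    (hYY : ∀ i, (Finset.univ.filter fun k => ci (Y i) (Y k) ≠ 0).card ≤ 6)
    (hsum : (6 * Nat.card (centralizer ({t} : Set G)) : ℝ) ≤
      6 * ∑ i, ‖E i t‖ ^ 2 + 3 * ∑ i, ‖X i t‖ ^ 2 + ∑ i, ‖Y i t‖ ^ 2)
    (hX0 : ∀ i, X i x = 0) (hY0 : ∀ i, Y i x = 0) (hx : H9.pairCount x = 0) :
    ∑ i, conj (E i t ^ 2 / E i 1) * E i x = 0 := by
  have := Fintype.ofFinite (IrrCharacter G)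
  set F0 := Finset.univ.image fun i => (hE i).irr with hF0
  set F1 := Finset.univ.image fun i => (hX i).irr with hF1
  set F2 := Finset.univ.image fun i => (hY i).irr with hF2
  have h0 := fiber hE t (N := 1) fun i => Finset.card_le_one.2 fun a ha b hb => by
    by_contra hab
    have ha' := (Finset.mem_filter.1 ha).2
    have hb' := (Finset.mem_filter.1 hb).2
    by_cases h : i = a
    · exact hb' (hEE i b (h ▸ hab))
    · exact ha' (hEE i a h)
  have h1 := fiber hX t hXX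
  have h2 := fiber hY t hYY
  have d01 : Disjoint F0 F1 := Finset.disjoint_left.2 fun χ a b => by
    obtain ⟨i, -, rfl⟩ := Finset.mem_image.1 a
    obtain ⟨k, -, hk⟩ := Finset.mem_image.1 b
    exact ne_of_irr_eq (hE i) (hX k) hk.symm (hEX i k)
  have d2 : Disjoint (F0 ∪ F1) F2 := Finset.disjoint_left.2 fun χ a b => by
    obtain ⟨k, -, rfl⟩ := Finset.mem_image.1 b
    rcases Finset.mem_union.1 a with a | a
    · obtain ⟨i, -, hi⟩ := Finset.mem_image.1 a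
      exact ne_of_irr_eq (hE i) (hY k) hi (hEY i k)
    · obtain ⟨i, -, hi⟩ := Finset.mem_image.1 a
      exact ne_of_irr_eq (hX i) (hY k) hi (hXY i k)
  have hall : ∑ χ : IrrCharacter G, ‖χ.1 t‖ ^ 2 = Nat.card (centralizer ({t} : Set G)) := by
    have := column_orthogonality_of_isConj (IsConj.refl t)
    simp only [Complex.mul_conj, Complex.normSq_eq_norm_sq] at this
    exact_mod_cast this
  have hout : ∀ χ : IrrCharacter G, χ ∉ F0 ∪ F1 ∪ F2 → χ.1 t = 0 := fun χ hχ => by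
    have h3 := Finset.sum_le_sum_of_subset_of_nonneg (Finset.subset_univ (insert χ (F0 ∪ F1 ∪ F2)))
      (f := fun χ : IrrCharacter G => ‖χ.1 t‖ ^ 2) fun _ _ _ => sq_nonneg _
    rw [Finset.sum_insert hχ, Finset.sum_union d2, Finset.sum_union d01, hall] at h3
    have h4 : ‖χ.1 t‖ ^ 2 ≤ 0 := by push_cast at h0 h1 h2; linarith
    exact norm_eq_zero.1 (pow_eq_zero_iff two_ne_zero |>.1 (le_antisymm h4 (sq_nonneg _)))
  have hcl : IsClassFunction G fun g => (H9.pairCount g : ℂ) := fun g k => by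
    simp only [H15.pairCount_conj']
  have hc : ∀ χ : IrrCharacter G, ci (fun g => (H9.pairCount g : ℂ)) χ.1 =
      (Nat.card G : ℂ)⁻¹ * (j ^ 2 * conj (χ.1 t ^ 2 / χ.1 1)) := fun χ => by
    have h3 := congrArg conj (sum_pair_irr hB.ord hB.one χ.2)
    have h4 : ((centralizer ({t} : Set G)).index : ℂ) = j := by rw [← hB.idx]; simp
    rw [h4, map_sum, mul_div_assoc, map_mul, map_pow, map_intCast] at h3
    rw [classInner_def, ← h3]
    simp
  have h5 := classFun_apply_eq_sum hcl x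
  simp only [hx, hc, Nat.cast_zero] at h5
  rw [← Finset.sum_subset (Finset.subset_univ F0), Finset.sum_image
    fun i _ k _ h => by_contra fun hik => ne_of_irr_eq (hE i) (hE k) h (hEE i k hik)] at h5
  · have h6 : ∀ i, conj ((hE i).irr.1 t ^ 2 / (hE i).irr.1 1) * (hE i).irr.1 x =
        conj (E i t ^ 2 / E i 1) * E i x := fun i => by
      obtain ⟨ε, hε, h7⟩ := (hE i).irr_spec
      conv_rhs => rw [h7]
      rcases hε with rfl | rfl <;> simp [div_neg]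
    simp only [mul_assoc, h6, ← Finset.mul_sum] at h5
    have h7 : (j : ℂ) ≠ 0 := by exact_mod_cast hB.j_ne
    exact (mul_eq_zero.1 ((mul_eq_zero.1 h5.symm).resolve_left
      (inv_ne_zero (card_ne_zero G)))).resolve_left (pow_ne_zero _ h7)
  · intro χ _ hχ
    by_cases h6 : χ ∈ F1 ∪ F2
    · have : χ.1 x = 0 := by
        rcases Finset.mem_union.1 h6 with a | a <;> obtain ⟨i, -, rfl⟩ := Finset.mem_image.1 a
        · rw [← norm_eq_zero, norm_irr, hX0, norm_zero]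
        · rw [← norm_eq_zero, norm_irr, hY0, norm_zero]
      rw [this, mul_zero]
    · rw [hout χ (by simp only [Finset.mem_union] at h6 ⊢; tauto)]; simp

theorem split_dvd {p k : ℕ} (hp : p.Prime) (h3 : p ≠ 3) {s R c c' : ℤ} (hs : ¬ (p : ℤ) ∣ s)
    (hk : k ≠ 0) (hR : (p : ℤ) ^ k ∣ R) (h1 : c + c' = s) (h2 : 3 * (c * c') = R) :
    ((p : ℤ) ^ k ∣ c ∧ (p : ℤ) ∣ c ∧ ¬ (p : ℤ) ∣ c') ∨
      ((p : ℤ) ^ k ∣ c' ∧ (p : ℤ) ∣ c' ∧ ¬ (p : ℤ) ∣ c) := by
  have hp' := Nat.prime_iff_prime_int.1 hp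
  have n3 : ¬ (p : ℤ) ∣ 3 := fun h =>
    h3 ((Nat.prime_dvd_prime_iff_eq hp Nat.prime_three).1 (by exact_mod_cast h))
  have h4 : (p : ℤ) ^ k ∣ c * c' := hp'.pow_dvd_of_dvd_mul_left k n3 (h2 ▸ hR)
  by_cases hc : (p : ℤ) ∣ c'
  · have h5 : ¬ (p : ℤ) ∣ c := fun h => hs (h1 ▸ dvd_add h hc)
    exact Or.inr ⟨hp'.pow_dvd_of_dvd_mul_left k h5 h4, hc, h5⟩
  · have h5 := hp'.pow_dvd_of_dvd_mul_right k hc h4
    exact Or.inl ⟨h5, (dvd_pow_self _ hk).trans h5, hc⟩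

variable {t : G} {Q x j : ℤ} {θ : Fin 3 → G → ℂ} {Θ : G → ℂ} {Θ' : Fin 3 → G → ℂ}
  (h : Sys t Q x j θ Θ Θ')
include h

theorem conf2 {A A' : G → ℂ} (hA : D θ A 1 1 1) (hA' : D θ A' 1 1 1) (ho : ci A A' = 0) :
    ∃ C C', D θ C 0 0 1 ∧ D θ C' 0 0 1 ∧ θ 2 = A + A' + C + C' := by
  obtain ⟨X, Y, hX, hY, -, -, hE⟩ := peel2 (h.gθ 2) (h.θ4 2) hA.sgn hA'.sgn ho hA.h2 hA'.h2
  obtain ⟨a0, a1, a2, h1, r1⟩ := h.exists_D hX
  obtain ⟨b0, b1, b2, h2, r2⟩ := h.exists_D hY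
  obtain ⟨e0, e1, e2⟩ := h.sum4 hE hA hA' h1 h2
  simp only [Fin.reduceEq, if_true, if_false] at e0 e1 e2
  obtain ⟨rfl, rfl, rfl, rfl, rfl, rfl⟩ :
    a0 = 0 ∧ a1 = 0 ∧ a2 = 1 ∧ b0 = 0 ∧ b1 = 0 ∧ b2 = 1 := by omega
  exact ⟨X, Y, h1, h2, hE⟩

theorem num001 {e : G → ℂ} (he : D θ e 0 0 1) : ∃ a ω, Num t j e a (-x) ω :=
  h.num he (by omega) (by omega)

/-- A signed character with a large value at `t` is orthogonal to the `θ i`. -/
theorem D0_of_large {e : G → ℂ} (he : Sgn e) (hQ : Q < 0) {v : ℤ} (hv : e t = v)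
    (h1 : 1 - Q ≤ |v|) : D θ e 0 0 0 := by
  obtain ⟨d0, d1, d2, hD, r⟩ := h.exists_D he
  by_contra h2
  have h3 := (h.sv e d0 d1 d2 hD fun ⟨a, b, c⟩ => h2 (by subst a b c; exact hD)).1
  have h4 : v = -(d0 * Q + d1 * x + d2 * x) := by exact_mod_cast hv.symm.trans h3
  have hx := h.hx
  have hQ8 := h.Q8
  have h5 : |v| < 1 - Q := by
    rw [abs_lt]
    have c0 : -1 ≤ d0 ∧ d0 ≤ 1 := by omega
    have c1 : -1 ≤ d1 ∧ d1 ≤ 1 := by omega
    have c2 : -1 ≤ d2 ∧ d2 ≤ 1 := by omega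
    obtain ⟨c0, c0'⟩ := c0
    obtain ⟨c1, c1'⟩ := c1
    obtain ⟨c2, c2'⟩ := c2
    interval_cases d0 <;> interval_cases d1 <;> interval_cases d2 <;> omega
  omega

/-- The four characters belonging to a character of `C(W)`. -/
theorem S_data (hj : j = Q ^ 2 * (Q ^ 2 + Q + 1)) :
    ∃ S : Fin 4 → G → ℂ, (∀ i, D θ (S i) 0 0 0) ∧ (∀ i k, i ≠ k → ci (S i) (S k) = 0) ∧
    (∀ k : Fin 3, Θ' k + (θ 1 + θ 2 - θ 0) - Θ = S k.succ - S 0) ∧
    (∀ i, S i 1 = (-(1 + Q) * (Q ^ 2 + Q + 1) : ℤ)) ∧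
    ∑ i, ‖S i t‖ ^ 2 = 12 * (1 + Q : ℝ) ^ 2 := by
  obtain ⟨S, hS, ho, hΔ⟩ := h.exists_S
  have hx := h.hx
  have hQ8 := h.Q8
  have hxC : (2 * x : ℂ) = -(1 + Q) := by exact_mod_cast hx
  have hodd : ∀ i g, ¬ 2 ∣ orderOf g → S i g = S 0 g := fun i g hg => by
    refine Fin.cases rfl (fun k => ?_) i
    have := congrFun (hΔ k) g
    simp only [Pi.add_apply, Pi.sub_apply, h.θodd _ g hg, h.Θodd k g hg] at this
    linear_combination -this
  have horth : ∀ ψ, Gen ψ → ci ψ ψ = 4 → ψ 1 = 0 →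
      (∀ k, ci ψ (Θ' k + (θ 1 + θ 2 - θ 0) - Θ) = 0) → ∀ i, ci ψ (S i) = 0 := by
    intro ψ hψ h4 h1 h0
    obtain ⟨a, ha⟩ := exists_int_classInner hψ (hS 0).1
    have ha' : ∀ i, ci ψ (S i) = a := fun i => by
      refine Fin.cases ha (fun k => ?_) i
      have := h0 k
      rw [hΔ, classInner_sub_right, ha, sub_eq_zero] at this
      exact this
    obtain ⟨h5, h6⟩ := bessel4 hS ho (a := fun _ => a) ha' (n := 4) (by rw [h4]; simp)
    simp only [Finset.sum_const, Finset.card_univ, Fintype.card_fin] at h5 h6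
    by_cases ha0 : a = 0
    · intro i; rw [ha', ha0]; simp
    · exfalso
      have h7 : a ^ 2 = 1 := by
        have : 0 < a ^ 2 := by positivity
        simp only [nsmul_eq_mul, Nat.cast_ofNat] at h5; omega
      have h8 := congrFun (h6 (by rw [h7]; simp)) 1
      simp only [h1, Finset.sum_apply, Pi.smul_apply, smul_eq_mul,
        fun i => hodd i 1 (by simp), Finset.sum_const, Finset.card_univ, Fintype.card_fin,
        nsmul_eq_mul, Nat.cast_ofNat] at h8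
      have h9 : (a : ℂ) ≠ 0 := by exact_mod_cast ha0
      exact (mul_ne_zero (by norm_num) (mul_ne_zero h9 (hS 0).apply_one_ne_zero)) h8.symm
  have hθS : ∀ i k, ci (θ i) (S k) = 0 := fun i => by
    refine horth _ (h.gθ i) (by rw [h.θθ]; simp) (h.θ1 i) fun k => ?_
    simp only [classInner_sub_right, classInner_add_right, h.θθ, h.θΘ, h.θΘ']
    fin_cases i <;> simp <;> norm_num
  obtain ⟨σ, s, ω, n1⟩ := h.base.exists_num (hS 1)
  obtain ⟨σ0, s0, ω0, n0⟩ := h.base.exists_num (hS 0)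
  obtain rfl : σ0 = σ := by
    exact_mod_cast n0.deg.symm.trans ((hodd 1 1 (by simp)).symm.trans n1.deg)
  have hSt : ∀ k : Fin 3, S k.succ t = S 0 t + 4 * (1 + Q) := fun k => by
    have := congrFun (hΔ k) t
    simp only [Pi.add_apply, Pi.sub_apply, h.θt, h.Θt, h.Θ't] at this
    simp at this
    linear_combination -this - 2 * hxC
  have f1 : s = s0 + 4 * (1 + Q) := by
    have := hSt 0
    rw [Fin.succ_zero_eq_one, n1.val, n0.val] at this
    exact_mod_cast this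
  have f2 : ω * s - ω0 * s0 = 8 * Q ^ 2 * (Q + 1) := by
    have := congrArg (Pr j) (hΔ 0)
    simp only [Pr_add, Pr_sub, h.Pθ, h.PΘ, h.PΘ', Fin.succ_zero_eq_one, n1.pr, n0.pr] at this
    simp at this
    have h2 : (ω * s - ω0 * s0 : ℂ) = 8 * Q ^ 2 * (Q + 1) := by linear_combination -this
    exact_mod_cast h2
  have f3 : j * (s - 2 * (1 + Q)) = Q ^ 2 * σ0 := by
    have : (8 * (Q + 1)) * (j * (s - 2 * (1 + Q))) = (8 * (Q + 1)) * (Q ^ 2 * σ0) := by
      have a1 := n1.om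
      have a0 := n0.om
      rw [f1] at a1 f2 ⊢
      linear_combination σ0 * f2 - (s0 + 4 * (1 + Q)) * a1 + s0 * a0
    exact mul_left_cancel₀ (by omega) this
  obtain ⟨𝓕, hF, hev⟩ := h.ev
  obtain ⟨n, hn⟩ := hev (S 0) (hS 0) fun ψ hψ =>
    horth ψ (hF ψ hψ).1 (hF ψ hψ).2.1 (hF ψ hψ).2.2.1 (hF ψ hψ).2.2.2 0
  have k1 : s0 = 2 * n := by exact_mod_cast n0.val.symm.trans hn
  have k2 := n0.mod
  have k3 := h.base.sum_four_eq_zero hS ho hodd (a := σ0 / 2) (by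
    rw [n0.deg]; exact_mod_cast (by omega : σ0 = 2 * (σ0 / 2)))
  rw [Fin.sum_univ_succ] at k3
  simp only [hSt, n0.val, Finset.sum_const, Finset.card_univ, Fintype.card_fin, nsmul_eq_mul,
    Nat.cast_ofNat] at k3
  have k4 : s0 + 3 * (s0 + 4 * (1 + Q)) = 0 := by
    have : ((s0 + 3 * (s0 + 4 * (1 + Q)) : ℤ) : ℂ) = 0 := by push_cast; linear_combination k3
    exact_mod_cast this
  have k5 : s0 = -3 * (1 + Q) := by omega
  have k6 : σ0 = -(1 + Q) * (Q ^ 2 + Q + 1) :=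
    mul_left_cancel₀ (pow_ne_zero 2 (by omega : Q ≠ 0)) (by
      rw [← f3, hj, f1, k5]; ring)
  refine ⟨S, fun i => ⟨hS i, by simp [hθS], by simp [hθS], by simp [hθS]⟩, ho, hΔ,
    fun i => by rw [hodd i 1 (by simp), n0.deg, k6], ?_⟩
  rw [Fin.sum_univ_succ]
  have k7 : ∀ k : Fin 3, S k.succ t = ((1 + Q : ℤ) : ℂ) := fun k => by
    rw [hSt, n0.val, k5]; push_cast; ring
  simp only [k7, n0.val, k5, Complex.norm_intCast, sq_abs, Finset.sum_const, Finset.card_univ,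
    Fintype.card_fin, nsmul_eq_mul]
  push_cast; ring

/-- The eight characters of the principal block. -/
theorem principal8 (hG : commutator G = ⊤) (hC : ArithC) (hB : ArithB)
    (h1 : ∀ i, ci (θ i) (fun _ => 1) = 1) (h0 : ci (Θ' 0) (fun _ => 1) = 0) {r e : ℕ}
    (hr : r.Prime) (hQ : Q.natAbs = r ^ e) (h27 : 27 ≤ Q.natAbs) :
    ∃ E : Fin 8 → G → ℂ, (∀ i, Sgn (E i)) ∧ (∀ i k, i ≠ k → ci (E i) (E k) = 0) ∧
      (∀ e, D θ e 0 0 0 → ∀ i, ci (E i) e = 0) ∧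
      ∑ i, ‖E i t‖ ^ 2 = 2 + 2 * (Q : ℝ) ^ 2 + (1 + Q : ℝ) ^ 2 ∧
      ∀ (p k : ℕ) (g : G), p.Prime → p ≠ 3 → k ≠ 0 → ¬ (p : ℤ) ∣ Q ^ 2 + Q →
        (p : ℤ) ^ k ∣ Q ^ 2 + Q + 1 → ¬ 2 ∣ orderOf g →
        (∀ (e : G → ℂ) (a : ℤ), Sgn e → e 1 = a → (p : ℤ) ^ k ∣ a → e g = 0) →
        ∑ i, conj (E i t ^ 2 / E i 1) * E i g ≠ 0 := by
  have hx := h.hx
  have hQ8 := h.Q8
  have hI : D θ (fun _ => 1) 1 1 1 := ⟨sgn_one, by simp [h1], by simp [h1], by simp [h1]⟩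
  have nI := num_one h.base
  obtain ⟨hj, hQ0', -⟩ := h.principal hC hB hG h1 h0 hr hQ h27
  have hQ0 : Q ≠ 0 := by omega
  rcases h.main_dich with ⟨A, B, a, b, hA, hB, hΘ, nA, nB⟩ | ⟨C, C', c, c', hC1, hC2, nC, nC'⟩
  swap
  · exfalso
    rcases h.confC hI hC1 hC2 with ⟨A, X, hA, oA, hX, hE⟩ |
      ⟨D12, D13, D23, B, h12, h13, h23, hB', hE1, hE2, hE0⟩
    · have g1 : j * x = Q ^ 2 * c := by linear_combination nC.om
      obtain ⟨B, B', hB1, hB2, hE0⟩ := h.conf0 hI hA (ci_symm0 oA)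
      obtain ⟨a, α, nA⟩ := h.num111 hA
      obtain ⟨c2, γ, nX⟩ := h.num010 hX
      obtain ⟨b, β, nB⟩ := h.num100 hB1
      obtain ⟨b', β', nB'⟩ := h.num100 hB2
      obtain ⟨f1, f2⟩ := h.eq4 hE nI nC nA nX
      obtain ⟨f3, f4⟩ := h.eq4 hE0 nI nA nB nB'
      simp only [one_ne_zero, if_false, if_true] at f2 f4
      refine hC r e Q x j a c c2 α (-γ) (-(β + β')) hr hQ h27 hQ8 hx g1 (by simpa using nA.om)
        (by linear_combination -nX.om) (by omega) (by linear_combination f2)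
        (by linear_combination f4) (by have := nA.mod; omega) (fun ha => ?_)
        (by have := nC.mod; omega) (by have := nX.mod; omega)
      rw [sgn_eq_one_of_perfect hG hA.sgn (by rw [nA.deg, ha]; simp), classInner_one_one] at oA
      exact one_ne_zero oA
    · have g1 : j * x = Q ^ 2 * c := by linear_combination nC.om
      obtain ⟨δ, ω, n12⟩ := h.num110 h12
      obtain ⟨δ', ω', n13⟩ := h.num101 h13
      obtain ⟨d, ε, n23⟩ := h.num011 h23
      obtain ⟨b, β, nB⟩ := h.num100 hB'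
      obtain ⟨f1, f2⟩ := h.eq4 hE1 nI nC n12 n23
      obtain ⟨f3, -⟩ := h.eq4 hE2 nI nC' n23 n13
      obtain ⟨f5, f6⟩ := h.eq4 hE0 nI n12 n13 nB
      simp only [one_ne_zero, if_false, if_true] at f2 f6
      obtain rfl : c = c' := mul_left_cancel₀ (pow_ne_zero 2 (by omega : Q ≠ 0)) (by
        linear_combination nC'.om - nC.om)
      obtain rfl : δ = δ' := by omega
      obtain rfl : ω = ω' := mul_left_cancel₀ n12.ne (n12.om.trans n13.om.symm)
      exact hB r e Q x j c δ ω b (-β) d ε hr hQ h27 hQ8 hx g1 n12.om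
        (by linear_combination -nB.om) n23.om (by omega) (by omega) (by linear_combination f6)
        (by linear_combination f2) n12.mod n23.mod
  have oA : ci (fun _ => 1) A = 0 := by
    by_contra h2
    rcases sgn_eq_or sgn_one hA.sgn h2 with h3 | h3
    · rw [← h3, h0] at hΘ; norm_num at hΘ
    · have := (h3 ▸ hI).unique hA.neg; omega
  obtain ⟨B', hB', hE⟩ := peel3 (h.gθ 0) (h.θ4 0) sgn_one hA.sgn hB.sgn oA
    (hI.orth hB (by omega) (by omega)) (hA.orth hB (by omega) (by omega)) hI.h0 hA.h0 hB.h0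
  obtain ⟨b0, b1, b2, h2, -⟩ := h.exists_D hB'
  obtain ⟨e0, e1, e2⟩ := h.sum4 hE hI hA hB h2
  simp only [Fin.reduceEq, if_true, if_false] at e0 e1 e2
  obtain ⟨rfl, rfl, rfl⟩ : b0 = 1 ∧ b1 = 0 ∧ b2 = 0 := by omega
  obtain ⟨b', β, nB'⟩ := h.num100 h2
  obtain ⟨f1, -⟩ := h.eq4 hE nI nA nB nB'
  have g5 : a = -(Q ^ 2 + Q + 1) := mul_left_cancel₀ (pow_ne_zero 2 hQ0) (by
    linear_combination -nA.om - hj)
  have g2 : b = Q * (Q ^ 2 + Q + 1) := mul_left_cancel₀ (pow_ne_zero 2 hQ0) (by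
    linear_combination -nB.om + Q * hj)
  have g4 : b' = -Q ^ 3 := by linear_combination f1 - g5 - g2
  have key : ∀ (i : Fin 3) (C C' : G → ℂ) (c c' γ γ' : ℤ), i ≠ 0 → θ i = (fun _ => 1) + A + C + C' →
      Num t j C c (-x) γ → Num t j C' c' (-x) γ' →
      c + c' = Q ^ 2 + Q ∧ 3 * (c * c') = Q * (Q ^ 2 + Q + 1) * x ^ 2 := by
    intro i C C' c c' γ γ' hi hE1 nC nC'
    obtain ⟨f3, f4⟩ := h.eq4 hE1 nI nA nC nC'
    rw [if_neg hi] at f4
    have g7 : c + c' = Q ^ 2 + Q := by omega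
    refine ⟨g7, mul_left_cancel₀ (mul_ne_zero (pow_ne_zero 2 hQ0) (by omega : Q + 1 ≠ 0)) ?_⟩
    have a1 := nC.om
    have a2 := nC'.om
    rw [hj] at a1 a2 f4
    linear_combination (-(c * c')) * f4 - (x * c') * a1 - (x * c) * a2 +
      (Q ^ 2 * (Q ^ 2 + Q + 1) * x ^ 2) * g7
  have ne2 : ∀ c c' : ℤ, c + c' = Q ^ 2 + Q → 3 * (c * c') = Q * (Q ^ 2 + Q + 1) * x ^ 2 →
      c ≠ c' ∧ c ≠ -c' := fun c c' g7 g8 => by
    have g9 : 3 * (c - c') ^ 2 = -Q * (2 * x * (Q - 1)) ^ 2 := by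
      have : Q + 1 = -(2 * x) := by omega
      linear_combination 3 * (c + c' + Q ^ 2 + Q) * g7 - 4 * g8 +
        3 * Q ^ 2 * (Q + 1 - 2 * x) * this
    have hb : 2 * x * (Q - 1) ≠ 0 := mul_ne_zero (by omega) (by omega)
    constructor
    · rintro rfl
      exact mul_ne_zero (neg_ne_zero.2 hQ0) (pow_ne_zero 2 hb) (by rw [← g9]; ring)
    · rintro rfl
      exact mul_ne_zero hQ0 (by omega : Q + 1 ≠ 0) (by linear_combination -g7)
  have od : ∀ {X Y : G → ℂ} {a v ω a' v' ω' : ℤ}, Sgn X → Sgn Y → Num t j X a v ω →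
      Num t j Y a' v' ω' → a ≠ a' ∧ a ≠ -a' → ci X Y = 0 := by
    intro X Y a v ω a' v' ω' hX hY nX nY hne
    by_contra h3
    rcases sgn_eq_or hX hY h3 with rfl | rfl
    · exact hne.1 (by exact_mod_cast nX.deg.symm.trans nY.deg)
    · exact hne.2 (by exact_mod_cast nX.deg.symm.trans nY.neg.deg)
  obtain ⟨C, C', hC1, hC2, hE1⟩ := h.conf1 hI hA oA
  obtain ⟨c, γ, nC⟩ := h.num010 hC1
  obtain ⟨c', γ', nC'⟩ := h.num010 hC2
  obtain ⟨g7, g8⟩ := key 1 _ _ _ _ _ _ (by decide) hE1 nC nC'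
  obtain ⟨Y, Y', hY1, hY2, hE2⟩ := conf2 h hI hA oA
  obtain ⟨y, δ, nY⟩ := num001 h hY1
  obtain ⟨y', δ', nY'⟩ := num001 h hY2
  obtain ⟨k7, k8⟩ := key 2 _ _ _ _ _ _ (by decide) hE2 nY nY'
  have oB : ci B B' = 0 := od hB.sgn hB' nB nB' (by
    rw [g2, g4]
    constructor
    · intro h3
      have : Q * (2 * Q ^ 2 + Q + 1) = 0 := by linear_combination h3
      have := (mul_eq_zero.1 this).resolve_left hQ0
      nlinarith [sq_nonneg (Q + 1), sq_nonneg Q]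
    · intro h3
      exact mul_ne_zero hQ0 (by omega : Q + 1 ≠ 0) (by linear_combination h3))
  have oC := od hC1.sgn hC2.sgn nC nC' (ne2 _ _ g7 g8)
  have oY := od hY1.sgn hY2.sgn nY nY' (ne2 _ _ k7 k8)
  let d : Fin 8 → ℤ × ℤ × ℤ :=
    ![(1, 1, 1), (1, 1, 1), (1, 0, 0), (1, 0, 0), (0, 1, 0), (0, 1, 0), (0, 0, 1), (0, 0, 1)]
  let E : Fin 8 → G → ℂ := ![fun _ => 1, A, B, B', C, C', Y, Y']
  have hD : ∀ i, D θ (E i) (d i).1 (d i).2.1 (d i).2.2 := fun i => by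
    fin_cases i
    exacts [hI, hA, hB, h2, hC1, hC2, hY1, hY2]
  refine ⟨E, fun i => (hD i).sgn, fun i k hik => ?_, fun e he i => (hD i).orth he ?_ ?_, ?_, ?_⟩
  · by_cases h3 : d i = d k
    · have oA' := ci_symm0 oA
      have oB' := ci_symm0 oB
      have oC' := ci_symm0 oC
      have oY' := ci_symm0 oY
      revert hik h3
      fin_cases i <;> fin_cases k <;> simp [d, E, *]
    · refine (hD i).orth (hD k) (fun ⟨a, b, c⟩ => h3 (Prod.ext a (Prod.ext b c))) ?_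
      revert i k
      decide
  · revert i; decide
  · revert i; decide
  · have hxR : (2 * x : ℝ) = -(1 + Q) := by exact_mod_cast hx
    simp only [Fin.sum_univ_eight, E, Matrix.cons_val, nA.val, nB.val, nB'.val, nC.val, nC'.val,
      nY.val, nY'.val, Complex.norm_intCast, sq_abs, norm_one]
    push_cast
    linear_combination (2 * x - 1 - Q) * hxR
  intro p k g hp h3 hk hs hN hg hv hsum
  have vA : A g = 0 := hv A a hA.sgn nA.deg (g5 ▸ hN.neg_right)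
  have vB : B g = 0 := hv B b hB.sgn nB.deg (g2 ▸ hN.mul_left Q)
  have vB' : B' g = -1 := by
    have := h.θodd 0 g hg
    rw [hE] at this
    simp only [Pi.add_apply, vA, vB] at this
    linear_combination this
  have hR : (p : ℤ) ^ k ∣ Q * (Q ^ 2 + Q + 1) * x ^ 2 := (hN.mul_left Q).mul_right _
  have pair : ∀ (i : Fin 3) (C C' : G → ℂ) (c c' γ γ' : ℤ), θ i = (fun _ => 1) + A + C + C' →
      Sgn C → Sgn C' → Num t j C c (-x) γ → Num t j C' c' (-x) γ' → c + c' = Q ^ 2 + Q →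
      3 * (c * c') = Q * (Q ^ 2 + Q + 1) * x ^ 2 → ∃ c1 c2 : ℤ, c1 + c2 = Q ^ 2 + Q ∧
        3 * (c1 * c2) = Q * (Q ^ 2 + Q + 1) * x ^ 2 ∧ ¬ (p : ℤ) ∣ c1 ∧ (p : ℤ) ∣ c2 ∧
        conj (C t ^ 2 / C 1) * C g + conj (C' t ^ 2 / C' 1) * C' g = -(x ^ 2 / c1) := by
    intro i C C' c c' γ γ' hE1 hC1 hC2 nC nC' g7 g8
    have := h.θodd i g hg
    rw [hE1] at this
    simp only [Pi.add_apply, vA] at this
    rcases split_dvd hp h3 hs hk hR g7 g8 with ⟨a1, a2, a3⟩ | ⟨a1, a2, a3⟩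
    · have v1 := hv C c hC1 nC.deg a1
      have v2 : C' g = -1 := by linear_combination this - v1
      exact ⟨c', c, by omega, by linear_combination g8, a3, a2, by
        simp [v1, v2, nC'.val, nC'.deg]⟩
    · have v1 := hv C' c' hC2 nC'.deg a1
      have v2 : C g = -1 := by linear_combination this - v1
      exact ⟨c, c', g7, g8, a3, a2, by simp [v1, v2, nC.val, nC.deg]⟩
  obtain ⟨c1, c2, l1, l2, l3, l4, l5⟩ := pair 1 _ _ _ _ _ _ hE1 hC1.sgn hC2.sgn nC nC' g7 g8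
  obtain ⟨y1, y2, m1, m2, m3, m4, m5⟩ := pair 2 _ _ _ _ _ _ hE2 hY1.sgn hY2.sgn nY nY' k7 k8
  obtain rfl : c1 = y1 := by
    have : 3 * ((c1 - y1) * (c2 - y1)) = 0 := by
      linear_combination l2 - m2 - 3 * y1 * l1 + 3 * y1 * m1
    rcases mul_eq_zero.1 ((mul_eq_zero.1 this).resolve_left (by norm_num)) with h4 | h4
    · omega
    · exact absurd ((by omega : c2 = y1) ▸ l4) m3
  simp only [Fin.sum_univ_eight, E, Matrix.cons_val, vA, vB, vB', nB'.val, nB'.deg, g4] at hsum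
  have hc1 : (c1 : ℂ) ≠ 0 := by exact_mod_cast fun h4 : c1 = 0 => l3 (h4 ▸ dvd_zero _)
  have hQC : (Q : ℂ) ≠ 0 := by exact_mod_cast hQ0
  have h5 : (1 : ℂ) + 1 / Q - 2 * (x ^ 2 / c1) = 0 := by
    have h6 : conj (((-Q : ℤ) : ℂ) ^ 2 / ((-Q ^ 3 : ℤ) : ℂ)) = -(1 / Q) := by
      simp only [map_div₀, map_pow, map_intCast]
      push_cast; field_simp
    rw [h6] at hsum
    simp only [one_pow, div_one, map_one, mul_one, mul_zero] at hsum
    linear_combination hsum - l5 - m5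
  have h6 : c1 * (Q + 1) = 2 * x ^ 2 * Q := by
    field_simp at h5
    have : (c1 * (Q + 1) : ℂ) = 2 * x ^ 2 * Q := by linear_combination h5
    exact_mod_cast this
  have h7 : c1 = -x * Q := mul_left_cancel₀ (by omega : 2 * x ≠ 0) (by
    linear_combination -h6 + c1 * hx)
  exact l3 ((by rw [h7] at l1 ⊢; linear_combination l1 + Q * hx : c2 = c1) ▸ l4)

end Cfsg.Agent.H21.Ree
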