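import Mathlib
import Cfsg.Agent.H7.JRLin
import Cfsg.Agent.H67.Hall
import Cfsg.Agent.H63.Prod
import Cfsg.Agent.H65.JRBN1
import Cfsg.Agent.H21.JRBase

/-!
The principal series of a doubly transitive group with a split point stabilizer.
-/

set_option autoImplicit false
set_option linter.unusedSectionVars false

namespace Cfsg.Agent.H21.Ree

open Cfsg Cfsg.Agent.H11 Cfsg.Agent.H6 Cfsg.Agent.H63 Cfsg.Agent.H67 Cfsg.Agent.H7.JR Subgroup
open scoped ComplexConjugate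

local notation "ci" => classInner

variable {G : Type*} [Group G]

/-- Linear characters of a group with a cyclic quotient. -/
theorem exists_lin [Finite G] {X Y : Subgroup G} (hn : X ≤ N[Y]) {h : G} (hh : h ∈ X)
    (dec : ∀ g ∈ X, ∃ y ∈ Y, y ∈ X ∧ ∃ i : ℕ, g = y * h ^ i) {k : ℕ} (hk0 : k ≠ 0)
    (hk : ∀ i : ℕ, h ^ i ∈ Y → k ∣ i) {ζ : ℂ} (hζ : ζ ^ k = 1) :
    ∃ f, LinOn X f ∧ (∀ y ∈ Y, y ∈ X → f y = 1) ∧ f h = ζ := by
  have : (Y.subgroupOf X).Normal := ⟨fun n hn' g =>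
    mem_subgroupOf.2 (conj_mem_of_mem_normalizer (hn g.2) (mem_subgroupOf.1 hn'))⟩
  have hζ0 : ζ ≠ 0 := fun h0 => by simp [h0, hk0] at hζ
  let π := QuotientGroup.mk' (Y.subgroupOf X)
  have h1 : ∀ y (hy : y ∈ X), y ∈ Y → π ⟨y, hy⟩ = 1 := fun y hy h2 =>
    (QuotientGroup.eq_one_iff _).2 h2
  have h2 : ∀ x, x ∈ zpowers (π ⟨h, hh⟩) := fun x => by
    obtain ⟨⟨g, hg⟩, rfl⟩ := QuotientGroup.mk'_surjective _ x
    obtain ⟨y, hy, hy', i, rfl⟩ := dec g hg
    have : (⟨y * h ^ i, hg⟩ : X) = ⟨y, hy'⟩ * ⟨h, hh⟩ ^ i := rfl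
    rw [this, map_mul, h1 y hy' hy, one_mul, map_pow]
    exact pow_mem (mem_zpowers _) _
  have h3 : orderOf (Units.mk0 ζ hζ0) ∣ orderOf (π ⟨h, hh⟩) := by
    refine (orderOf_dvd_of_pow_eq_one (Units.ext (by simpa using hζ))).trans (hk _ ?_)
    have := pow_orderOf_eq_one (π ⟨h, hh⟩)
    rw [← map_pow] at this
    exact mem_subgroupOf.1 ((QuotientGroup.eq_one_iff (N := Y.subgroupOf X) _).1 this)
  refine ⟨_, LinOn.of_hom ((monoidHomOfForallMemZpowers h2 h3).comp π), fun y hy hy' => ?_, ?_⟩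
  · rw [H14.extendByZero_of_mem _ _ hy', MonoidHom.comp_apply, h1 y hy' hy, map_one, Units.val_one]
  · rw [H14.extendByZero_of_mem _ _ hh, MonoidHom.comp_apply, monoidHomOfForallMemZpowers_apply_gen,
      Units.val_mk0]

/-- `B = U ⋊ ⟨h⟩`, `G = B ∪ U v B`. -/
structure BN1 (B U : Subgroup G) (h v : G) : Prop where
  UB : U ≤ B
  hB : h ∈ B
  nrm : B ≤ N[U]
  dec : ∀ b ∈ B, ∃ y ∈ U, ∃ i : ℕ, b = y * h ^ i
  disj : U ⊓ zpowers h = ⊥
  inv : v * h * v⁻¹ = h⁻¹
  reg : ∀ g, g ∉ B → ∃ x ∈ U, ∃ b ∈ B, g = x * v * b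
  int : ∀ y ∈ U, v⁻¹ * y * v ∈ B → y = 1
  idx : B.index = Nat.card U + 1

namespace BN1

variable [Fintype G] {B U : Subgroup G} {h v : G} (H : BN1 B U h v)
include H

theorem HB : zpowers h ≤ B := zpowers_le.2 H.hB

theorem vinv {x : G} (hx : x ∈ zpowers h) : v⁻¹ * x * v = x⁻¹ := by
  obtain ⟨i, rfl⟩ := hx
  have h1 : v⁻¹ * h * v = h⁻¹ := by
    have h2 : h = v * h⁻¹ * v⁻¹ := by
      rw [show v * h⁻¹ * v⁻¹ = (v * h * v⁻¹)⁻¹ by group, H.inv, inv_inv]
    conv_lhs => rw [h2]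
    group
  simp only
  rw [← inv_zpow, ← h1, show v⁻¹ * h * v = v⁻¹ * h * v⁻¹⁻¹ by group, conj_zpow]; group

theorem mem_iff {b : G} (hb : b ∈ B) : v⁻¹ * b * v ∈ B ↔ b ∈ zpowers h := by
  refine ⟨fun h1 => ?_, fun h1 => by rw [H.vinv h1]; exact inv_mem (H.HB h1)⟩
  obtain ⟨y, hy, i, rfl⟩ := H.dec b hb
  have h2 : h ^ i ∈ zpowers h := pow_mem (mem_zpowers h) i
  rw [H.int y hy, one_mul]
  · exact h2
  · rw [show v⁻¹ * (y * h ^ i) * v = v⁻¹ * y * v * (v⁻¹ * h ^ i * v) by group, H.vinv h2] at h1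
    exact (mul_mem_cancel_right (inv_mem (H.HB h2))).1 h1

theorem cardB : Nat.card B = Nat.card U * orderOf h := by
  have h1 : U ⊔ zpowers h = B := le_antisymm (sup_le H.UB H.HB) fun b hb => by
    obtain ⟨y, hy, i, rfl⟩ := H.dec b hb
    exact mul_mem (mem_sup_left hy) (mem_sup_right (pow_mem (mem_zpowers h) i))
  rw [← h1, (isMul_sup (Or.inr (H.HB.trans H.nrm))).card_of_inf H.disj, Nat.card_zpowers]

theorem dvd_of_mem {i : ℕ} (hi : h ^ i ∈ U) : orderOf h ∣ i :=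
  orderOf_dvd_of_pow_eq_one (mem_bot.1 (H.disj ▸ ⟨hi, pow_mem (mem_zpowers h) i⟩))

theorem exists_lin {ζ : ℂ} (hζ : ζ ^ orderOf h = 1) :
    ∃ f, LinOn B f ∧ (∀ y ∈ U, f y = 1) ∧ f h = ζ := by
  obtain ⟨f, h1, h2, h3⟩ := Ree.exists_lin H.nrm H.hB (fun g hg => by
    obtain ⟨y, hy, i, h1⟩ := H.dec g hg
    exact ⟨y, hy, H.UB hy, i, h1⟩) (orderOf_pos h).ne' (fun i => H.dvd_of_mem) hζ
  exact ⟨f, h1, fun y hy => h2 y hy (H.UB hy), h3⟩

theorem inner [Fintype B] [Fintype (zpowers h)] {f f' : G → ℂ} (hf : LinOn B f) (hf' : LinOn B f') :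
    ci (indFun B fun x : B => f x) (indFun B fun x : B => f' x) =
      ci (fun x : B => f x) (fun x : B => f' x) +
        ci (fun x : zpowers h => f x) (fun x : zpowers h => f' (x : G)⁻¹) := by
  classical
  have cl : IsClassFunction B fun x : B => f' x := isClassFunction_of_isGen hf'.gen
  set e := extendByZero B fun x : B => f' x with he
  let T : G → ℂ := fun g => ∑ b : B, f b * conj (e (g⁻¹ * b * g))
  have T1 : ∀ g ∈ B, T g = ∑ b : B, f b * conj (f' b) := fun g hg =>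
    Finset.sum_congr rfl fun b _ => by
      rw [he, H14.extendByZero_conj_of_mem' B cl _ hg, H14.extendByZero_coe]
  have T2 : ∀ g, g ∉ B → T g = ∑ b : zpowers h, f b * conj (f' (b : G)⁻¹) := fun g hg => by
    obtain ⟨x, hx, y, hy, rfl⟩ := H.reg g hg
    have h1 := sum_conj_sub (X := B) (b := x) (fun z hz => mul_mem (mul_mem (H.UB hx) hz)
      (inv_mem (H.UB hx))) fun b => f b * conj (e ((x * v * y)⁻¹ * b * (x * v * y)))
    refine h1.symm.trans ?_
    rw [Finset.sum_congr rfl (g := fun b : B => if (b : G) ∈ zpowers h then f b * conj (f' (b : G)⁻¹)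
      else 0) fun b _ => ?_, ← Finset.sum_filter]
    · exact Finset.sum_bij' (fun b hb => ⟨b, (Finset.mem_filter.1 hb).2⟩)
        (fun b _ => ⟨b, H.HB b.2⟩) (by simp) (by simp) (by simp) (by simp) (by simp)
    · rw [hf.conj_eq (H.UB hx) b.2, show (x * v * y)⁻¹ * (x * b * x⁻¹) * (x * v * y) =
        y⁻¹ * (v⁻¹ * b * v) * y by group, he, H14.extendByZero_conj_of_mem' B cl _ hy]
      split_ifs with h2
      · rw [H.vinv h2, H14.extendByZero_of_mem _ _ (inv_mem b.2)]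
      · rw [H14.extendByZero_of_not_mem _ _ fun h3 => h2 ((H.mem_iff b.2).1 h3)]; simp
  have h1 : ∑ g, T g = Nat.card B * ∑ b : B, f b * conj (f' b) +
      Nat.card U * Nat.card B * ∑ b : zpowers h, f b * conj (f' (b : G)⁻¹) := by
    rw [← Finset.sum_filter_add_sum_filter_not _ (· ∈ B),
      Finset.sum_congr rfl fun g hg => T1 g (Finset.mem_filter.1 hg).2,
      Finset.sum_congr rfl fun g hg => T2 g (Finset.mem_filter.1 hg).2]
    simp only [Finset.sum_const, nsmul_eq_mul]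
    have h2 : (Finset.univ.filter (· ∈ B)).card = Nat.card B := by
      rw [Nat.card_eq_fintype_card, Fintype.card_subtype]
    have h3 := Finset.card_filter_add_card_filter_not (s := Finset.univ) (· ∈ B)
    rw [h2, Finset.card_univ, ← Nat.card_eq_fintype_card, ← B.index_mul_card, H.idx] at h3
    rw [h2, show (Finset.univ.filter fun g => ¬ g ∈ B).card = Nat.card U * Nat.card B by
      linarith]
    push_cast; ring
  rw [H14.classInner_indFun_left _ _ (H14.indFun_isClassFunction _ _), classInner_def,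
    classInner_def, classInner_def]
  simp only [H14.indFun_apply, map_mul, map_inv₀, map_natCast, map_sum, mul_left_comm (f _),
    Finset.mul_sum]
  rw [Finset.sum_comm]
  simp only [← Finset.mul_sum]
  change _ * (_ * ∑ g, T g) = _
  have h4 := H14.card_subgroup_ne_zero B
  have h5 := H14.card_subgroup_ne_zero U
  have h6 := H14.card_subgroup_ne_zero (zpowers h)
  have h7 : (Nat.card B : ℂ) = Nat.card U * Nat.card (zpowers h) := by
    rw [H.cardB, Nat.card_zpowers]; push_cast; rfl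
  rw [h1, h7]
  field_simp

theorem sgn {f : G → ℂ} (hf : LinOn B f) (h1 : f h ^ 2 ≠ 1) : Sgn (indFun B fun x : B => f x) := by
  classical
  refine ⟨H14.IsGeneralizedCharacter.indFun _ hf.gen, ?_⟩
  rw [H.inner hf hf, hf.ci_eq fun _ _ => rfl]
  have := (hf.mono H.HB).ci_ne (hf.mono H.HB).inv' (mem_zpowers h) fun h2 => h1 (by
    rw [pow_two]; nth_rw 2 [h2]; exact hf.mul_inv H.hB)
  rw [this, add_zero]

theorem eq_or {f f' : G → ℂ} (hf : LinOn B f) (hf' : LinOn B f')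
    (h1 : ci (indFun B fun x : B => f x) (indFun B fun x : B => f' x) ≠ 0) :
    f' h = f h ∨ f' h = (f h)⁻¹ := by
  classical
  by_contra h2
  push Not at h2
  have := (hf.mono H.HB).ci_ne (hf'.mono H.HB).inv' (mem_zpowers h) fun h3 => h2.2 (by
    rw [h3]; exact eq_inv_of_mul_eq_one_left (hf'.mul_inv H.hB))
  rw [H.inner hf hf', hf.ci_ne hf' H.hB h2.1.symm] at h1
  exact h1 (by rw [this, add_zero])

/-- The value at an involution `t ∈ ⟨h⟩`. -/
theorem value {t : G} (ht : orderOf t = 2) (hth : t ∈ zpowers h) (hU : Odd (Nat.card U)) :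
    ∃ F : ℕ, Nat.card C1[t] ≤ F * (Nat.card ↥(U ⊓ C1[t]) * orderOf h) ∧
      ∀ f : G → ℂ, LinOn B f → (∀ y ∈ U, f y = 1) →
        indFun B (fun x : B => f x) t = F ∨ indFun B (fun x : B => f x) t = -F := by
  classical
  have hC : zpowers h ≤ C1[t] := fun x hx => by
    obtain ⟨i, rfl⟩ := hx
    obtain ⟨k, rfl⟩ := hth
    exact mem_centralizer_singleton_iff.2 (zpow_mul_comm h i k)
  refine ⟨Nat.card (MulAction.fixedBy (G ⧸ B) t), ?_, fun f hf h1 => ?_⟩
  · have h1 : Nat.card ↥(B ⊓ C1[t]) = Nat.card ↥(U ⊓ C1[t]) * orderOf h := by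
      have h2 : U ⊓ C1[t] ⊔ zpowers h = B ⊓ C1[t] :=
        le_antisymm (sup_le (inf_le_inf_right _ H.UB) (le_inf H.HB hC)) fun b hb => by
          obtain ⟨y, hy, i, rfl⟩ := H.dec b hb.1
          have h3 := pow_mem (mem_zpowers h) i
          exact mul_mem (mem_sup_left ⟨hy, (mul_mem_cancel_right (hC h3)).1 hb.2⟩)
            (mem_sup_right h3)
      rw [← h2, (isMul_sup (Or.inr ?_)).card_of_inf, Nat.card_zpowers]
      · rw [eq_bot_iff, ← H.disj]; exact inf_le_inf_right _ inf_le_left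
      · exact fun x hx => inf_normalizer_le_normalizer_inf ⟨H.nrm (H.HB hx), le_normalizer (hC hx)⟩
    rw [← h1, ← (B.subgroupOf C1[t]).index_mul_card, ← inf_subgroupOf_right,
      Nat.card_congr (subgroupOfEquivOfLe inf_le_right).toEquiv, inf_subgroupOf_right]
    refine Nat.mul_le_mul_right _ ?_
    have h2 : B.subgroupOf C1[t] = MulAction.stabilizer C1[t] ((1 : G) : G ⧸ B) := by
      ext x
      rw [MulAction.mem_stabilizer_iff, mem_subgroupOf]
      change _ ↔ (((x : G) * 1 : G) : G ⧸ B) = _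
      rw [QuotientGroup.eq]
      simp
    rw [h2, MulAction.index_stabilizer, ← Nat.card_coe_set_eq]
    refine Nat.card_mono (Set.toFinite _) ?_
    rintro _ ⟨x, rfl⟩
    change ((t * ((x : G) * 1) : G) : G ⧸ B) = (((x : G) * 1 : G) : G ⧸ B)
    rw [mul_one, QuotientGroup.eq, ← mem_centralizer_singleton_iff.1 x.2]
    simpa using inv_mem (H.HB hth)
  have h2 : ∀ s ∈ B, orderOf s = 2 → f s = f t := fun s hs h3 => by
    obtain ⟨y, hy, i, rfl⟩ := H.dec s hs
    have h4 := pow_mem (mem_zpowers h) i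
    generalize h ^ i = x at *
    have h5 : x ≠ 1 := by
      rintro rfl
      rw [mul_one] at h3
      exact (Nat.not_even_iff_odd.2 hU) (even_iff_two_dvd.2 (h3 ▸ orderOf_dvd_natCard U hy))
    have h6 : x ^ 2 = 1 := by
      have h7 : (y * x) ^ 2 = 1 := h3 ▸ pow_orderOf_eq_one _
      have h8 : x ^ 2 = (y * (x * y * x⁻¹))⁻¹ := by
        rw [eq_inv_iff_mul_eq_one, ← conj_eq_one_iff (a := x⁻¹ * x⁻¹), ← h7]; simp [pow_two, mul_assoc]
      refine mem_bot.1 (H.disj ▸ ⟨?_, pow_mem h4 2⟩)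
      rw [h8]
      exact U.inv_mem (U.mul_mem hy (conj_mem_of_mem_normalizer (H.nrm (H.HB h4)) hy))
    have h7 : orderOf x = 2 := orderOf_eq_prime h6 h5
    rw [hf.mul _ (H.UB hy) _ (H.HB h4), h1 y hy, one_mul,
      H65.BN.eq_of_mem_zpowers ht h7 (H21.JR.mem_zpowers_of_cyc hth h4 (h7.trans ht.symm).dvd)]
  have h3 : indFun B (fun x : B => f x) t = f t * Nat.card (MulAction.fixedBy (G ⧸ B) t) := by
    rw [← H14.indFun_one_eq_card_fixedBy, H14.indFun_apply', H14.indFun_apply', mul_left_comm,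
      Finset.mul_sum _ _ (f t)]
    congr 1
    refine Finset.sum_congr rfl fun g _ => ?_
    by_cases hg : g * t * g⁻¹ ∈ B
    · rw [H14.extendByZero_of_mem _ _ hg, H14.extendByZero_of_mem _ _ hg, mul_one]
      exact h2 _ hg (by rw [orderOf_conj', ht])
    · rw [H14.extendByZero_of_not_mem _ _ hg, H14.extendByZero_of_not_mem _ _ hg, mul_zero]
  have h4 : f t ^ 2 = 1 := by rw [← hf.pow (H.HB hth), ← ht, pow_orderOf_eq_one, hf.one]
  rw [h3]
  rcases sq_eq_one_iff.1 h4 with h5 | h5 <;> simp [h5]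

end BN1

end Cfsg.Agent.H21.Ree
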