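import Cfsg.Agent.H6.TIDefs

/-! Weakly closed TI-subgroups: the large axes intersect trivially. -/

set_option autoImplicit false
set_option linter.unusedSectionVars false

namespace Cfsg.Agent.H21.TiQB

open Cfsg Subgroup Cfsg.Agent.H6.TI
open Cfsg.Agent.H83 (cj)
open scoped Cfsg.Agent.H63 commutatorElement

universe u

variable {G : Type u} [Group G]

theorem rel_two {H J : Subgroup G} {a : G} (ha : a ∈ J) (h0 : a ∉ H)
    (h : ∀ x ∈ J, x ∉ H → x * a ∈ H) : H.relIndex J = 2 :=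
  index_eq_two_iff.2 ⟨⟨a, ha⟩, fun b => by
    by_cases hb : (b : G) ∈ H
    · exact Or.inr ⟨hb, fun e => h0 ((H.mul_mem_cancel_left hb).1 e)⟩
    · exact Or.inl ⟨h b b.2 hb, hb⟩⟩

theorem mul_mem_two {H J : Subgroup G} (h : H.relIndex J = 2) {x y : G} (hx : x ∈ J) (hy : y ∈ J)
    (h1 : x ∉ H) (h2 : y ∉ H) : x * y ∈ H :=
  (mul_mem_iff_of_index_two h (a := ⟨x, hx⟩) (b := ⟨y, hy⟩)).2 (iff_of_false h1 h2)

theorem card_rel (H J : Subgroup G) : Nat.card ↥(J ⊓ H) * H.relIndex J = Nat.card J := by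
  rw [← (H.subgroupOf J).card_mul_index, ← inf_subgroupOf_left,
    Nat.card_congr (subgroupOfEquivOfLe inf_le_left).toEquiv, inf_subgroupOf_left]
  rfl

theorem half {H J : Subgroup G} (h : ∀ x ∈ J, ∀ y ∈ J, x ∉ H → y ∉ H → x * y ∈ H) :
    Nat.card J ≤ 2 * Nat.card ↥(J ⊓ H) := by
  by_cases e : J ≤ H
  · rw [inf_eq_left.2 e]; omega
  obtain ⟨a, ha, h0⟩ := SetLike.not_le_iff_exists.1 e
  rw [← card_rel H J, rel_two ha h0 fun x hx h1 => h x hx a ha h1 h0, mul_comm]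

variable [Finite G]

theorem fpf_two {U W : Subgroup G} {ρ : G} (hU : ρ ∈ N[U]) (hW : ρ ∈ N[W]) (f : Fpf ρ W) :
    U.relIndex W ≠ 2 := by
  intro h
  let φ : W → W := fun x => ⟨x⁻¹ * (ρ * x * ρ⁻¹), mul_mem x⁻¹.2 ((mem_normalizer_iff.1 hW _).1 x.2)⟩
  have inj : Function.Injective φ := fun x y e => by
    have e1 : (x : G)⁻¹ * (ρ * x * ρ⁻¹) = (y : G)⁻¹ * (ρ * y * ρ⁻¹) := congrArg Subtype.val e
    refine (mul_inv_eq_one.1 (Subtype.ext (f _ (y * x⁻¹).2 ?_))).symm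
    calc ρ * ((y : G) * (x : G)⁻¹) = y * ((y : G)⁻¹ * (ρ * y * ρ⁻¹)) * ρ * (x : G)⁻¹ := by group
      _ = _ := by rw [← e1]; simp [mul_assoc]
  refine absurd (h.symm.trans (relIndex_eq_one.2 fun w hw => ?_)) (by decide)
  obtain ⟨x, e⟩ := Finite.surjective_of_injective inj ⟨w, hw⟩
  rw [← show (x : G)⁻¹ * (ρ * x * ρ⁻¹) = w from congrArg Subtype.val e]
  by_cases hx : (x : G) ∈ U
  · exact mul_mem (inv_mem hx) ((mem_normalizer_iff.1 hU _).1 hx)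
  · exact mul_mem_two h x⁻¹.2 ((mem_normalizer_iff.1 hW _).1 x.2) (mt U.inv_mem_iff.1 hx)
      (mt (mem_normalizer_iff.1 hU _).2 hx)

theorem norm_of {I : Subgroup G} {c : G} (h : ∀ i ∈ I, ⁅i, c⁆ ∈ I) : c ∈ N[I] :=
  mem_normalizer_fintype fun i hi => by
    simpa [commutatorElement_def, mul_assoc] using mul_mem hi (h _ (inv_mem hi))

theorem four_le {n k : ℕ} (h : n ∣ 2 ^ k) (h1 : n ≠ 1) (h2 : n ≠ 2) : 4 ≤ n := by
  obtain ⟨j, -, rfl⟩ := (Nat.dvd_prime_pow Nat.prime_two).1 h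
  obtain _ | _ | j := j
  · exact absurd rfl h1
  · exact absurd rfl h2
  · exact Nat.pow_le_pow_right two_pos (show 2 ≤ _ by omega)

variable {Ω : Set (Subgroup G)} {K0 A B C : Subgroup G}

variable (Ω) in
/-- A point and its neighbours. -/
def perp (P : Subgroup G) : Set (Subgroup G) := {R | R = P ∨ Ed Ω P R}

theorem perp_cj (t : TI Ω) (e : perp Ω A = perp Ω B) (g : G) :
    perp Ω (cj g A) = perp Ω (cj g B) := by
  have key : ∀ P R, R ∈ perp Ω (cj g P) ↔ cj g⁻¹ R ∈ perp Ω P := fun P R => or_congr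
    ⟨fun a => by rw [a, H83.cj_inv_cj], fun a => by rw [← a, H83.cj_cj_inv]⟩
    ⟨fun a => by simpa only [H83.cj_inv_cj] using a.cj t g⁻¹,
      fun a => by simpa only [H83.cj_cj_inv] using a.cj t g⟩
  ext R
  rw [key, key, e]

theorem mem_perp (hA : A ∈ Ω) (hB : B ∈ Ω) {x : G} (h1 : x ∈ A) (h2 : x ∈ N[B]) (h3 : x ≠ 1) :
    B ∈ perp Ω A :=
  (em (B = A)).imp id fun e => ⟨hA, hB, Ne.symm e, fun e' => h3 (mem_bot.1 (e' ▸ ⟨h1, h2⟩))⟩

variable (h : C3 Ω K0)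
include h

theorem perp_symm (e : B ∈ perp Ω A) : A ∈ perp Ω B := e.imp Eq.symm h.ba.symm

theorem four (e : Ed Ω A C) (s : ¬ Mn Ω A C) :
    ∃ a ∈ A, ∃ a' ∈ A, a ∉ ax A C ∧ a' ∉ ax A C ∧ a * a' ∉ ax A C := by
  have h4 : (ax A C).relIndex A = 4 := h.q4 A C e s
  obtain ⟨a, ha, h0⟩ := SetLike.not_le_iff_exists.1 (mt relIndex_eq_one.2 (by omega) : ¬ A ≤ ax A C)
  by_contra! H
  have := rel_two ha h0 fun x hx h1 => H x hx a ha h1 h0
  omega

theorem card_eq (hA : A ∈ Ω) (hB : B ∈ Ω) :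
    Nat.card A = Nat.card B ∧ Nat.card (zc Ω A) = Nat.card (zc Ω B) := by
  obtain ⟨g, rfl⟩ := h.trans A hA B hB
  rw [zc_cj h.toTI, H83.card_cj, H83.card_cj]
  exact ⟨rfl, rfl⟩

theorem hh_eq {P Q : Subgroup G} (e : Ed Ω A C) (s : ¬ Mn Ω A C) (e' : Ed Ω P Q) (s' : ¬ Mn Ω P Q) :
    Nat.card (ax A C) = Nat.card (ax P Q) := by
  have h1 := (h.ba.hq e).1
  have h2 := (h.ba.hq e').1
  rw [h.q4 _ _ e s, (card_eq h e.l e'.l).1] at h1
  rw [h.q4 _ _ e' s'] at h2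
  unfold hh at h1 h2
  omega

/-- Two large neighbours are adjacent. -/
theorem adj_ll {B' : Subgroup G} (m : Mn Ω A B) (m' : Mn Ω A B') : B ∈ perp Ω B' := by
  by_cases e : ax A B = ax A B'
  · obtain ⟨a, ha, rfl⟩ := h.ln.line m m' e
    exact (em _).imp id fun n => (h.bb.lin m.toEd ((h.bb.onB m.toEd).cj (mem_sup_left ha))
      (h.bb.onB m.toEd) (Ne.symm n)).1
  have h1 := (h.yy.ycard h.sp m m' e).2.2 (h.lt _ _ m)
  rw [h.q2 _ _ m] at h1
  obtain ⟨y, hy, y1⟩ := (bot_or_exists_ne_one (ax B' A ⊓ N[ax A B])).resolve_left fun e' => by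
    rw [e', card_bot] at h1; omega
  exact mem_perp m'.r m.r hy.1.1 (h.adj m m' e y hy.1 hy.2) y1

theorem wk_comm {K : Subgroup G} (hA : A ∈ Ω) (hK : K ≤ A) : wk Ω A K ≤ C[wk Ω A K] := by
  have e : ∀ S : Set G, K ⊔ closure S = closure ((K : Set G) ∪ S) := fun S => by
    rw [Subgroup.closure_union, closure_eq]
  rw [wk, e, closure_le, centralizer_closure]
  rintro x (hx | ⟨B, m, k, b, c⟩) y (hy | ⟨B', m', k', b', c'⟩)
  · exact h.ba.mul_comm A hA y (hK hy) x (hK hx)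
  · exact (h.ba.comm A hA B' m'.r m'.ne x (k' hx) y b').symm
  · exact h.ba.comm A hA B m.r m.ne y (k hy) x b
  by_cases e : ax A B = ax A B'
  · obtain ⟨a, ha, rfl⟩ := h.ln.line m m' e
    rw [(ax_cjN (le_normalizer ha) B).2] at b'
    exact h.ba.vcomm m.toEd y (H83.cj_le_of_norm le_sup_right
      (h.ba.vnorm m.toEd (mem_sup_left ha)) b') x (mem_sup_right b)
  exact (h.ba.comm B m.r B' m'.r (fun e' => e (by rw [e'])) x
    ⟨b.1, h.adj m' m (Ne.symm e) x b (norm_of fun i hi => k' (c i hi.1))⟩ y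
    ⟨b'.1, h.adj m m' e y b' (norm_of fun i hi => k (c' i hi.1))⟩).symm

variable (qa : QA Ω)
include qa

theorem sixteen (hZ : zc Ω A ≠ ⊥) (e : Ed Ω A C) (s : ¬ Mn Ω A C) (n : ¬ ax A C ≤ zc Ω A) :
    16 ≤ Nat.card (ax A C) := by
  obtain ⟨a, ha, a', ha', h1, h2, h3⟩ := four h e s
  obtain ⟨ρ, -, r1, r2, -, r3⟩ := h.bb.tor e a ha h1 a' ha' h2
  have f : Fpf ρ (ax A C) := fun v hv => (r3 h3).2 v (mem_sup_left hv)
  have n1 : ρ ∈ N[zc Ω A] := H83.cj_eq_self_iff.1 (by rw [← zc_cj h.toTI, H83.cj_eq_self r1])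
  have n2 : ρ ∈ N[ax A C] := H83.cj_eq_self_iff.1 (by
    rw [← ax_cj, H83.cj_eq_self r1, H83.cj_eq_self r2])
  obtain ⟨k, hk⟩ := (h.ba.hq e).2.2.2.1
  have h4 := card_rel (zc Ω A) (ax A C)
  rw [inf_eq_right.2 (qa.zle e)] at h4
  have h5 := four_le ((Dvd.intro _ h4).trans hk.dvd) (mt card_eq_one.1 hZ) (by
    have := fpf_two (U := ⊥) (by rw [normalizer_eq_top]; trivial) n1 fun v hv => f v (qa.zle e hv)
    rwa [relIndex_bot_left] at this)
  have h6 := four_le ((Dvd.intro_left _ h4).trans hk.dvd) (mt relIndex_eq_one.1 n) (fpf_two n1 n2 f)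
  rw [← h4]
  exact Nat.mul_le_mul h5 h6

/-- A small and a large neighbour are adjacent. -/
theorem adj_sl (hZ : zc Ω A ≠ ⊥) (m : Mn Ω A B) (e : Ed Ω A C) (s : ¬ Mn Ω A C) :
    B ∈ perp Ω C := by
  suffices ∃ c ∈ ax C A, c ∈ N[B] ∧ c ≠ 1 by
    obtain ⟨c, h1, h2, h3⟩ := this
    exact mem_perp e.r m.r h1.1 h2 h3
  by_cases k : ax A C ≤ ax A B
  · obtain ⟨c, h1, h2⟩ := (bot_or_exists_ne_one _).resolve_left (h.ba.symm e).nb
    exact ⟨c, h1, qa.jfix m e s k h1, h2⟩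
  have h1 := (sixteen h qa hZ e s fun n => k fun x hx =>
    ⟨hx.1, (mem_zc.1 (n hx)).2 B m⟩).trans_eq (h.ba.card e).1
  have q2 : (ax A B).relIndex A = 2 := h.q2 _ _ m
  have sq : ∀ c ∈ ax C A, c⁻¹ = c := fun c hc => inv_eq_of_mul_eq_one_right (h.sq C e.r c hc.1)
  have mul : ∀ a ∈ A, ∀ c ∈ ax C A, ∀ c' ∈ ax C A, ⁅a, c * c'⁆ = ⁅a, c⁆ * ⁅a, c'⁆ :=
    fun a ha c hc c' hc' => h.ba.phi_mul e a ha c (mem_sup_right hc) c' (mem_sup_right hc')
  let H : ∀ a ∈ A, Subgroup G := fun a ha =>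
    { carrier := {c | c ∈ ax C A ∧ ⁅a, c⁆ ∈ ax A B}
      one_mem' := ⟨one_mem _, by simp⟩
      mul_mem' := fun a1 a2 => ⟨mul_mem a1.1 a2.1, mul a ha _ a1.1 _ a2.1 ▸ mul_mem a1.2 a2.2⟩
      inv_mem' := fun a1 => (sq _ a1.1).symm ▸ a1 }
  have hH : ∀ a (ha : a ∈ A) (J : Subgroup G), J ≤ ax C A →
      Nat.card J ≤ 2 * Nat.card ↥(J ⊓ H a ha) := fun a ha J hJ => half fun x hx y hy a1 a2 =>
    ⟨mul_mem (hJ hx) (hJ hy), mul a ha _ (hJ hx) _ (hJ hy) ▸ mul_mem_two q2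
      (h.ba.brk e a ha _ (mem_sup_right (hJ hx))).1 (h.ba.brk e a ha _ (mem_sup_right (hJ hy))).1
      (fun n => a1 ⟨hJ hx, n⟩) fun n => a2 ⟨hJ hy, n⟩⟩
  obtain ⟨a, ha, a', ha', b1, b2, b3⟩ := four h e s
  have h2 := hH a ha _ le_rfl
  have h3 := hH a' ha' (ax C A ⊓ H a ha) inf_le_left
  have h4 : ∀ c ∈ ax C A ⊓ H a ha ⊓ H a' ha', ∃ u ∈ A, cj c B = cj u B := fun c hc => by
    have cA : c ∈ N[A] := hc.1.1.2
    have cm : ∀ u ∈ A, ∀ v ∈ A, ⁅u * v, c⁆ = ⁅u, c⁆ * ⁅v, c⁆ := fun u hu v hv => by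
      have := h.ba.mul_comm A e.l u hu _ (h.ba.brk e v hv _ (mem_sup_right hc.1.1)).1
      have h5 := h.ba.mul_comm A e.l _ (h.ba.brk e u hu _ (mem_sup_right hc.1.1)).1 _
        (h.ba.brk e v hv _ (mem_sup_right hc.1.1)).1
      calc _ = u * ⁅v, c⁆ * u⁻¹ * ⁅u, c⁆ := by simp only [commutatorElement_def]; group
        _ = _ := by rw [this, mul_inv_cancel_right, h5]
    let U : Subgroup G :=
      { carrier := {u | u ∈ A ∧ ⁅u, c⁆ ∈ ax A B}
        one_mem' := ⟨one_mem _, by simp⟩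
        mul_mem' := fun a1 a2 => ⟨mul_mem a1.1 a2.1, cm _ a1.1 _ a2.1 ▸ mul_mem a1.2 a2.2⟩
        inv_mem' := fun a1 => (inv_eq_of_mul_eq_one_right (h.sq A e.l _ a1.1)).symm ▸ a1 }
    have u1 : ax A C ≤ U := fun u hu => ⟨hu.1, by
      rw [commutatorElement_eq_one_iff_mul_comm.2 (h.ba.comm A e.l C e.r e.ne u hu c hc.1.1)]
      exact one_mem _⟩
    have u2 := relIndex_mul_relIndex (ax A C) U A u1 fun u hu => hu.1
    rw [show (ax A C).relIndex A = 2 ^ 2 from h.q4 _ _ e s] at u2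
    have u3 := four_le (Dvd.intro _ u2) (fun n => b1 (relIndex_eq_one.1 n ⟨ha, hc.1.2.2⟩))
      fun n => b3 (mul_mem_two n (J := U) ⟨ha, hc.1.2.2⟩ ⟨ha', hc.2.2⟩ b1 b2)
    have u4 : A ≤ U := relIndex_eq_one.1 (by
      generalize U.relIndex A = k at u2
      obtain _ | _ | k := k
      · simp at u2
      · rfl
      · nlinarith)
    exact h.ln.line m (m.cjN h.toTI cA) (by
      rw [(ax_cjN cA B).1, H83.cj_eq_self (norm_of (I := ax A B) fun i hi => (u4 hi.1).2)])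
  have h5 := half (H := N[B]) (J := ax C A ⊓ H a ha ⊓ H a' ha') fun x hx y hy a1 a2 => by
    obtain ⟨u, hu, e1⟩ := h4 x hx
    obtain ⟨v, hv, e2⟩ := h4 y hy
    have := mul_mem_two q2 (inv_mem hu) hv (fun n => a1 (H83.cj_eq_self_iff.1
      (e1.trans (H83.cj_eq_self (inv_mem_iff.1 n).2)))) fun n => a2 (H83.cj_eq_self_iff.1
      (e2.trans (H83.cj_eq_self n.2)))
    rw [← H83.cj_eq_self_iff, H83.cj_mul, e2, ← mul_inv_cancel_left u v, H83.cj_mul,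
      H83.cj_eq_self this.2, ← e1, ← H83.cj_mul, h.sq C e.r x hx.1.1.1, H83.cj_one]
  obtain ⟨c, hc, c1⟩ := (bot_or_exists_ne_one (ax C A ⊓ H a ha ⊓ H a' ha' ⊓ N[B])).resolve_left
    fun n => by
      rw [n, card_bot] at h5
      unfold hh at h1
      omega
  exact ⟨c, hc.1.1.1, hc.2, c1⟩

variable (hZ : ∀ P ∈ Ω, zc Ω P ≠ ⊥)
include hZ

theorem perp_mn (m : Mn Ω A B) : perp Ω A = perp Ω B := by
  have key : ∀ {A B}, Mn Ω A B → perp Ω A ⊆ perp Ω B := fun {A B} m R r => by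
    rcases r with rfl | r
    · exact Or.inr (h.ba.symm m.toEd)
    by_cases s : Mn Ω A R
    · exact adj_ll h s m
    · exact perp_symm h (adj_sl h qa (hZ A m.l) m r s)
  exact (key m).antisymm (key (h.ba.msymm m))

theorem perp_ne (e : Ed Ω A C) (s : ¬ Mn Ω A C) (n : ¬ ax A C ≤ zc Ω A) :
    perp Ω A = perp Ω C := by
  obtain ⟨x, hx, x1⟩ := SetLike.not_le_iff_exists.1 n
  obtain ⟨B, m, x2⟩ : ∃ B, Mn Ω A B ∧ x ∉ N[B] := by
    by_contra! H
    exact x1 (mem_zc.2 ⟨hx.1, H⟩)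
  have p := perp_mn h qa hZ m
  rcases adj_sl h qa (hZ A e.l) m e s with rfl | e'
  · exact p
  by_cases s' : Mn Ω C B
  · exact p.trans (perp_mn h qa hZ s').symm
  obtain ⟨c, c1, c2⟩ : ∃ c ∈ ax C B, c ∉ ax C A := SetLike.not_le_iff_exists.1 fun k => by
    have k1 := eq_of_le_of_card_ge k (hh_eq h (h.ba.symm e) (mt h.ba.msymm s) e' s').le
    rcases h.ba.modU e (ax A B) ax_le (H83.le_norm_inf ax_le_norm
      (H83.le_norm_norm (k1 ▸ ax_le_norm))) with k2 | k2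
    · exact s (h.ba.mn_of_le m e.r e.ne.symm (k2.trans ax_le_norm)).1
    · exact x2 (k2 hx).2
  obtain ⟨a, ha, -, -, a1, -⟩ := four h e s
  obtain ⟨t, -, -, -, -, ht, -, e1, -⟩ := h.bb.swap e a ha a1 c c1.1 c2
  let H : Subgroup G :=
    { carrier := {g | perp Ω (cj g A) = perp Ω A}
      one_mem' := congrArg _ (H83.cj_one A)
      mul_mem' := fun {g g'} a1 a2 => by
        rw [Set.mem_ofPred_eq, H83.cj_mul, perp_cj h.toTI a2, a1]
      inv_mem' := fun {g} a1 => by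
        rw [Set.mem_ofPred_eq, ← perp_cj h.toTI a1, H83.cj_inv_cj] }
  have : t ∈ H := (closure_le H).2 (by
    rintro _ (rfl | rfl)
    · exact congrArg _ (H83.cj_eq_self (le_normalizer ha))
    · exact (perp_cj h.toTI p _).trans ((congrArg _ (H83.cj_eq_self c1.2)).trans p.symm)) ht
  exact e1 ▸ Eq.symm this

theorem perp_eq (e : Ed Ω A C) (s : ¬ Mn Ω A C) (n : ax A C ≤ zc Ω A) :
    perp Ω A ⊆ perp Ω C ∧ ax C A ≤ zc Ω C := by
  have key : ∀ {P Q}, Ed Ω P Q → ¬ Mn Ω P Q → zc Ω P = ax P Q := fun e' s' =>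
    eq_of_le_of_card_ge (qa.zle e') ((hh_eq h e' s' e s).trans_le
      ((card_le_of_le n).trans_eq (card_eq h e.l e'.l).2))
  refine ⟨fun R r => ?_, (key (h.ba.symm e) (mt h.ba.msymm s)).ge⟩
  rcases r with rfl | r
  · exact Or.inr (h.ba.symm e)
  by_cases s' : Mn Ω A R
  · exact adj_sl h qa (hZ A e.l) s' e s
  obtain ⟨c, c1, c2⟩ := (bot_or_exists_ne_one _).resolve_left (h.ba.symm e).nb
  obtain ⟨r', r1, r2⟩ := (bot_or_exists_ne_one _).resolve_left (h.ba.symm r).nb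
  have h1 := qa.jw r s' r1
  rw [← key r s', key e s] at h1
  exact mem_perp e.r r.r c1.1 (h.ba.cent R r.r r' r1.1 r2 c
    (wk_comm h e.l ax_le h1 c (qa.jw e s c1))) c2

omit h qa hZ in
theorem qb : QBStmt.{u} := by
  intro G _ _ Ω K h qa A hA
  by_contra h0
  have hZ : ∀ P ∈ Ω, zc Ω P ≠ ⊥ := fun P hP e => h0 (card_eq_one.1 (by
    rw [(card_eq h hA hP).2, e, card_bot]))
  have h1 : ∀ {P Q}, Ed Ω P Q → perp Ω P = perp Ω Q := fun {P Q} e => by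
    by_cases s : Mn Ω P Q
    · exact perp_mn h qa hZ s
    by_cases n : ax P Q ≤ zc Ω P
    · have := perp_eq h qa hZ e s n
      exact this.1.antisymm (perp_eq h qa hZ (h.ba.symm e) (mt h.ba.msymm s) this.2).1
    · exact perp_ne h qa hZ e s n
  refine h0 (eq_bot_iff.2 fun z hz => h.hf.ker z fun P hP => ?_)
  have h2 : perp Ω A = perp Ω P := by
    induction h.conn A hA P hP with
    | refl => rfl
    | tail _ e ih => exact (ih e.l).trans (h1 e)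
  rcases (h2.ge (Or.inl rfl) : P ∈ perp Ω A) with rfl | e
  · exact le_normalizer (mem_zc.1 hz).1
  · exact (qa.zle e hz).2

end Cfsg.Agent.H21.TiQB
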