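import Cfsg.Agent.H42.VpDefs

/-! Project VP: the Frobenius quotient. -/

set_option autoImplicit false

namespace Cfsg.Agent.H21.VpF2

open Subgroup Cfsg Cfsg.Agent.H42.Vp
open scoped Pointwise

universe u

theorem f2 : F2Stmt.{u} := by
  intro G _ _ p hp K nK hK ⟨n, hn⟩ K1 loc ⟨x, ⟨m, hm⟩, xz⟩ hZ
  have : Fact p.Prime := ⟨hp⟩
  have hx : IsPGroup p (zpowers x) := by
    rintro ⟨_, j, rfl⟩
    refine ⟨m, Subtype.ext ?_⟩
    change (x ^ j) ^ p ^ m = 1
    rw [← zpow_natCast, ← zpow_mul, mul_comm, zpow_mul, zpow_natCast, hm, one_zpow]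
  obtain ⟨P, hP⟩ := hx.exists_le_sylow
  have ZP : center G ≤ P := hZ.le_sylow_of_normal P
  have dis : ∀ a ∈ (P : Subgroup G), a ∈ K → a = 1 := fun a h1 h2 => by
    obtain ⟨j, hj⟩ := P.isPGroup'.exists_card_eq
    have := inf_eq_bot_of_coprime (H := (P : Subgroup G)) (K := K) (by
      rw [hj]; exact (Nat.Coprime.pow_right j hK).symm)
    exact mem_bot.1 (this ▸ mem_inf.2 ⟨h1, h2⟩)
  have top : K ⊔ P = ⊤ := by
    have d1 : (K ⊔ P).index ∣ p ^ n := hn ▸ index_dvd_of_le le_sup_left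
    obtain ⟨j, -, hj⟩ := (Nat.dvd_prime_pow hp).1 d1
    rcases j with _ | j
    · exact index_eq_one.1 hj
    · exact absurd ((hj ▸ dvd_pow_self p j.succ_ne_zero).trans (index_dvd_of_le le_sup_right))
        P.not_dvd_index
  have mem : ∀ g : G, (g : G ⧸ center G) ∈ (P : Subgroup G).map (QuotientGroup.mk' (center G)) ↔
      g ∈ (P : Subgroup G) := fun g => by
    constructor
    · rintro ⟨a, ha, e⟩
      have := mul_mem ha (ZP (QuotientGroup.eq.1 e))
      simpa using this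
    · exact fun h => ⟨g, h, rfl⟩
  refine ⟨(P : Subgroup G).map (QuotientGroup.mk' (center G)), ⟨fun e => xz ?_, fun e => K1 ?_, fun g hg => ?_⟩,
    P.isPGroup'.map _⟩
  · have := (mem x).2 (hP (mem_zpowers x))
    rw [e, mem_bot] at this
    exact (QuotientGroup.eq_one_iff x).1 this
  · exact eq_bot_iff.2 fun k hk => dis k ((mem k).1 (e.ge (mem_top _))) hk
  · obtain ⟨g, rfl⟩ := QuotientGroup.mk_surjective g
    obtain ⟨k, hk, v, hv, rfl⟩ := mem_sup_of_normal_left.1 (top.ge (mem_top g))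
    have k1 : k ≠ 1 := fun e => hg ((mem _).2 (by rwa [e, one_mul]))
    refine eq_bot_iff.2 ?_
    rintro _ ⟨⟨a, ha, rfl⟩, h2⟩
    replace h2 := mem_pointwise_smul_iff_inv_smul_mem.1 h2
    have h3 : (k * v)⁻¹ * a * (k * v) ∈ (P : Subgroup G) := (mem _).1 (by simpa [mul_assoc] using h2)
    have h4 : k⁻¹ * a * k * a⁻¹ ∈ (P : Subgroup G) := by
      have := mul_mem (mul_mem (mul_mem hv h3) (inv_mem hv)) (inv_mem ha)
      simpa [mul_assoc] using this
    have h5 : k⁻¹ * a * k * a⁻¹ ∈ K := by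
      have := mul_mem (inv_mem hk) (nK.conj_mem k hk a)
      simpa [mul_assoc] using this
    have h6 := dis _ h4 h5
    obtain ⟨j, hj⟩ := P.isPGroup' ⟨a, ha⟩
    refine mem_bot.2 ((QuotientGroup.eq_one_iff a).2 (loc a ⟨j, congrArg Subtype.val hj⟩ k hk k1 ?_))
    calc a * k = k * (k⁻¹ * a * k * a⁻¹) * a := by group
      _ = k * a := by rw [h6, mul_one]

end Cfsg.Agent.H21.VpF2
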